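import Cfsg.Agent.H333.AltModelB
import Cfsg.Agent.TwoFusion.TransferIndex
import Cfsg.Agent.Lib.Cores

/-!
# A group with a 2-central involution whose centralizer is that of a fixed-point-free involution in `A₁₂`

If `O(G) = 1` and `α` is not isolated then `G` is simple.
-/

set_option autoImplicit false

namespace Cfsg.Agent.H333.AltGrp

open Cfsg.Agent.H333.AltModel Cfsg.Agent.Lib.Cores

variable {G : Type*} [Group G]

/-- the centralizer of the involution `α` is the image of `X` -/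
structure Hyp (α : G) (ι : X →* G) : Prop where
  ord : orderOf α = 2
  inj : Function.Injective ι
  range : ι.range = Subgroup.centralizer ({α} : Set G)

section
variable {α : G} {ι : X →* G} (h : Hyp α ι)
include h

theorem aa : α * α = 1 := by rw [← pow_two, ← h.ord]; exact pow_orderOf_eq_one α

theorem ne_one : α ≠ 1 := by
  intro h1
  have := h.ord
  rw [h1, orderOf_one] at this
  exact absurd this (by norm_num)

theorem mem_range {g : G} : g ∈ ι.range ↔ g * α = α * g := by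
  rw [h.range, Subgroup.mem_centralizer_singleton_iff]

theorem exists_pre {g : G} (hg : g * α = α * g) : ∃ x, ι x = g := (mem_range h).2 hg

theorem comm_range (x : X) : ι x * α = α * ι x := (mem_range h).1 ⟨x, rfl⟩

theorem map_a : ι ⟨a, a_mem⟩ = α := by
  obtain ⟨x, hx⟩ := exists_pre h rfl
  have h1 : (x : Equiv.Perm Pt) = 1 ∨ (x : Equiv.Perm Pt) = a := by
    refine center x.2 fun y hy => ?_
    have h2 : ι (x * ⟨y, hy⟩) = ι (⟨y, hy⟩ * x) := by
      rw [map_mul, map_mul, hx]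
      exact (comm_range h _).symm
    exact congrArg Subtype.val (h.inj h2)
  rcases h1 with h1 | h1
  · exfalso
    apply ne_one h
    have h2 : x = 1 := Subtype.ext h1
    rw [← hx, h2, map_one]
  · have h2 : x = ⟨a, a_mem⟩ := Subtype.ext h1
    rw [← h2]; exact hx

/-- `α` is not a square -/
theorem not_square (g : G) : g * g ≠ α := by
  intro h1
  obtain ⟨x, hx⟩ := exists_pre h (g := g) (by rw [← h1, mul_assoc])
  have h2 : x * x = ⟨a, a_mem⟩ := by
    apply h.inj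
    rw [map_mul, hx, h1, map_a h]
  exact not_sq x.2 (congrArg Subtype.val h2)

/-- conjugates of `α` are not squares -/
theorem not_square_conj (g y : G) : y * y ≠ g * α * g⁻¹ := by
  intro h1
  apply not_square h (g⁻¹ * y * g)
  have : g⁻¹ * y * g * (g⁻¹ * y * g) = g⁻¹ * (y * y) * g := by simp [mul_assoc]
  rw [this, h1]
  simp [mul_assoc]

/-- a conjugate of `α` in `V` is `α` -/
theorem eq_of_V (g : G) {v : Fin 6 → ZMod 2} (hv : mk v 1 ∈ X) (h1 : g * α * g⁻¹ = ι ⟨mk v 1, hv⟩) :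
    g * α * g⁻¹ = α := by
  by_cases h0 : v = 0
  · exfalso
    apply ne_one h
    have h2 : (⟨mk v 1, hv⟩ : X) = 1 := Subtype.ext (by show mk v 1 = 1; rw [h0, mk_one])
    rw [h2, map_one] at h1
    have := congrArg (fun z => g⁻¹ * z * g) h1
    simpa [mul_assoc] using this
  by_cases h2 : v = 1
  · rw [h1, ← map_a h]
    congr 1
    exact Subtype.ext (by show mk v 1 = a; rw [h2]; rfl)
  · exfalso
    obtain ⟨y, hy, hy2⟩ := exists_sq (mk_mem.1 hv) h0 h2
    apply not_square_conj h g (ι ⟨y, hy⟩)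
    rw [h1, ← map_mul]
    congr 1
    exact Subtype.ext hy2

/-- the preimage in `Perm Pt` of a subgroup of `G` -/
def pre (_h : Hyp α ι) (M : Subgroup G) : Subgroup (Equiv.Perm Pt) := (M.comap ι).map X.subtype

theorem mem_pre {M : Subgroup G} {x : Equiv.Perm Pt} : x ∈ pre h M ↔ ∃ hx : x ∈ X, ι ⟨x, hx⟩ ∈ M := by
  constructor
  · rintro ⟨y, hy, rfl⟩
    exact ⟨y.2, hy⟩
  · rintro ⟨hx, h1⟩
    exact ⟨⟨x, hx⟩, h1, rfl⟩

theorem pre_le (M : Subgroup G) : pre h M ≤ X := by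
  rintro _ ⟨y, hy, rfl⟩
  exact y.2

theorem pre_conj {M : Subgroup G} (hM : M.Normal) : ∀ x ∈ X, ∀ k ∈ pre h M, x * k * x⁻¹ ∈ pre h M := by
  rintro x hx k hk
  rw [mem_pre h] at hk ⊢
  obtain ⟨hk1, hk2⟩ := hk
  refine ⟨X.mul_mem (X.mul_mem hx hk1) (X.inv_mem hx), ?_⟩
  have h1 := hM.conj_mem _ hk2 (ι ⟨x, hx⟩)
  rw [← map_inv, ← map_mul, ← map_mul] at h1
  exact h1

/-- `V` as a subgroup of `G` -/
def VG (_h : Hyp α ι) : Subgroup G where
  carrier := {g | ∃ v, ∃ hv : mk v 1 ∈ X, g = ι ⟨mk v 1, hv⟩}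
  mul_mem' := by
    rintro _ _ ⟨v, hv, rfl⟩ ⟨w, hw, rfl⟩
    refine ⟨v + w, ?_, ?_⟩
    · rw [← mk_one_mul]; exact X.mul_mem hv hw
    · rw [← map_mul]
      congr 1
      exact Subtype.ext (mk_one_mul v w)
  one_mem' := ⟨0, by rw [mk_one]; exact X.one_mem, by
    rw [← map_one ι]
    congr 1
    exact Subtype.ext mk_one.symm⟩
  inv_mem' := by
    rintro _ ⟨v, hv, rfl⟩
    refine ⟨v, hv, ?_⟩
    rw [← map_inv]
    congr 1
    exact Subtype.ext (mk_inv_one v)

theorem VG_two : IsPGroup 2 (VG h) := by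
  rintro ⟨g, v, hv, rfl⟩
  refine ⟨1, ?_⟩
  apply Subtype.ext
  show (ι ⟨mk v 1, hv⟩) ^ (2 ^ 1) = 1
  rw [pow_one, pow_two, ← map_mul, ← map_one ι]
  congr 1
  apply Subtype.ext
  show mk v 1 * mk v 1 = 1
  rw [mk_one_mul, add_self, mk_one]

theorem VG_comm {x y : G} (hx : x ∈ VG h) (hy : y ∈ VG h) : x * y = y * x := by
  obtain ⟨v, hv, rfl⟩ := hx
  obtain ⟨w, hw, rfl⟩ := hy
  rw [← map_mul, ← map_mul]
  congr 1
  apply Subtype.ext
  show mk v 1 * mk w 1 = mk w 1 * mk v 1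
  rw [mk_one_mul, mk_one_mul, add_comm]

theorem VG_normal {c g : G} (hc : c * α = α * c) (hg : g ∈ VG h) : c * g * c⁻¹ ∈ VG h := by
  obtain ⟨x, rfl⟩ := exists_pre h hc
  obtain ⟨v, hv, rfl⟩ := hg
  obtain ⟨w, σ, hx, hw⟩ := mem_X.1 x.2
  have h1 : mk w σ * mk v 1 * (mk w σ)⁻¹ = mk (v ∘ ⇑σ.symm) 1 := by
    rw [mul_inv_eq_iff_eq_mul, mk_mul, mk_mul, mul_one, one_mul, add_comm]
    rfl
  have h2 : mk (v ∘ ⇑σ.symm) 1 ∈ X := by
    rw [← h1, ← hx]
    exact X.mul_mem (X.mul_mem x.2 hv) (X.inv_mem x.2)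
  refine ⟨v ∘ ⇑σ.symm, h2, ?_⟩
  rw [← map_inv, ← map_mul, ← map_mul]
  congr 1
  apply Subtype.ext
  show (x : Equiv.Perm Pt) * mk v 1 * (x : Equiv.Perm Pt)⁻¹ = mk (v ∘ ⇑σ.symm) 1
  rw [hx, h1]

theorem VG_cent {g : G} (hg : g * α = α * g) (hg2 : ∀ x ∈ VG h, g * x = x * g) : g ∈ VG h := by
  obtain ⟨x, rfl⟩ := exists_pre h hg
  obtain ⟨v, hv, hv2⟩ := cent x.2 (fun v hv => by
    have hv' : mk v 1 ∈ X := mk_mem.2 hv
    have h1 := hg2 _ ⟨v, hv', rfl⟩
    rw [← map_mul, ← map_mul] at h1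
    exact congrArg Subtype.val (h.inj h1))
  refine ⟨v, mk_mem.2 hv2, ?_⟩
  congr 1
  exact Subtype.ext hv

theorem eq_of_VG {g : G} (hg : g * α * g⁻¹ ∈ VG h) : g * α * g⁻¹ = α := by
  obtain ⟨v, hv, h1⟩ := hg
  exact eq_of_V h g hv h1

variable [Finite G] (S : Sylow 2 G) (hS : ∀ s ∈ (S : Subgroup G), s * α = α * s) (hαS : α ∈ (S : Subgroup G))
include hS hαS

omit hαS in
theorem VG_le : VG h ≤ (S : Subgroup G) := by
  have h1 : IsPGroup 2 ((S : Subgroup G) ⊔ VG h : Subgroup G) := by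
    refine S.2.to_sup_of_normal_right' (VG_two h) ?_
    intro s hs
    rw [Subgroup.mem_normalizer_iff]
    intro z
    constructor
    · intro hz; exact VG_normal h (hS s hs) hz
    · intro hz
      have h2 := VG_normal h (hS s⁻¹ (S.inv_mem hs)) hz
      simpa [mul_assoc] using h2
  have h2 := S.3 h1 le_sup_left
  rw [← h2]
  exact le_sup_right

/-- `N_G(S)` centralises `α` -/
theorem normalizer_le {n : G} (hn : n ∈ Subgroup.normalizer ((S : Subgroup G) : Set G)) : n * α = α * n := by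
  have h1 : ∀ s ∈ (S : Subgroup G), (n * α * n⁻¹) * s = s * (n * α * n⁻¹) := by
    intro s hs
    have h2 : n⁻¹ * s * n ∈ (S : Subgroup G) := by
      have := (Subgroup.mem_normalizer_iff.1 (Subgroup.inv_mem _ hn) s).1 hs
      simpa using this
    have h3 := hS _ h2
    calc n * α * n⁻¹ * s = n * (α * (n⁻¹ * s * n)) * n⁻¹ := by simp [mul_assoc]
      _ = n * ((n⁻¹ * s * n) * α) * n⁻¹ := by rw [h3]
      _ = _ := by simp [mul_assoc]
  have h2 : n * α * n⁻¹ ∈ VG h :=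
    VG_cent h (h1 α hαS) (fun x hx => h1 x (VG_le h S hS hx))
  exact mul_inv_eq_iff_eq_mul.1 (eq_of_VG h h2)

/-- A nontrivial normal subgroup contains `α`, if `O(G) = 1`. -/
theorem mem_of_normal (hO : Cfsg.pPrimeCore 2 G = ⊥) {M : Subgroup G} (hM : M.Normal) (hne : M ≠ ⊥) : α ∈ M := by
  have hMS : M ⊓ (S : Subgroup G) ≠ ⊥ := by
    intro h1
    apply hne
    have h2 := TwoFusion.TransferIndex.not_dvd_relIndex_inf S M
    rw [h1, Subgroup.relIndex_bot_left] at h2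
    have h3 : M ≤ Cfsg.pPrimeCore 2 G := le_pPrimeCore hM (by
      rw [Nat.coprime_comm]
      exact (Nat.Prime.coprime_iff_not_dvd Nat.prime_two).2 h2)
    rw [hO] at h3
    exact le_bot_iff.1 h3
  obtain ⟨⟨m, hm⟩, hm1⟩ := (Subgroup.ne_bot_iff_exists_ne_one).1 hMS
  have hm' := Subgroup.mem_inf.1 hm
  obtain ⟨x, hx⟩ := exists_pre h (hS m hm'.2)
  have hK : pre h M ≠ ⊥ := by
    intro h1
    have h2 : (x : Equiv.Perm Pt) ∈ pre h M := (mem_pre h).2 ⟨x.2, by
      have : ι ⟨(x : Equiv.Perm Pt), x.2⟩ = m := hx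
      rw [this]; exact hm'.1⟩
    rw [h1, Subgroup.mem_bot] at h2
    apply hm1
    apply Subtype.ext
    show m = 1
    have h3 : x = 1 := Subtype.ext h2
    rw [← hx, h3, map_one]
  have h1 := a_mem_normal (pre_le h M) (pre_conj h hM) hK
  obtain ⟨h2, h3⟩ := (mem_pre h).1 h1
  rw [map_a h] at h3
  exact h3

/-- **Simplicity**: if `O(G) = 1` and `α` is not isolated, every nontrivial normal subgroup is `G`. -/
theorem eq_top (hO : Cfsg.pPrimeCore 2 G = ⊥) {g₀ : G} (hg₀ : g₀ * α * g₀⁻¹ ∈ (S : Subgroup G))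
    (hg₁ : g₀ * α * g₀⁻¹ ≠ α) {M : Subgroup G} (hM : M.Normal) (hne : M ≠ ⊥) : M = ⊤ := by
  have hαM := mem_of_normal h S hS hαS hO hM hne
  rcases normal_cases (pre_le h M) (pre_conj h hM) with hK | hK
  · -- `M ∩ C ≤ V`
    exfalso
    have hMC : ∀ m ∈ M, m * α = α * m → m ∈ VG h := by
      intro m hm hmα
      obtain ⟨x, hx⟩ := exists_pre h hmα
      obtain ⟨v, hv⟩ := hK x ((mem_pre h).2 ⟨x.2, by
        have : ι ⟨(x : Equiv.Perm Pt), x.2⟩ = m := hx
        rw [this]; exact hm⟩)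
      refine ⟨v, by rw [← hv]; exact x.2, ?_⟩
      rw [← hx]
      congr 1
      exact Subtype.ext hv
    -- the Sylow subgroup `T = M ∩ S` of `M`
    have hidx := TwoFusion.TransferIndex.not_dvd_relIndex_inf S M
    have hTp : IsPGroup 2 ((M ⊓ (S : Subgroup G)).subgroupOf M) := by
      have h1 : IsPGroup 2 (M ⊓ (S : Subgroup G) : Subgroup G) := S.2.to_le inf_le_right
      exact h1.of_equiv (Subgroup.subgroupOfEquivOfLe inf_le_left).symm
    let T : Sylow 2 M := hTp.toSylow hidx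
    have hTmem : ∀ m : M, m ∈ (T : Subgroup M) ↔ (m : G) ∈ (S : Subgroup G) := by
      intro m
      show m ∈ (M ⊓ (S : Subgroup G)).subgroupOf M ↔ _
      rw [Subgroup.mem_subgroupOf, Subgroup.mem_inf]
      exact ⟨fun h => h.2, fun h => ⟨m.2, h⟩⟩
    have hTV : ∀ m : M, m ∈ (T : Subgroup M) → (m : G) ∈ VG h := by
      intro m hm
      exact hMC m m.2 (hS m ((hTmem m).1 hm))
    have hTN : Subgroup.normalizer ((T : Subgroup M) : Set M) ≤ Subgroup.centralizer ((T : Subgroup M) : Set M) := by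
      intro n hn
      have h1 : (⟨α, hαM⟩ : M) ∈ (T : Subgroup M) := (hTmem _).2 hαS
      have h2 : n * ⟨α, hαM⟩ * n⁻¹ ∈ (T : Subgroup M) := (Subgroup.mem_normalizer_iff.1 hn _).1 h1
      have h3 : (n : G) * α * (n : G)⁻¹ ∈ VG h := hTV _ h2
      have h4 : (n : G) * α = α * n := mul_inv_eq_iff_eq_mul.1 (eq_of_VG h h3)
      have h5 : (n : G) ∈ VG h := hMC n n.2 h4
      rw [Subgroup.mem_centralizer_iff]
      intro t ht
      apply Subtype.ext
      exact VG_comm h (hTV t ht) h5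
    have hcomp := MonoidHom.ker_transferSylow_isComplement' T hTN
    have hndvd := MonoidHom.not_dvd_card_ker_transferSylow T hTN
    set N := (MonoidHom.transferSylow T hTN).ker with hNdef
    have hN1 : N ≤ Cfsg.pPrimeCore 2 M := le_pPrimeCore (MonoidHom.normal_ker _) (by
      rw [Nat.coprime_comm]
      exact (Nat.Prime.coprime_iff_not_dvd Nat.prime_two).2 hndvd)
    have hN2 : Cfsg.pPrimeCore 2 M = ⊥ := by
      have h1 := map_subtype_pPrimeCore 2 hM
      rw [hO, inf_bot_eq] at h1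
      exact (Subgroup.map_eq_bot_iff_of_injective _ M.subtype_injective).1 h1
    have hN3 : N = ⊥ := le_bot_iff.1 (hN1.trans hN2.le)
    have hTtop : (T : Subgroup M) = ⊤ := by
      have h1 := hcomp.sup_eq_top
      rw [hN3, bot_sup_eq] at h1
      exact h1
    -- all conjugates of `α` are in `M = T ≤ V`
    apply hg₁
    apply eq_of_VG h
    have h1 : g₀ * α * g₀⁻¹ ∈ M := hM.conj_mem α hαM g₀
    have h2 := hTV ⟨_, h1⟩ (by rw [hTtop]; exact Subgroup.mem_top _)
    exact h2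
  · by_cases hodd : ∃ v σ, mk v σ ∈ pre h M ∧ Equiv.Perm.sign σ = -1
    · -- `C ≤ M`
      obtain ⟨v, σ, hvσ, hσ⟩ := hodd
      have hCM : ∀ c : G, c * α = α * c → c ∈ M := by
        intro c hc
        obtain ⟨x, rfl⟩ := exists_pre h hc
        obtain ⟨w, ρ, hx, hw⟩ := mem_X.1 x.2
        have h1 : (x : Equiv.Perm Pt) ∈ pre h M := by
          rcases Int.units_eq_one_or (Equiv.Perm.sign ρ) with h2 | h2
          · rw [hx]; exact hK w ρ hw h2
          · have hvX : mk v σ ∈ X := pre_le h M hvσ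
            have h3 : mk w ρ * mk v σ ∈ pre h M := by
              rw [mk_mul]
              apply hK
              · have h4 : mk w ρ * mk v σ ∈ X := X.mul_mem (mk_mem.2 hw) hvX
                rw [mk_mul] at h4
                exact mk_mem.1 h4
              · rw [Equiv.Perm.sign_mul, h2, hσ]; rfl
            have h4 : (x : Equiv.Perm Pt) = (mk w ρ * mk v σ) * (mk v σ)⁻¹ := by
              rw [hx]; simp
            rw [h4]
            exact Subgroup.mul_mem _ h3 (Subgroup.inv_mem _ hvσ)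
        obtain ⟨h2, h3⟩ := (mem_pre h).1 h1
        exact h3
      have hSM : (S : Subgroup G) ≤ M := fun s hs => hCM s (hS s hs)
      have h1 := Sylow.normalizer_sup_eq_top' (N := M) S hSM
      rw [eq_top_iff, ← h1]
      refine sup_le ?_ le_rfl
      intro n hn
      exact hCM n (normalizer_le h S hS hαS hn)
    · -- `M ∩ C = 2⁵A₆`
      exfalso
      push Not at hodd
      have hMC : ∀ m ∈ M, m * α = α * m → m * m = 1 → (m ∈ VG h) ∨ (∃ y, y * y = m) ∨
          (∃ c : X, ι c * ι ⟨bb, bb_mem⟩ * (ι c)⁻¹ = m) := by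
        intro m hm hmα hmm
        obtain ⟨x, rfl⟩ := exists_pre h hmα
        obtain ⟨w, ρ, hx, hw⟩ := mem_X.1 x.2
        have h1 : mk w ρ ∈ pre h M := (mem_pre h).2 ⟨by rw [← hx]; exact x.2, by
          have : (⟨mk w ρ, by rw [← hx]; exact x.2⟩ : X) = x := Subtype.ext hx.symm
          rw [this]; exact hm⟩
        have h2 : Equiv.Perm.sign ρ = 1 :=
          (Int.units_eq_one_or _).resolve_right (hodd w ρ h1)
        have h3 : mk w ρ * mk w ρ = 1 := by
          rw [← hx]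
          have h4 : x * x = 1 := h.inj (by rw [map_mul, hmm, map_one])
          exact congrArg Subtype.val h4
        rcases inv_cases hw h2 h3 with h4 | ⟨y, hy, hy2⟩ | ⟨c, hc, hc2⟩
        · left
          refine ⟨w, mk_mem.2 hw, ?_⟩
          congr 1
          exact Subtype.ext (by show (x : Equiv.Perm Pt) = mk w 1; rw [hx, h4])
        · right; left
          refine ⟨ι ⟨y, hy⟩, ?_⟩
          rw [← map_mul]
          congr 1
          exact Subtype.ext (by show y * y = (x : Equiv.Perm Pt); rw [hy2, hx])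
        · right; right
          refine ⟨⟨c, hc⟩, ?_⟩
          rw [← map_inv, ← map_mul, ← map_mul]
          congr 1
          exact Subtype.ext (by show c * bb * c⁻¹ = (x : Equiv.Perm Pt); rw [hc2, hx])
      have hsq : ∀ g : G, (g * α * g⁻¹) * (g * α * g⁻¹) = 1 := by
        intro g
        have : g * α * g⁻¹ * (g * α * g⁻¹) = g * (α * α) * g⁻¹ := by simp [mul_assoc]
        rw [this, aa h]; simp
      -- conjugates of `α` in `C`
      have hD : ∀ g : G, (g * α * g⁻¹) * α = α * (g * α * g⁻¹) → g * α * g⁻¹ = α ∨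
          ∃ c : X, ι c * ι ⟨bb, bb_mem⟩ * (ι c)⁻¹ = g * α * g⁻¹ := by
        intro g hg
        rcases hMC _ (hM.conj_mem α hαM g) hg (hsq g) with h1 | ⟨y, hy⟩ | h1
        · exact Or.inl (eq_of_VG h h1)
        · exact absurd hy (not_square_conj h g y)
        · exact Or.inr h1
      -- `b` is conjugate to `α`
      obtain ⟨k, hk⟩ : ∃ k, k * α * k⁻¹ = ι ⟨bb, bb_mem⟩ := by
        rcases hD g₀ (hS _ hg₀) with h1 | ⟨c, hc⟩
        · exact absurd h1 hg₁
        · refine ⟨(ι c)⁻¹ * g₀, ?_⟩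
          have : (ι c)⁻¹ * g₀ * α * ((ι c)⁻¹ * g₀)⁻¹ = (ι c)⁻¹ * (g₀ * α * g₀⁻¹) * ι c := by
            simp [mul_assoc]
          rw [this, ← hc]
          simp [mul_assoc]
      -- products of commuting conjugates are not conjugates
      have hP : ∀ g l : G, (g * α * g⁻¹) * (l * α * l⁻¹) = (l * α * l⁻¹) * (g * α * g⁻¹) →
          ∀ r : G, (g * α * g⁻¹) * (l * α * l⁻¹) ≠ r * α * r⁻¹ := by
        intro g l hgl r hr
        -- conjugate by `g⁻¹`
        have e1 : (g⁻¹ * l) * α * (g⁻¹ * l)⁻¹ = g⁻¹ * (l * α * l⁻¹) * g := by simp [mul_assoc]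
        have e2 : g⁻¹ * (g * α * g⁻¹) * g = α := by simp [mul_assoc]
        have c1 : ((g⁻¹ * l) * α * (g⁻¹ * l)⁻¹) * α = α * ((g⁻¹ * l) * α * (g⁻¹ * l)⁻¹) := by
          rw [e1]
          have := congrArg (fun z => g⁻¹ * z * g) hgl
          simpa [mul_assoc] using this.symm
        have c2 : α * ((g⁻¹ * l) * α * (g⁻¹ * l)⁻¹) = (g⁻¹ * r) * α * (g⁻¹ * r)⁻¹ := by
          rw [e1]
          have := congrArg (fun z => g⁻¹ * z * g) hr
          simpa [mul_assoc] using this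
        rcases hD _ c1 with h1 | ⟨c, hc⟩
        · rw [h1, aa h] at c2
          apply ne_one h
          have := congrArg (fun z => (g⁻¹ * r)⁻¹ * z * (g⁻¹ * r)) c2
          simpa [mul_assoc] using this.symm
        · obtain ⟨y, hy, hy2⟩ := ab_sq
          apply not_square_conj h (g⁻¹ * r) (ι c * ι ⟨y, hy⟩ * (ι c)⁻¹)
          rw [← c2, ← hc]
          have e3 : ι c * ι ⟨y, hy⟩ * (ι c)⁻¹ * (ι c * ι ⟨y, hy⟩ * (ι c)⁻¹) =
              ι c * (ι ⟨y, hy⟩ * ι ⟨y, hy⟩) * (ι c)⁻¹ := by simp [mul_assoc]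
          have e4 : ι ⟨y, hy⟩ * ι ⟨y, hy⟩ = α * ι ⟨bb, bb_mem⟩ := by
            rw [← map_mul, ← map_a h, ← map_mul]
            congr 1
            exact Subtype.ext hy2
          rw [e3, e4, ← mul_assoc, comm_range h c]
          simp [mul_assoc]
      obtain ⟨c, hc, d, hd, t1, t2⟩ := triple
      have e1 : (ι ⟨c, hc⟩ * k) * α * (ι ⟨c, hc⟩ * k)⁻¹ = ι ⟨c * bb * c⁻¹, X.mul_mem (X.mul_mem hc bb_mem) (X.inv_mem hc)⟩ := by
        have : (ι ⟨c, hc⟩ * k) * α * (ι ⟨c, hc⟩ * k)⁻¹ = ι ⟨c, hc⟩ * (k * α * k⁻¹) * (ι ⟨c, hc⟩)⁻¹ := by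
          simp [mul_assoc]
        rw [this, hk, ← map_inv, ← map_mul, ← map_mul]
        rfl
      have e2 : (ι ⟨d, hd⟩ * k) * α * (ι ⟨d, hd⟩ * k)⁻¹ = ι ⟨d * bb * d⁻¹, X.mul_mem (X.mul_mem hd bb_mem) (X.inv_mem hd)⟩ := by
        have : (ι ⟨d, hd⟩ * k) * α * (ι ⟨d, hd⟩ * k)⁻¹ = ι ⟨d, hd⟩ * (k * α * k⁻¹) * (ι ⟨d, hd⟩)⁻¹ := by
          simp [mul_assoc]
        rw [this, hk, ← map_inv, ← map_mul, ← map_mul]
        rfl
      apply hP k (ι ⟨c, hc⟩ * k) _ (ι ⟨d, hd⟩ * k)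
      · rw [e1, e2, hk, ← map_mul]
        congr 1
        exact Subtype.ext t2
      · rw [e1, hk, ← map_mul, ← map_mul]
        congr 1
        exact Subtype.ext t1

end

end Cfsg.Agent.H333.AltGrp
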