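import Mathlib

/-!
# The centralizer of a fixed-point-free involution in the alternating group of degree 12 (helper333)

`mk v σ : (i, b) ↦ (σ i, b + v (σ i))` on `Fin 6 × ZMod 2`.
-/

set_option autoImplicit false

namespace Cfsg.Agent.H333.AltModel

open Equiv

/-- points -/
abbrev Pt := Fin 6 × ZMod 2

/-- signed permutations -/
def mk (v : Fin 6 → ZMod 2) (σ : Perm (Fin 6)) : Perm Pt where
  toFun p := (σ p.1, p.2 + v (σ p.1))
  invFun p := (σ.symm p.1, p.2 - v p.1)
  left_inv p := by simp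
  right_inv p := by simp

theorem mk_apply (v : Fin 6 → ZMod 2) (σ : Perm (Fin 6)) (p : Pt) : mk v σ p = (σ p.1, p.2 + v (σ p.1)) := rfl

theorem mk_mul (v w : Fin 6 → ZMod 2) (σ τ : Perm (Fin 6)) :
    mk v σ * mk w τ = mk (v + w ∘ ⇑σ.symm) (σ * τ) := by
  ext1 p
  rw [Perm.mul_apply, mk_apply, mk_apply, mk_apply]
  simp only [Perm.mul_apply, Pi.add_apply, Function.comp_apply, symm_apply_apply]
  ext1
  · rfl
  · show p.2 + w (τ p.1) + v (σ (τ p.1)) = p.2 + (v (σ (τ p.1)) + w (τ p.1))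
    ring

theorem mk_inj {v w : Fin 6 → ZMod 2} {σ τ : Perm (Fin 6)} (h : mk v σ = mk w τ) : v = w ∧ σ = τ := by
  have h1 : σ = τ := by
    ext1 i
    have := congrArg (fun g : Perm Pt => (g (i, 0)).1) h
    exact this
  subst h1
  refine ⟨?_, rfl⟩
  ext1 i
  have := congrArg (fun g : Perm Pt => (g (σ.symm i, 0)).2) h
  simpa [mk_apply] using this

theorem mk_one : mk 0 1 = 1 := by
  ext1 p
  rw [mk_apply]
  simp

/-- the fixed-point-free involution -/
def a : Perm Pt := mk 1 1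

/-- elements commuting with `a` -/
theorem exists_mk {g : Perm Pt} (h : g * a = a * g) : ∃ v σ, g = mk v σ := by
  have h1 : ∀ i b, g (i, b + 1) = ((g (i, b)).1, (g (i, b)).2 + 1) := by
    intro i b
    have := congrArg (fun k : Perm Pt => k (i, b)) h
    simpa [a, mk_apply, Perm.mul_apply] using this
  have hz : ∀ b : ZMod 2, b = 0 ∨ b = 1 := by decide
  have h2 : ∀ i b, g (i, b) = ((g (i, 0)).1, b + (g (i, 0)).2) := by
    intro i b
    rcases hz b with rfl | rfl
    · simp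
    · have := h1 i 0
      rw [zero_add] at this
      rw [this, add_comm]
  let s : Fin 6 → Fin 6 := fun i => (g (i, 0)).1
  have hs : Function.Injective s := by
    intro i j hij
    have h3 : g (i, (g (j, 0)).2 - (g (i, 0)).2) = g (j, 0) := by
      rw [h2]
      have : (g (i, 0)).1 = (g (j, 0)).1 := hij
      rw [this]
      simp
    exact congrArg Prod.fst (g.injective h3)
  let σ : Perm (Fin 6) := Equiv.ofBijective s (Finite.injective_iff_bijective.1 hs)
  refine ⟨fun i => (g (σ.symm i, 0)).2, σ, ?_⟩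
  ext1 ⟨i, b⟩
  rw [h2, mk_apply]
  simp only [symm_apply_apply]
  rfl

theorem mk_comm (v : Fin 6 → ZMod 2) (σ : Perm (Fin 6)) : mk v σ * a = a * mk v σ := by
  unfold a
  rw [mk_mul, mk_mul]
  congr 1
  ext1 i
  show v i + 1 = 1 + v i
  exact add_comm _ _

/-- the sign of `mk v σ` -/
theorem sign_mk (v : Fin 6 → ZMod 2) (σ : Perm (Fin 6)) :
    Perm.sign (mk v σ) = if ∑ i, v i = 0 then 1 else -1 := by
  have h1 : mk v σ = mk v 1 * mk 0 σ := by
    rw [mk_mul, one_mul]
    congr 1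
    ext1 i; simp
  have h2 : mk 0 σ = (prodCongrLeft (fun _ : ZMod 2 => σ) : Perm Pt) := by
    ext1 p
    rw [mk_apply]
    show (σ p.1, p.2 + 0) = (σ p.1, p.2)
    rw [add_zero]
  have h3 : mk v 1 = (prodCongrRight (fun i : Fin 6 => Equiv.addRight (v i)) : Perm Pt) := by
    ext1 p
    rw [mk_apply]
    rfl
  rw [h1, Perm.sign_mul, h2, h3, Perm.sign_prodCongrLeft, Perm.sign_prodCongrRight]
  have h4 : ∏ _k : ZMod 2, Perm.sign σ = 1 := by
    rw [Finset.prod_const]
    show Perm.sign σ ^ 2 = 1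
    exact Int.units_sq _
  rw [h4, mul_one]
  have h5 : ∀ x : ZMod 2, Perm.sign (Equiv.addRight x) = if x = 0 then 1 else -1 := by decide
  have h6 : ∀ x y : ZMod 2, (if x + y = 0 then (1 : ℤˣ) else -1) =
      (if x = 0 then 1 else -1) * (if y = 0 then 1 else -1) := by decide
  simp only [h5]
  clear h1 h2 h3 h4 h5
  induction (Finset.univ : Finset (Fin 6)) using Finset.induction_on with
  | empty => simp
  | insert i s hi ih => rw [Finset.prod_insert hi, Finset.sum_insert hi, h6, ih]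

/-- the group `C_{A₁₂}(a)` -/
def X : Subgroup (Perm Pt) where
  carrier := {g | g * a = a * g ∧ Perm.sign g = 1}
  mul_mem' := by
    rintro g h ⟨hg1, hg2⟩ ⟨hh1, hh2⟩
    refine ⟨?_, by rw [Perm.sign_mul, hg2, hh2, one_mul]⟩
    rw [mul_assoc, hh1, ← mul_assoc, hg1, mul_assoc]
  one_mem' := ⟨by rw [one_mul, mul_one], Perm.sign_one⟩
  inv_mem' := by
    rintro g ⟨hg1, hg2⟩
    refine ⟨?_, by rw [Perm.sign_inv, hg2]⟩
    rw [inv_mul_eq_iff_eq_mul, ← mul_assoc, eq_mul_inv_iff_mul_eq, hg1]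

theorem mk_mem {v : Fin 6 → ZMod 2} {σ : Perm (Fin 6)} : mk v σ ∈ X ↔ ∑ i, v i = 0 := by
  constructor
  · rintro ⟨-, h⟩
    rw [sign_mk] at h
    by_contra hne
    rw [if_neg hne] at h
    exact absurd h (by decide)
  · intro h
    exact ⟨mk_comm v σ, by rw [sign_mk, if_pos h]⟩

theorem mem_X {g : Perm Pt} : g ∈ X ↔ ∃ v σ, g = mk v σ ∧ ∑ i, v i = 0 := by
  constructor
  · intro h
    obtain ⟨v, σ, rfl⟩ := exists_mk h.1
    exact ⟨v, σ, rfl, mk_mem.1 h⟩
  · rintro ⟨v, σ, rfl, h⟩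
    exact mk_mem.2 h

theorem sum_comp (w : Fin 6 → ZMod 2) (σ : Perm (Fin 6)) : ∑ i, (w ∘ ⇑σ) i = ∑ i, w i :=
  Equiv.sum_comp σ w

theorem a_mem : a ∈ X := mk_mem.2 (by decide)

/-- **`a` is not a square in `X`.** -/
theorem not_sq {g : Perm Pt} (hg : g ∈ X) : g * g ≠ a := by
  obtain ⟨v, σ, rfl, hv⟩ := mem_X.1 hg
  intro h
  rw [mk_mul] at h
  obtain ⟨h1, h2⟩ := mk_inj h
  have h3 : ∀ i, v (σ.symm i) = v i + 1 := by
    intro i
    have h4 := congrFun h1 i
    have h5 : v i + v (σ.symm i) = 1 := h4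
    have h6 : ∀ x y : ZMod 2, x + y = 1 → y = x + 1 := by decide
    exact h6 _ _ h5
  -- as many ones as zeros
  have h4 : (Finset.univ.filter (fun i => v i = 1)).card = (Finset.univ.filter (fun i => v i = 0)).card := by
    apply Finset.card_bij (fun i _ => σ.symm i)
    · intro i hi
      rw [Finset.mem_filter] at hi ⊢
      refine ⟨Finset.mem_univ _, ?_⟩
      rw [h3, hi.2]; decide
    · intro i _ j _ hij
      exact σ.symm.injective hij
    · intro j hj
      rw [Finset.mem_filter] at hj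
      refine ⟨σ j, ?_, by simp⟩
      rw [Finset.mem_filter]
      refine ⟨Finset.mem_univ _, ?_⟩
      have h5 := h3 (σ j)
      rw [symm_apply_apply, hj.2] at h5
      have h6 : ∀ x : ZMod 2, 0 = x + 1 → x = 1 := by decide
      exact h6 _ h5
  have h5 : ∀ v : Fin 6 → ZMod 2, ∑ i, v i = 0 →
      (Finset.univ.filter (fun i => v i = 1)).card ≠ (Finset.univ.filter (fun i => v i = 0)).card := by
    decide +kernel
  exact h5 v hv h4

/-- unit vectors -/
def e (i : Fin 6) : Fin 6 → ZMod 2 := Pi.single i 1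

theorem e_comp (i : Fin 6) (σ : Perm (Fin 6)) : e i ∘ ⇑σ.symm = e (σ i) := by
  ext1 j
  show (Pi.single i 1 : Fin 6 → ZMod 2) (σ.symm j) = (Pi.single (σ i) 1 : Fin 6 → ZMod 2) j
  rw [Pi.single_apply, Pi.single_apply]
  by_cases h : j = σ i
  · rw [if_pos h, if_pos (by rw [h, symm_apply_apply])]
  · rw [if_neg h, if_neg (fun h2 => h (by rw [← h2, apply_symm_apply]))]

theorem sum_e (i : Fin 6) : ∑ j, e i j = 1 := by
  revert i; decide

theorem sum_ee (i j : Fin 6) : ∑ k, (e i + e j) k = 0 := by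
  revert i j; decide

theorem add_self (v : Fin 6 → ZMod 2) : v + v = 0 := by
  ext1 i
  have : ∀ x : ZMod 2, x + x = 0 := by decide
  exact this _

/-- **The elements `mk v 1`, `v ≠ 0, 1`, are squares in `X`.** -/
theorem exists_sq {v : Fin 6 → ZMod 2} (hv : ∑ i, v i = 0) (h0 : v ≠ 0) (h1 : v ≠ 1) :
    ∃ g ∈ X, g * g = mk v 1 := by
  have key : ∀ v : Fin 6 → ZMod 2, ∑ i, v i = 0 → v = 0 ∨ v = 1 ∨
      ∃ i j k l : Fin 6, swap i j * swap k l = swap k l * swap i j ∧
        (e i + e k) + (e i + e k) ∘ ⇑(swap i j * swap k l : Perm (Fin 6)).symm = v := by decide +kernel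
  rcases key v hv with h | h | ⟨i, j, k, l, h2, h3⟩
  · exact absurd h h0
  · exact absurd h h1
  · refine ⟨mk (e i + e k) (swap i j * swap k l), mk_mem.2 (sum_ee i k), ?_⟩
    rw [mk_mul, h3]
    congr 1
    calc swap i j * swap k l * (swap i j * swap k l) = swap i j * swap k l * (swap k l * swap i j) := by rw [h2]
      _ = 1 := by rw [mul_assoc, ← mul_assoc (swap k l), swap_mul_self, one_mul, swap_mul_self]

/-- elements centralising all `mk v 1` are of this form -/
theorem cent {g : Perm Pt} (hg : g ∈ X) (h : ∀ v, ∑ i, v i = 0 → g * mk v 1 = mk v 1 * g) :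
    ∃ v, g = mk v 1 ∧ ∑ i, v i = 0 := by
  obtain ⟨w, σ, rfl, hw⟩ := mem_X.1 hg
  have h1 : σ = 1 := by
    ext1 i
    by_contra hne
    have hne' : σ i ≠ i := hne
    obtain ⟨k, hk1, hk2⟩ : ∃ k, k ≠ i ∧ k ≠ σ i := by
      have : ∀ i j : Fin 6, ∃ k, k ≠ i ∧ k ≠ j := by decide
      exact this _ _
    have h2 := h (e i + e k) (sum_ee i k)
    rw [mk_mul, mk_mul] at h2
    have h3 := congrFun (mk_inj h2).1 (σ i)
    have h4 : (e i + e k) ∘ ⇑σ.symm = e (σ i) + e (σ k) := by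
      rw [← e_comp, ← e_comp]; rfl
    rw [h4] at h3
    have h5 : w (σ i) + (e (σ i) + e (σ k)) (σ i) = (e i + e k) (σ i) + w (σ i) := h3
    have h6 : (e (σ i) + e (σ k)) (σ i) = 1 := by
      have : σ k ≠ σ i := fun h => hk1 (σ.injective h)
      show (Pi.single (σ i) 1 : Fin 6 → ZMod 2) (σ i) + (Pi.single (σ k) 1 : Fin 6 → ZMod 2) (σ i) = 1
      rw [Pi.single_eq_same, Pi.single_eq_of_ne this.symm, add_zero]
    have h7 : (e i + e k) (σ i) = 0 := by
      show (Pi.single i 1 : Fin 6 → ZMod 2) (σ i) + (Pi.single k 1 : Fin 6 → ZMod 2) (σ i) = 0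
      rw [Pi.single_eq_of_ne hne', Pi.single_eq_of_ne hk2.symm, add_zero]
    rw [h6, h7, zero_add] at h5
    exact absurd (add_left_cancel (h5.trans (add_zero _).symm)) (by decide)
  subst h1
  exact ⟨w, rfl, hw⟩

/-- the center of `X` -/
theorem center {g : Perm Pt} (hg : g ∈ X) (h : ∀ x ∈ X, g * x = x * g) : g = 1 ∨ g = a := by
  obtain ⟨v, rfl, hv⟩ := cent hg (fun v hv => h _ (mk_mem.2 hv))
  have h1 : ∀ i j, v i = v j := by
    intro i j
    have h2 := h (mk 0 (swap i j)) (mk_mem.2 (by simp))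
    rw [mk_mul, mk_mul] at h2
    have h3 := congrFun (mk_inj h2).1 i
    have h4 : v i + 0 = 0 + v ((swap i j).symm i) := h3
    rw [add_zero, zero_add, symm_swap, swap_apply_left] at h4
    exact h4
  have hz : ∀ b : ZMod 2, b = 0 ∨ b = 1 := by decide
  rcases hz (v 0) with h0 | h0
  · left
    rw [← mk_one]
    congr 1
    ext1 i
    rw [h1 i 0, h0]; rfl
  · right
    unfold a
    congr 1
    ext1 i
    rw [h1 i 0, h0]; rfl

section normal
variable {K : Subgroup (Perm Pt)} (hKX : K ≤ X) (hK : ∀ x ∈ X, ∀ k ∈ K, x * k * x⁻¹ ∈ K)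
include hK

omit hK in
theorem mk_inv_one (v : Fin 6 → ZMod 2) : (mk v 1)⁻¹ = mk v 1 := by
  rw [inv_eq_iff_mul_eq_one, mk_mul, one_mul, ← mk_one]
  congr 1
  exact add_self v

omit hK in
theorem mk_one_mul (v w : Fin 6 → ZMod 2) : mk v 1 * mk w 1 = mk (v + w) 1 := by
  rw [mk_mul, one_mul]
  rfl

omit hK in
theorem conj_mk (v : Fin 6 → ZMod 2) (σ : Perm (Fin 6)) : mk 0 σ * mk v 1 * (mk 0 σ)⁻¹ = mk (v ∘ ⇑σ.symm) 1 := by
  rw [mul_inv_eq_iff_eq_mul, mk_mul, mk_mul, mul_one, one_mul]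
  congr 1
  ext1 i; simp

theorem all_V {v : Fin 6 → ZMod 2} (hv : mk v 1 ∈ K) (h0 : v ≠ 0) (h1 : v ≠ 1) (u : Fin 6 → ZMod 2)
    (hu : ∑ i, u i = 0) : mk u 1 ∈ K := by
  -- two different coordinates
  obtain ⟨i, j, hij⟩ : ∃ i j, v i ≠ v j := by
    by_contra hcon
    push Not at hcon
    have hz : ∀ b : ZMod 2, b = 0 ∨ b = 1 := by decide
    rcases hz (v 0) with h | h
    · exact h0 (by ext1 i; rw [hcon i 0, h]; rfl)
    · exact h1 (by ext1 i; rw [hcon i 0, h]; rfl)
  have hne : i ≠ j := fun h => hij (by rw [h])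
  have h2 : mk (e i + e j) 1 ∈ K := by
    have h3 := K.mul_mem hv (hK (mk 0 (swap i j)) (mk_mem.2 (by simp)) _ hv)
    rw [conj_mk, mk_one_mul] at h3
    have h4 : v + v ∘ ⇑(swap i j : Perm (Fin 6)).symm = e i + e j := by
      have key : ∀ (v : Fin 6 → ZMod 2) (i j : Fin 6), v i ≠ v j →
          v + v ∘ ⇑(swap i j : Perm (Fin 6)).symm = e i + e j := by decide +kernel
      exact key v i j hij
    rwa [h4] at h3
  have h3 : ∀ k l, k ≠ l → mk (e k + e l) 1 ∈ K := by
    intro k l hkl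
    obtain ⟨σ, hσ1, hσ2⟩ : ∃ σ : Perm (Fin 6), σ i = k ∧ σ j = l := by
      refine ⟨swap (swap i k j) l * swap i k, ?_, ?_⟩
      · rw [Perm.mul_apply, swap_apply_left, swap_apply_of_ne_of_ne _ hkl]
        intro h
        apply hne
        have := congrArg (swap i k) h
        rw [swap_apply_right, swap_apply_self] at this
        exact this
      · rw [Perm.mul_apply, swap_apply_left]
    have h4 := hK (mk 0 σ) (mk_mem.2 (by simp)) _ h2
    rw [conj_mk] at h4
    have h5 : (e i + e j) ∘ ⇑σ.symm = e (σ i) + e (σ j) := by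
      rw [← e_comp, ← e_comp]; rfl
    rw [h5, hσ1, hσ2] at h4
    exact h4
  -- sums
  have h4 : ∀ s : Finset (Fin 6), mk (∑ k ∈ s, u k • (e k + e 0)) 1 ∈ K := by
    intro s
    induction s using Finset.induction_on with
    | empty => rw [Finset.sum_empty, mk_one]; exact K.one_mem
    | insert k s hk ih =>
      rw [Finset.sum_insert hk, ← mk_one_mul]
      refine K.mul_mem ?_ ih
      have hz : ∀ b : ZMod 2, b = 0 ∨ b = 1 := by decide
      rcases hz (u k) with h | h
      · rw [h, zero_smul, mk_one]; exact K.one_mem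
      · rw [h, one_smul]
        by_cases hk0 : k = 0
        · rw [hk0, add_self, mk_one]; exact K.one_mem
        · exact h3 k 0 hk0
  have h5 : ∑ k, u k • (e k + e 0) = u := by
    simp only [smul_add, Finset.sum_add_distrib, ← Finset.sum_smul, hu, zero_smul, add_zero]
    ext1 i
    rw [Finset.sum_apply]
    simp [e, Pi.single_apply]
  have h6 := h4 Finset.univ
  rwa [h5] at h6

theorem exists_V {v : Fin 6 → ZMod 2} {σ : Perm (Fin 6)} (hv : mk v σ ∈ K) (hσ : σ ≠ 1) :
    ∃ u, u ≠ 0 ∧ u ≠ 1 ∧ mk u 1 ∈ K := by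
  obtain ⟨i, hi⟩ : ∃ i, σ i ≠ i := by
    by_contra hcon
    push Not at hcon
    exact hσ (Perm.ext hcon)
  -- commutators
  have h1 : ∀ k, mk (e (σ i) + e (σ k) + (e i + e k)) 1 ∈ K := by
    intro k
    have h2 := hK (mk (e i + e k) 1) (mk_mem.2 (sum_ee i k)) _ (K.inv_mem hv)
    have h3 := K.mul_mem hv h2
    have h4 : mk v σ * (mk (e i + e k) 1 * (mk v σ)⁻¹ * (mk (e i + e k) 1)⁻¹) =
        mk (e (σ i) + e (σ k) + (e i + e k)) 1 := by
      have h5 : mk v σ * mk (e i + e k) 1 = mk (e (σ i) + e (σ k)) 1 * mk v σ := by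
        rw [mk_mul, mk_mul, mul_one, one_mul]
        congr 1
        have : (e i + e k) ∘ ⇑σ.symm = e (σ i) + e (σ k) := by
          rw [← e_comp, ← e_comp]; rfl
        rw [this]
        exact add_comm _ _
      rw [mk_inv_one, ← mul_assoc, ← mul_assoc, h5, mul_assoc (mk _ 1), mul_inv_cancel, mul_one, mk_one_mul]
    rwa [h4] at h3
  have key : ∀ i j k l : Fin 6, e i + e j + (e k + e l) ≠ 1 := by decide +kernel
  by_cases h2 : σ (σ i) = i
  · obtain ⟨k, hk1, hk2⟩ : ∃ k, k ≠ i ∧ k ≠ σ i := by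
      have : ∀ i j : Fin 6, ∃ k, k ≠ i ∧ k ≠ j := by decide
      exact this _ _
    refine ⟨_, ?_, key _ _ _ _, h1 k⟩
    intro h3
    have h4 := congrFun h3 i
    have h5 : σ k ≠ i := fun h => hk2 (σ.injective (h.trans h2.symm))
    have h6 : (e (σ i) + e (σ k) + (e i + e k)) i = 1 := by
      show (Pi.single (σ i) 1 : Fin 6 → ZMod 2) i + (Pi.single (σ k) 1 : Fin 6 → ZMod 2) i +
        ((Pi.single i 1 : Fin 6 → ZMod 2) i + (Pi.single k 1 : Fin 6 → ZMod 2) i) = 1
      rw [Pi.single_eq_same, Pi.single_eq_of_ne hi.symm, Pi.single_eq_of_ne h5.symm,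
        Pi.single_eq_of_ne hk1.symm]
      simp
    rw [h6] at h4
    exact absurd (show (1 : ZMod 2) = 0 from h4) (by decide)
  · refine ⟨_, ?_, key _ _ _ _, h1 (σ i)⟩
    intro h3
    have h4 := congrFun h3 i
    have h6 : (e (σ i) + e (σ (σ i)) + (e i + e (σ i))) i = 1 := by
      show (Pi.single (σ i) 1 : Fin 6 → ZMod 2) i + (Pi.single (σ (σ i)) 1 : Fin 6 → ZMod 2) i +
        ((Pi.single i 1 : Fin 6 → ZMod 2) i + (Pi.single (σ i) 1 : Fin 6 → ZMod 2) i) = 1
      rw [Pi.single_eq_same, Pi.single_eq_of_ne hi.symm, Pi.single_eq_of_ne (Ne.symm h2)]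
      simp
    rw [h6] at h4
    exact absurd (show (1 : ZMod 2) = 0 from h4) (by decide)

include hKX

/-- **Normal subgroups of `X`.** -/
theorem normal_cases : (∀ k ∈ K, ∃ v, k = mk v 1) ∨
    (∀ v σ, ∑ i, v i = 0 → Perm.sign σ = 1 → mk v σ ∈ K) := by
  by_cases h : ∀ k ∈ K, ∃ v, k = mk v 1
  · exact Or.inl h
  right
  push Not at h
  obtain ⟨k, hk, hk2⟩ := h
  obtain ⟨v, σ, rfl, hv⟩ := mem_X.1 (hKX hk)
  have hσ : σ ≠ 1 := fun h => hk2 v (by rw [h])
  obtain ⟨u, hu0, hu1, hu⟩ := exists_V hK hk hσ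
  have hall := all_V hK hu hu0 hu1
  -- the image in `S₆`
  let L : Subgroup (Perm (Fin 6)) :=
    { carrier := {τ | mk 0 τ ∈ K}
      mul_mem' := by
        intro τ ρ h1 h2
        have h3 := K.mul_mem h1 h2
        rw [mk_mul] at h3
        simpa using h3
      one_mem' := by show mk 0 1 ∈ K; rw [mk_one]; exact K.one_mem
      inv_mem' := by
        intro τ h1
        have h2 := K.inv_mem h1
        have h3 : (mk 0 τ)⁻¹ = mk 0 τ⁻¹ := by
          rw [inv_eq_iff_mul_eq_one, mk_mul, mul_inv_cancel, ← mk_one]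
          congr 1
        rw [h3] at h2
        exact h2 }
  have hLσ : σ ∈ L := by
    show mk 0 σ ∈ K
    have h1 : mk 0 σ = mk v 1 * mk v σ := by
      rw [mk_mul, one_mul]
      congr 1
      exact (add_self v).symm
    rw [h1]
    exact K.mul_mem (hall v hv) hk
  have hLn : L.Normal := by
    refine ⟨fun τ h1 ρ => ?_⟩
    have h2 := hK (mk 0 ρ) (mk_mem.2 (by simp)) _ h1
    have h3 : (mk 0 ρ)⁻¹ = mk 0 ρ⁻¹ := by
      rw [inv_eq_iff_mul_eq_one, mk_mul, mul_inv_cancel, ← mk_one]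
      congr 1
    rw [h3, mk_mul, mk_mul] at h2
    show mk 0 (ρ * τ * ρ⁻¹) ∈ K
    simpa using h2
  have hLne : L ≠ ⊥ := by
    intro h1
    rw [h1] at hLσ
    exact hσ (Subgroup.mem_bot.1 hLσ)
  have hL : Nontrivial L := (Subgroup.nontrivial_iff_ne_bot L).2 hLne
  have hA : alternatingGroup (Fin 6) ≤ L := Equiv.Perm.alternatingGroup_le_of_normal (by simp) hL
  intro w τ hw hτ
  have h1 : mk w τ = mk w 1 * mk 0 τ := by
    rw [mk_mul, one_mul]
    congr 1
    ext1 i; simp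
  rw [h1]
  exact K.mul_mem (hall w hw) (hA (Perm.mem_alternatingGroup.2 hτ))

/-- nontrivial normal subgroups contain `a` -/
theorem a_mem_normal (hne : K ≠ ⊥) : a ∈ K := by
  rcases normal_cases hKX hK with h | h
  · obtain ⟨⟨k, hk⟩, hk1⟩ := K.ne_bot_iff_exists_ne_one.1 hne
    obtain ⟨v, hv⟩ := h k hk
    by_cases h1 : v = 1
    · have : k = a := by rw [hv, h1]; rfl
      rw [← this]; exact hk
    · have h0 : v ≠ 0 := by
        intro h0
        apply hk1
        apply Subtype.ext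
        show k = 1
        rw [hv, h0, mk_one]
      rw [hv] at hk
      exact all_V hK hk h0 h1 1 (by decide)
  · exact h 1 1 (by decide) Perm.sign_one

end normal

end Cfsg.Agent.H333.AltModel
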