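import Cfsg.Agent.H333.AltModel

/-!
# Involutions and order of the centralizer of a fixed-point-free involution in `A₁₂` (helper333)
-/

set_option autoImplicit false

namespace Cfsg.Agent.H333.AltModel

open Equiv

/-- `(0 1)(2 3)` -/
def tau : Perm (Fin 6) := swap 0 1 * swap 2 3

/-- the non-square involution -/
def bb : Perm Pt := mk (e 4 + e 5) tau

theorem bb_mem : bb ∈ X := mk_mem.2 (sum_ee 4 5)

theorem key_tau : ∀ v : Fin 6 → ZMod 2, ∑ i, v i = 0 → v + v ∘ ⇑tau.symm = 0 →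
    ∃ w : Fin 6 → ZMod 2, ∑ i, w i = 0 ∧ (w + v + w ∘ ⇑tau.symm = 0 ∨ w + v + w ∘ ⇑tau.symm = e 4 + e 5) := by
  decide +kernel

/-- a root of `tau` -/
def kap : Perm (Fin 6) := swap 0 3 * swap 0 1 * swap 0 2

theorem kap_sq : kap * kap = tau := by decide +kernel

theorem tau_sq : tau * tau = 1 := by decide +kernel

theorem isConj_tau {σ : Perm (Fin 6)} (h1 : σ ≠ 1) (h2 : σ * σ = 1) (h3 : Perm.sign σ = 1) : IsConj tau σ := by
  rw [Perm.isConj_iff_cycleType_eq]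
  have hct : ∀ ρ : Perm (Fin 6), ρ * ρ = 1 → ∃ k, ρ.cycleType = Multiset.replicate k 2 := by
    intro ρ hρ
    refine ⟨ρ.cycleType.card, ?_⟩
    rw [Multiset.eq_replicate]
    refine ⟨rfl, fun n hn => ?_⟩
    have h4 : n ∣ orderOf ρ := Perm.dvd_of_mem_cycleType hn
    have h5 : orderOf ρ ∣ 2 := orderOf_dvd_of_pow_eq_one (by rw [pow_two, hρ])
    have h6 : 2 ≤ n := Perm.two_le_of_mem_cycleType hn
    have h7 := Nat.le_of_dvd (by norm_num) (h4.trans h5)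
    omega
  have hk : ∀ (ρ : Perm (Fin 6)) (k : ℕ), ρ.cycleType = Multiset.replicate k 2 → ρ ≠ 1 → Perm.sign ρ = 1 → k = 2 := by
    intro ρ k hk hρ1 hρ2
    have h4 : ρ.cycleType.sum ≤ 6 := by
      rw [Perm.sum_cycleType]
      exact (Finset.card_le_univ _).trans (by simp)
    rw [hk, Multiset.sum_replicate, smul_eq_mul] at h4
    have h5 := Perm.sign_of_cycleType ρ
    rw [hρ2, hk, Multiset.sum_replicate, Multiset.card_replicate, smul_eq_mul] at h5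
    have hk3 : k = 0 ∨ k = 1 ∨ k = 2 ∨ k = 3 := by omega
    rcases hk3 with rfl | rfl | rfl | rfl
    · exfalso
      apply hρ1
      rw [← Perm.cycleType_eq_zero, hk]
      rfl
    · exact absurd h5 (by decide)
    · rfl
    · exact absurd h5 (by decide)
  obtain ⟨k, hk1⟩ := hct σ h2
  obtain ⟨l, hl1⟩ := hct tau tau_sq
  have e1 := hk σ k hk1 h1 h3
  have e2 := hk tau l hl1 (by decide +kernel) (by decide +kernel)
  rw [hk1, hl1, e1, e2]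

/-- **Involutions of `2⁵ A₆`.** -/
theorem inv_cases {v : Fin 6 → ZMod 2} {σ : Perm (Fin 6)} (hv : ∑ i, v i = 0) (hσ : Perm.sign σ = 1)
    (h : mk v σ * mk v σ = 1) : σ = 1 ∨ (∃ g ∈ X, g * g = mk v σ) ∨ (∃ c ∈ X, c * bb * c⁻¹ = mk v σ) := by
  by_cases h1 : σ = 1
  · exact Or.inl h1
  right
  rw [mk_mul, ← mk_one] at h
  obtain ⟨h2, h3⟩ := mk_inj h
  obtain ⟨ρ, hρ⟩ := isConj_iff.1 (isConj_tau h1 h3 hσ)
  -- reduction to `tau`
  have e1 : mk v σ = mk 0 ρ * mk (v ∘ ⇑ρ) tau * (mk 0 ρ)⁻¹ := by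
    rw [eq_mul_inv_iff_mul_eq, mk_mul, mk_mul, ← hρ]
    congr 1
    · ext1 i; simp
    · simp [mul_assoc]
  have h4 : v ∘ ⇑ρ + (v ∘ ⇑ρ) ∘ ⇑tau.symm = 0 := by
    ext1 i
    have h5 := congrFun h2 (ρ i)
    have h6 : v (ρ i) + v (σ.symm (ρ i)) = 0 := h5
    have h7 : σ.symm (ρ i) = ρ (tau.symm i) := by
      rw [symm_apply_eq, ← hρ]
      simp
    rw [h7] at h6
    exact h6
  obtain ⟨w, hw, hw2⟩ := key_tau (v ∘ ⇑ρ) (by rw [sum_comp, hv]) h4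
  have hwX : mk w 1 ∈ X := mk_mem.2 hw
  have hρX : mk 0 ρ ∈ X := mk_mem.2 (by simp)
  have e2 : mk w 1 * mk (v ∘ ⇑ρ) tau * (mk w 1)⁻¹ = mk (w + v ∘ ⇑ρ + w ∘ ⇑tau.symm) tau := by
    rw [mk_inv_one, mk_mul, mk_mul, one_mul, mul_one]
    rfl
  have e3 : mk v σ = (mk 0 ρ * (mk w 1)⁻¹) * mk (w + v ∘ ⇑ρ + w ∘ ⇑tau.symm) tau * (mk 0 ρ * (mk w 1)⁻¹)⁻¹ := by
    rw [← e2, e1]
    simp [mul_assoc]
  have hc : mk 0 ρ * (mk w 1)⁻¹ ∈ X := X.mul_mem hρX (X.inv_mem hwX)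
  rcases hw2 with h5 | h5
  · left
    refine ⟨(mk 0 ρ * (mk w 1)⁻¹) * mk 0 kap * (mk 0 ρ * (mk w 1)⁻¹)⁻¹,
      X.mul_mem (X.mul_mem hc (mk_mem.2 (by simp))) (X.inv_mem hc), ?_⟩
    rw [e3, h5, ← kap_sq]
    have e4 : mk 0 (kap * kap) = mk 0 kap * mk 0 kap := by
      rw [mk_mul]; simp
    rw [e4]
    simp [mul_assoc]
  · right
    exact ⟨_, hc, by rw [e3, h5]; rfl⟩

/-- `a b` is a square -/
theorem ab_sq : ∃ g ∈ X, g * g = a * bb := by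
  refine ⟨mk (e 0 + e 2) 1 * mk 0 kap * mk (e 0 + e 2) 1, ?_, ?_⟩
  · exact X.mul_mem (X.mul_mem (mk_mem.2 (sum_ee 0 2)) (mk_mem.2 (by simp))) (mk_mem.2 (sum_ee 0 2))
  · decide +kernel

/-- three commuting conjugates of `b` with product `1` -/
theorem triple : ∃ c ∈ X, ∃ d ∈ X, bb * (c * bb * c⁻¹) = (c * bb * c⁻¹) * bb ∧
    bb * (c * bb * c⁻¹) = d * bb * d⁻¹ := by
  refine ⟨mk (e 0 + e 2) (swap 0 4 * swap 1 5), mk_mem.2 (sum_ee 0 2),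
    mk (e 0 + e 4) (swap 2 4 * swap 3 5), mk_mem.2 (sum_ee 0 4), ?_, ?_⟩
  · decide +kernel
  · decide +kernel

theorem card_X : Nat.card X = 23040 := by
  have h1 : Nat.card ({v : Fin 6 → ZMod 2 // ∑ i, v i = 0} × Perm (Fin 6)) = 23040 := by
    rw [Nat.card_prod, Nat.card_eq_fintype_card, Nat.card_eq_fintype_card, Fintype.card_perm, Fintype.card_fin]
    have : Fintype.card {v : Fin 6 → ZMod 2 // ∑ i, v i = 0} = 32 := by decide +kernel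
    rw [this]
    rfl
  rw [← h1]
  symm
  refine Nat.card_eq_of_bijective
    (fun p : {v : Fin 6 → ZMod 2 // ∑ i, v i = 0} × Perm (Fin 6) => (⟨mk p.1.1 p.2, mk_mem.2 p.1.2⟩ : X)) ⟨?_, ?_⟩
  · rintro ⟨⟨v, hv⟩, σ⟩ ⟨⟨w, hw⟩, τ⟩ h
    obtain ⟨h1, h2⟩ := mk_inj (congrArg Subtype.val h)
    have h1' : v = w := h1
    have h2' : σ = τ := h2
    subst h1' h2'
    rfl
  · rintro ⟨g, hg⟩
    obtain ⟨v, σ, rfl, hv⟩ := mem_X.1 hg
    exact ⟨(⟨v, hv⟩, σ), rfl⟩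

end Cfsg.Agent.H333.AltModel
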