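import Cfsg.Agent.H333.AltGrp
import Cfsg.Agent.TwoFusion.IsolatedFusion

/-!
# Reduction to the simple case for the `A₁₂`-involution centralizer
-/

set_option autoImplicit false

namespace Cfsg.Agent.H333.AltGrp

open Cfsg.Agent.H333.AltModel Cfsg.Agent.Lib.Cores

variable {G : Type*} [Group G] [Finite G] {α : G} {ι : X →* G} (h : Hyp α ι)

theorem core_odd (G : Type*) [Group G] [Finite G] : Odd (Nat.card (Cfsg.pPrimeCore 2 G)) := by
  have h1 := pPrimeCore_coprime (G := G) 2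
  exact Nat.coprime_two_right.1 h1

include h

/-- `α` is not in the core -/
theorem not_mem_core : α ∉ Cfsg.pPrimeCore 2 G := by
  intro h1
  have h2 : orderOf (⟨α, h1⟩ : Cfsg.pPrimeCore 2 G) ∣ Nat.card (Cfsg.pPrimeCore 2 G) := orderOf_dvd_natCard _
  rw [Subgroup.orderOf_mk, h.ord] at h2
  have h3 := core_odd G
  rw [← Nat.not_even_iff_odd] at h3
  exact h3 (even_iff_two_dvd.2 h2)

/-- `O(G) ∩ C(α) = 1` -/
theorem core_inf {n : G} (hn : n ∈ Cfsg.pPrimeCore 2 G) (hc : n * α = α * n) : n = 1 := by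
  have hN : (Cfsg.pPrimeCore 2 G).Normal := pPrimeCore_normal 2
  by_contra hne
  obtain ⟨x, hx⟩ := exists_pre h hc
  have hK : pre h (Cfsg.pPrimeCore 2 G) ≠ ⊥ := by
    intro h1
    have h2 : (x : Equiv.Perm Pt) ∈ pre h (Cfsg.pPrimeCore 2 G) := (mem_pre h).2 ⟨x.2, by
      have : ι ⟨(x : Equiv.Perm Pt), x.2⟩ = n := hx
      rw [this]; exact hn⟩
    rw [h1, Subgroup.mem_bot] at h2
    apply hne
    have h3 : x = 1 := Subtype.ext h2
    rw [← hx, h3, map_one]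
  have h1 := a_mem_normal (pre_le h _) (pre_conj h hN) hK
  obtain ⟨h2, h3⟩ := (mem_pre h).1 h1
  rw [map_a h] at h3
  exact not_mem_core h h3

theorem inv_eq : α⁻¹ = α := inv_eq_of_mul_eq_one_left (aa h)

/-- conjugation by `α` on the core -/
def conjCore (_h : Hyp α ι) : Cfsg.pPrimeCore 2 G →* Cfsg.pPrimeCore 2 G where
  toFun n := ⟨α * n * α⁻¹, (pPrimeCore_normal 2).conj_mem _ n.2 α⟩
  map_one' := by
    apply Subtype.ext
    show α * 1 * α⁻¹ = 1
    simp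
  map_mul' := by
    intro a b
    apply Subtype.ext
    show α * (a * b) * α⁻¹ = α * a * α⁻¹ * (α * b * α⁻¹)
    simp [mul_assoc]

theorem conjCore_fpf : MonoidHom.FixedPointFree (conjCore h) := by
  intro n hn
  apply Subtype.ext
  refine core_inf h n.2 ?_
  have h1 : α * n * α⁻¹ = n := congrArg Subtype.val hn
  exact (mul_inv_eq_iff_eq_mul.1 h1).symm

theorem conjCore_invol : Function.Involutive (conjCore h) := by
  intro n
  apply Subtype.ext
  show α * (α * n * α⁻¹) * α⁻¹ = n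
  rw [inv_eq h]
  have : α * (α * (n : G) * α) * α = (α * α) * n * (α * α) := by simp [mul_assoc]
  rw [this, aa h, one_mul, mul_one]

/-- `α` inverts the core -/
theorem core_inv {n : G} (hn : n ∈ Cfsg.pPrimeCore 2 G) : α * n * α⁻¹ = n⁻¹ := by
  have h1 := (conjCore_fpf h).coe_eq_inv_of_involutive (conjCore_invol h)
  have h2 := congrFun h1 ⟨n, hn⟩
  exact congrArg Subtype.val h2

theorem core_comm {n m : G} (hn : n ∈ Cfsg.pPrimeCore 2 G) (hm : m ∈ Cfsg.pPrimeCore 2 G) :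
    n * m = m * n := by
  have h1 := (conjCore_fpf h).commute_all_of_involutive (conjCore_invol h) ⟨n, hn⟩ ⟨m, hm⟩
  exact congrArg Subtype.val h1

/-- if `g` commutes with `α` modulo the core then `g ∈ O(G) C(α)` -/
theorem factor {g : G} (hg : g * α * g⁻¹ * α⁻¹ ∈ Cfsg.pPrimeCore 2 G) :
    ∃ m ∈ Cfsg.pPrimeCore 2 G, ∃ c : G, c * α = α * c ∧ g = m * c := by
  have hN : (Cfsg.pPrimeCore 2 G).Normal := pPrimeCore_normal 2
  have hzz : (g * α * g⁻¹) * (g * α * g⁻¹) = 1 := by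
    have : g * α * g⁻¹ * (g * α * g⁻¹) = g * (α * α) * g⁻¹ := by simp [mul_assoc]
    rw [this, aa h]; simp
  have hm : g * α * g⁻¹ * α ∈ Cfsg.pPrimeCore 2 G := by
    have := inv_eq h
    rwa [this] at hg
  have hodd : Odd (orderOf (g * α * g⁻¹ * α)) := by
    have h1 : orderOf (⟨_, hm⟩ : Cfsg.pPrimeCore 2 G) ∣ Nat.card (Cfsg.pPrimeCore 2 G) := orderOf_dvd_natCard _
    rw [Subgroup.orderOf_mk] at h1
    exact Odd.of_dvd_nat (core_odd G) h1
  obtain ⟨k, hk⟩ := TwoFusion.IsolatedFusion.exists_zpow_conj_eq hzz (aa h) hodd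
  set m := (g * α * g⁻¹ * α) ^ k with hmdef
  refine ⟨m, Subgroup.pow_mem _ hm k, m⁻¹ * g, ?_, by simp⟩
  have h1 : m * α = g * α * g⁻¹ * m := mul_inv_eq_iff_eq_mul.1 hk
  have h2 : α * m⁻¹ = m⁻¹ * (g * α * g⁻¹) := by
    rw [eq_inv_mul_iff_mul_eq, ← mul_assoc, h1]; simp
  calc m⁻¹ * g * α = m⁻¹ * (g * α * g⁻¹) * g := by simp [mul_assoc]
    _ = α * m⁻¹ * g := by rw [h2]
    _ = _ := by rw [mul_assoc]

/-- the isolated case -/
theorem sup_eq_top (hZ : ∀ g : G, α * g * α⁻¹ * g⁻¹ ∈ Cfsg.pPrimeCore 2 G) :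
    Cfsg.pPrimeCore 2 G ⊔ Subgroup.centralizer ({α} : Set G) = ⊤ := by
  rw [eq_top_iff]
  intro g _
  obtain ⟨m, hm, c, hc, rfl⟩ := factor h (g := g) (by
    have h1 := (Cfsg.pPrimeCore 2 G).inv_mem (hZ g)
    have h2 : (α * g * α⁻¹ * g⁻¹)⁻¹ = g * α * g⁻¹ * α⁻¹ := by simp [mul_assoc]
    rwa [h2] at h1)
  exact Subgroup.mul_mem_sup hm (Subgroup.mem_centralizer_singleton_iff.2 hc)

variable (S : Sylow 2 G) (hS : ∀ s ∈ (S : Subgroup G), s * α = α * s) (hαS : α ∈ (S : Subgroup G))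

omit h in
/-- a simple group from the absence of normal subgroups -/
theorem simple_of {H : Type*} [Group H] (hne : ∃ x : H, x ≠ 1) (h1 : ∀ M : Subgroup H, M.Normal → M ≠ ⊥ → M = ⊤) :
    IsSimpleGroup H := by
  obtain ⟨x, hx⟩ := hne
  refine { exists_pair_ne := ⟨x, 1, hx⟩, eq_bot_or_eq_top_of_normal := ?_ }
  intro M hM
  by_cases h2 : M = ⊥
  · exact Or.inl h2
  · exact Or.inr (h1 M hM h2)

include hS hαS

/-- **In the non-isolated case the core is trivial.** -/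
theorem core_eq_bot {g₀ : G} (hg₀ : g₀ * α * g₀⁻¹ ∈ (S : Subgroup G))
    (hg₁ : g₀ * α * g₀⁻¹ ≠ α) : Cfsg.pPrimeCore 2 G = ⊥ := by
  have hN : (Cfsg.pPrimeCore 2 G).Normal := pPrimeCore_normal 2
  set N := Cfsg.pPrimeCore 2 G with hNdef
  let π : G →* G ⧸ N := QuotientGroup.mk' N
  have hπ : Function.Surjective π := QuotientGroup.mk'_surjective N
  have hker : ∀ g, π g = 1 ↔ g ∈ N := fun g => QuotientGroup.eq_one_iff g
  have h2 : Hyp (π α) (π.comp ι) := by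
    refine ⟨?_, ?_, ?_⟩
    · have h3 : π α ≠ 1 := by
        rw [Ne, hker]
        exact not_mem_core h
      have h4 : π α ^ 2 = 1 := by
        rw [pow_two, ← map_mul, aa h, map_one]
      exact orderOf_eq_prime h4 h3
    · rw [injective_iff_map_eq_one]
      intro x hx
      have h3 : ι x ∈ N := (hker _).1 hx
      have h4 := core_inf h h3 (comm_range h x)
      exact h.inj (by rw [h4, map_one])
    · ext y
      rw [Subgroup.mem_centralizer_singleton_iff]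
      constructor
      · rintro ⟨x, rfl⟩
        show π (ι x) * π α = π α * π (ι x)
        rw [← map_mul, ← map_mul, comm_range h x]
      · intro hy
        obtain ⟨g, rfl⟩ := hπ y
        have h3 : g * α * g⁻¹ * α⁻¹ ∈ N := by
          rw [← hker, map_mul, map_mul, map_mul, map_inv, map_inv, hy]
          simp
        obtain ⟨m, hm, c, hc, rfl⟩ := factor h h3
        obtain ⟨x, hx⟩ := exists_pre h hc
        refine ⟨x, ?_⟩
        show π (ι x) = π (m * c)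
        rw [map_mul, (hker m).2 hm, one_mul, hx]
  have hmem2 : ∀ y ∈ ((S.mapSurjective hπ : Sylow 2 (G ⧸ N)) : Subgroup (G ⧸ N)), y * π α = π α * y := by
    rintro _ ⟨s, hs, rfl⟩
    rw [← map_mul, ← map_mul, hS s hs]
  have hg₂ : π g₀ * π α * (π g₀)⁻¹ ∈ ((S.mapSurjective hπ : Sylow 2 (G ⧸ N)) : Subgroup (G ⧸ N)) :=
    ⟨_, hg₀, by rw [map_mul, map_mul, map_inv]⟩
  have hg₃ : π g₀ * π α * (π g₀)⁻¹ ≠ π α := by
    intro h3
    apply hg₁
    have h4 : g₀ * α * g₀⁻¹ * α⁻¹ ∈ N := by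
      rw [← hker, map_mul, map_mul, map_mul, map_inv, map_inv, h3]
      simp
    have h5 : g₀ * α * g₀⁻¹ * α⁻¹ ∈ (S : Subgroup G) := S.mul_mem hg₀ (S.inv_mem hαS)
    have h6 : g₀ * α * g₀⁻¹ * α⁻¹ = 1 := by
      obtain ⟨k, hk⟩ := S.2 ⟨_, h5⟩
      have hk' : (g₀ * α * g₀⁻¹ * α⁻¹) ^ 2 ^ k = 1 := congrArg Subtype.val hk
      have h7 : orderOf (g₀ * α * g₀⁻¹ * α⁻¹) ∣ 2 ^ k := orderOf_dvd_of_pow_eq_one hk'
      have h8 : orderOf (⟨_, h4⟩ : N) ∣ Nat.card N := orderOf_dvd_natCard _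
      rw [Subgroup.orderOf_mk] at h8
      have h9 : Nat.Coprime (Nat.card N) (2 ^ k) := (pPrimeCore_coprime (G := G) 2).pow_right k
      exact orderOf_eq_one_iff.1 (Nat.eq_one_of_dvd_coprimes h9 h8 h7)
    exact mul_inv_eq_one.1 h6
  have hcore : Cfsg.pPrimeCore 2 (G ⧸ N) = ⊥ := pPrimeCore_quotient_pPrimeCore 2
  have hsimp : ∀ M : Subgroup (G ⧸ N), M.Normal → M ≠ ⊥ → M = ⊤ := fun M hM hne =>
    eq_top h2 _ hmem2 ⟨α, hαS, rfl⟩ hcore hg₂ hg₃ hM hne
  -- the centralizer of the core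
  let D : Subgroup G := Subgroup.centralizer (N : Set G)
  have hD : D.Normal := inferInstance
  by_cases hDN : D.map π = ⊥
  · exfalso
    have h3 : D ≤ N := by
      intro d hd
      rw [← hker]
      have : π d ∈ D.map π := ⟨d, hd, rfl⟩
      rwa [hDN, Subgroup.mem_bot] at this
    apply hg₃
    have h4 : g₀ * α * g₀⁻¹ * α⁻¹ ∈ D := by
      rw [Subgroup.mem_centralizer_iff]
      intro n hn
      have hn' : n ∈ N := hn
      have h5 : g₀⁻¹ * (α⁻¹ * n * α) * g₀ ∈ N := by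
        have h6 : α⁻¹ * n * α ∈ N := by
          have := hN.conj_mem n hn' α⁻¹
          rwa [inv_inv] at this
        have := hN.conj_mem _ h6 g₀⁻¹
        rwa [inv_inv] at this
      have h6 := core_inv h h5
      have h7 : α⁻¹ * n * α = n⁻¹ := by
        have := core_inv h hn'
        rw [inv_eq h] at this ⊢
        exact this
      rw [h7] at h6
      -- h6 : α * (g₀⁻¹ n⁻¹ g₀) * α⁻¹ = (g₀⁻¹ n⁻¹ g₀)⁻¹
      have h8 : g₀ * (α * (g₀⁻¹ * n⁻¹ * g₀) * α⁻¹) * g₀⁻¹ = n := by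
        rw [h6]; simp [mul_assoc]
      have h9 : g₀ * α * g₀⁻¹ * α⁻¹ * n * (g₀ * α * g₀⁻¹ * α⁻¹)⁻¹ = n := by
        have : g₀ * α * g₀⁻¹ * α⁻¹ * n * (g₀ * α * g₀⁻¹ * α⁻¹)⁻¹ =
            g₀ * (α * (g₀⁻¹ * (α⁻¹ * n * α) * g₀) * α⁻¹) * g₀⁻¹ := by simp [mul_assoc]
        rw [this, h7, h8]
      exact (mul_inv_eq_iff_eq_mul.1 h9).symm
    have h5 : π (g₀ * α * g₀⁻¹ * α⁻¹) = 1 := (hker _).2 (h3 h4)
    rw [map_mul, map_mul, map_mul, map_inv, map_inv] at h5
    exact mul_inv_eq_one.1 h5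
  · have h3 := hsimp (D.map π) (hD.map π hπ) hDN
    have h4 : N ≤ D := by
      intro n hn
      rw [Subgroup.mem_centralizer_iff]
      intro m hm
      exact core_comm h hm hn
    have h5 : α ∈ D := by
      have h6 : π α ∈ D.map π := by rw [h3]; trivial
      obtain ⟨d, hd, hd2⟩ := h6
      have h7 : d⁻¹ * α ∈ N := by
        rw [← hker, map_mul, map_inv, hd2, inv_mul_cancel]
      have h8 : α = d * (d⁻¹ * α) := by simp
      rw [h8]
      exact D.mul_mem hd (h4 h7)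
    rw [eq_bot_iff]
    intro n hn
    rw [Subgroup.mem_bot]
    exact core_inf h hn ((Subgroup.mem_centralizer_iff.1 h5) n hn)

/-- **In the non-isolated case `G` is a non-abelian simple group.** -/
theorem simple {g₀ : G} (hg₀ : g₀ * α * g₀⁻¹ ∈ (S : Subgroup G)) (hg₁ : g₀ * α * g₀⁻¹ ≠ α) :
    IsSimpleGroup G ∧ ¬ IsMulCommutative G := by
  refine ⟨simple_of ⟨α, ne_one h⟩ fun M hM hne =>
    eq_top h S hS hαS (core_eq_bot h S hS hαS hg₀ hg₁) hg₀ hg₁ hM hne, ?_⟩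
  intro h1
  apply hg₁
  have h2 : g₀ * α = α * g₀ := h1.is_comm.comm _ _
  rw [h2]; simp

end Cfsg.Agent.H333.AltGrp
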