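import Cfsg.Agent.LargeExtra.Transfer

/-!
# Divisibility of numbers of cosets by orbit lengths of a 2-group (helper333)
-/

set_option autoImplicit false
set_option linter.style.haveILetI false

namespace Cfsg.Agent.H333.TrDiv

open Cfsg.Agent.LargeExtra.Transfer

variable {G : Type*} [Group G]

/-- the cosets `gP` with `S (g⁻¹ v g)` -/
def Pt (P : Subgroup G) (S : G → Prop) (v : G) (x : G ⧸ P) : Prop := S (x.out⁻¹ * v * x.out)

theorem pt_iff {P : Subgroup G} {S : G → Prop} (hS : ∀ c ∈ P, ∀ w, S w → S (c⁻¹ * w * c)) (v g : G) :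
    Pt P S v (g : G ⧸ P) ↔ S (g⁻¹ * v * g) := by
  set k := (g : G ⧸ P).out with hk
  have h1 : k⁻¹ * g ∈ P := by rw [← QuotientGroup.eq, hk, QuotientGroup.out_eq']
  have e : (k⁻¹ * g)⁻¹ * (k⁻¹ * v * k) * (k⁻¹ * g) = g⁻¹ * v * g := by group
  unfold Pt
  rw [← hk]
  constructor
  · intro h
    have h2 := hS _ h1 _ h
    rwa [e] at h2
  · intro h
    have h2 := hS _ (P.inv_mem h1) _ h
    rw [← e] at h2
    have e2 : (k⁻¹ * g)⁻¹⁻¹ * ((k⁻¹ * g)⁻¹ * (k⁻¹ * v * k) * (k⁻¹ * g)) * (k⁻¹ * g)⁻¹ = k⁻¹ * v * k := by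
      group
    rwa [e2] at h2

/-- `c` centralises or inverts `w` -/
def CI (w c : G) : Prop := c * w = w * c ∨ w * c * w = c

theorem ci_iff (w c : G) : CI w c ↔ (c⁻¹ * w * c = w ∨ c⁻¹ * w * c = w⁻¹) := by
  unfold CI
  constructor
  · rintro (h | h)
    · left; rw [mul_assoc, ← h, inv_mul_cancel_left]
    · right
      have : w * c = c * w⁻¹ := by rw [eq_mul_inv_iff_mul_eq]; exact h
      rw [mul_assoc, this, inv_mul_cancel_left]
  · rintro (h | h)
    · left; rw [mul_assoc, inv_mul_eq_iff_eq_mul] at h; exact h.symm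
    · right
      rw [mul_assoc, inv_mul_eq_iff_eq_mul, eq_mul_inv_iff_mul_eq] at h; exact h

theorem ci_conj {w c : G} (g : G) (h : CI w c) : CI (g⁻¹ * w * g) (g⁻¹ * c * g) := by
  rcases h with h | h
  · left
    calc g⁻¹ * c * g * (g⁻¹ * w * g) = g⁻¹ * (c * w) * g := by group
      _ = g⁻¹ * (w * c) * g := by rw [h]
      _ = _ := by group
  · right
    calc g⁻¹ * w * g * (g⁻¹ * c * g) * (g⁻¹ * w * g) = g⁻¹ * (w * c * w) * g := by group
      _ = _ := by rw [h]

/-- the action of `D` on the cosets -/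
theorem pt_smul {P : Subgroup G} {S : G → Prop} (hS : ∀ c ∈ P, ∀ w, S w → S (c⁻¹ * w * c))
    (hSi : ∀ w, S w → S w⁻¹) {v d : G} (hd : CI v d) (x : G ⧸ P) (hx : Pt P S v x) :
    Pt P S v (d • x) := by
  obtain ⟨g, rfl⟩ := QuotientGroup.mk_surjective x
  rw [pt_iff hS] at hx
  show Pt P S v ((d * g : G) : G ⧸ P)
  rw [pt_iff hS]
  have e : (d * g)⁻¹ * v * (d * g) = g⁻¹ * (d⁻¹ * v * d) * g := by group
  rw [e]
  rcases (ci_iff _ _).1 hd with h | h
  · rw [h]; exact hx
  · rw [h]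
    have e2 : g⁻¹ * v⁻¹ * g = (g⁻¹ * v * g)⁻¹ := by group
    rw [e2]
    exact hSi _ hx

/-- the action of `D` on the set of cosets `gP` with `S (g⁻¹ v g)` -/
@[reducible] def act {P : Subgroup G} {S : G → Prop} (hS : ∀ c ∈ P, ∀ w, S w → S (c⁻¹ * w * c))
    (hSi : ∀ w, S w → S w⁻¹) {v : G} {D : Subgroup G} (hDv : ∀ d ∈ D, CI v d) :
    MulAction D {x : G ⧸ P // Pt P S v x} where
  smul d x := ⟨(d : G) • x.1, pt_smul hS hSi (hDv d d.2) x.1 x.2⟩
  one_smul x := Subtype.ext (one_smul G x.1)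
  mul_smul p q x := Subtype.ext (mul_smul (p : G) (q : G) x.1)

/-- **Orbit lengths**: if `D` (of order `2 ^ a`) centralises or inverts `v` and every `w = g⁻¹ v g` with `S w`
is centralised or inverted by at most `2 ^ b` elements of `P`, then `2 ^ (a - b)` divides the number of cosets
`gP` with `S (g⁻¹ v g)`. -/
theorem dvd_card [Finite G] {P : Subgroup G} {S : G → Prop} (hS : ∀ c ∈ P, ∀ w, S w → S (c⁻¹ * w * c))
    (hSi : ∀ w, S w → S w⁻¹) {v : G} {D : Subgroup G} (hDv : ∀ d ∈ D, CI v d) {a b : ℕ}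
    (hD : Nat.card D = 2 ^ a)
    (hb : ∀ g : G, S (g⁻¹ * v * g) → Nat.card {c : G // c ∈ P ∧ CI (g⁻¹ * v * g) c} ≤ 2 ^ b) :
    2 ^ (a - b) ∣ Nat.card {x : G ⧸ P // Pt P S v x} := by
  classical
  letI : MulAction D {x : G ⧸ P // Pt P S v x} := act hS hSi hDv
  have : Fintype D := Fintype.ofFinite _
  have : Fintype {x : G ⧸ P // Pt P S v x} := Fintype.ofFinite _
  have : Fintype (Quotient (MulAction.orbitRel D {x : G ⧸ P // Pt P S v x})) := Fintype.ofFinite _
  have hst : ∀ x : {x : G ⧸ P // Pt P S v x}, 2 ^ (a - b) ∣ Nat.card (MulAction.orbit D x) := by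
    intro x
    have h1 : Nat.card (MulAction.orbit D x) * Nat.card (MulAction.stabilizer D x) = Nat.card D := by
      rw [Nat.card_congr (MulAction.orbitEquivQuotientStabilizer D x), ← Subgroup.index_eq_card, mul_comm]
      exact (MulAction.stabilizer D x).card_mul_index
    have h2 : Nat.card (MulAction.stabilizer D x) ≤ 2 ^ b := by
      refine le_trans ?_ (hb x.1.out ?_)
      · refine Nat.card_le_card_of_injective
          (fun d => (⟨x.1.out⁻¹ * ((d : D) : G) * x.1.out, ?_, ?_⟩ :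
            {c : G // c ∈ P ∧ CI (x.1.out⁻¹ * v * x.1.out) c})) ?_
        · rw [← smul_eq_iff P _ x.1.out, QuotientGroup.out_eq']
          exact congrArg Subtype.val d.2
        · exact ci_conj _ (hDv _ d.1.2)
        · intro d e hde
          have h3 : x.1.out⁻¹ * ((d : D) : G) * x.1.out = x.1.out⁻¹ * ((e : D) : G) * x.1.out :=
            congrArg Subtype.val hde
          apply Subtype.ext
          apply Subtype.ext
          exact mul_left_cancel (mul_right_cancel h3)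
      · exact x.2
    have h3 : Nat.card (MulAction.stabilizer D x) ∣ 2 ^ a := ⟨_, by rw [← hD, ← h1, mul_comm]⟩
    obtain ⟨j, hj, hj2⟩ := (Nat.dvd_prime_pow Nat.prime_two).1 h3
    rw [hj2] at h2 h1
    have h4 : j ≤ b := (Nat.pow_le_pow_iff_right (by norm_num)).1 h2
    have h5 : Nat.card (MulAction.orbit D x) = 2 ^ (a - j) := by
      have h6 : (2 : ℕ) ^ a = 2 ^ (a - j) * 2 ^ j := by rw [← pow_add, Nat.sub_add_cancel hj]
      rw [hD, h6] at h1
      exact Nat.eq_of_mul_eq_mul_right (by positivity) h1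
    rw [h5]
    exact pow_dvd_pow 2 (by omega)
  have h6 : Nat.card {x : G ⧸ P // Pt P S v x} =
      ∑ q : Quotient (MulAction.orbitRel D {x : G ⧸ P // Pt P S v x}), Nat.card (MulAction.orbit D q.out) := by
    rw [Nat.card_congr (MulAction.selfEquivSigmaOrbits D {x : G ⧸ P // Pt P S v x}), Nat.card_sigma]
  rw [h6]
  exact Finset.dvd_sum fun q _ => hst _

/-- A 2-group `D` centralising or inverting `v` fixes one of the cosets, if their number is odd. -/
theorem exists_fixed [Finite G] {P : Subgroup G} {S : G → Prop}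
    (hS : ∀ c ∈ P, ∀ w, S w → S (c⁻¹ * w * c))
    (hSi : ∀ w, S w → S w⁻¹) {v : G} {D : Subgroup G} (hDv : ∀ d ∈ D, CI v d) (hD : IsPGroup 2 D)
    (hodd : Odd (Nat.card {x : G ⧸ P // Pt P S v x})) :
    ∃ g : G, S (g⁻¹ * v * g) ∧ ∀ d ∈ D, g⁻¹ * d * g ∈ P := by
  classical
  letI : MulAction D {x : G ⧸ P // Pt P S v x} := act hS hSi hDv
  have : Fact (Nat.Prime 2) := ⟨Nat.prime_two⟩
  have h3 := hD.card_modEq_card_fixedPoints {x : G ⧸ P // Pt P S v x}
  have h4 : Nat.card (MulAction.fixedPoints D {x : G ⧸ P // Pt P S v x}) ≠ 0 := by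
    intro h0
    rw [h0] at h3
    have h5 := Nat.odd_iff.1 hodd
    have h6 : Nat.card {x : G ⧸ P // Pt P S v x} % 2 = 0 % 2 := h3
    omega
  have h5 : Nonempty (MulAction.fixedPoints D {x : G ⧸ P // Pt P S v x}) :=
    (Nat.card_pos_iff.1 (Nat.pos_of_ne_zero h4)).1
  obtain ⟨x, hx⟩ := h5
  refine ⟨x.1.out, x.2, fun d hd => ?_⟩
  rw [← smul_eq_iff P _ x.1.out, QuotientGroup.out_eq']
  exact congrArg Subtype.val (hx ⟨d, hd⟩)

/-- The number of cosets fixed by an element of a 2-group is odd, if the index is odd. -/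
theorem odd_card_fix [Finite G] {P : Subgroup G} (hodd : Odd P.index) {v : G} {k : ℕ} (hv : v ^ 2 ^ k = 1) :
    Odd (Nat.card {x : G ⧸ P // Pt P (fun w => w ∈ P) v x}) := by
  have hp : IsPGroup 2 (Subgroup.zpowers v) := by
    rw [IsPGroup.iff_card]
    obtain ⟨j, -, hj⟩ := (Nat.dvd_prime_pow Nat.prime_two).1 (orderOf_dvd_of_pow_eq_one hv)
    exact ⟨j, by rw [Nat.card_zpowers, hj]⟩
  have : Fact (Nat.Prime 2) := ⟨Nat.prime_two⟩
  have h3 := hp.card_modEq_card_fixedPoints (G ⧸ P)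
  have h4 : Nat.card (MulAction.fixedPoints (Subgroup.zpowers v) (G ⧸ P)) =
      Nat.card {x : G ⧸ P // Pt P (fun w => w ∈ P) v x} := by
    apply Nat.card_congr
    refine Equiv.subtypeEquivRight fun x => ?_
    show _ ↔ x.out⁻¹ * v * x.out ∈ P
    rw [← smul_eq_iff P _ x.out, QuotientGroup.out_eq', MulAction.mem_fixedPoints]
    constructor
    · intro h
      exact h ⟨v, Subgroup.mem_zpowers v⟩
    · rintro h ⟨w, hw⟩
      obtain ⟨k, rfl⟩ := Subgroup.mem_zpowers_iff.1 hw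
      show v ^ k • x = x
      have hx : v ∈ MulAction.stabilizer G x := h
      exact (MulAction.stabilizer G x).zpow_mem hx k
  rw [h4, ← Subgroup.index_eq_card] at h3
  have h5 : P.index % 2 = Nat.card {x : G ⧸ P // Pt P (fun w => w ∈ P) v x} % 2 := h3
  rw [Nat.odd_iff] at hodd ⊢
  omega

end Cfsg.Agent.H333.TrDiv
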