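import Cfsg.Agent.LargeExtra.TransferPow

/-!
# The transfer into `C / C₀` for elements of order dividing 8, with all orbit lengths (helper333)

`G` a finite group without subgroups of index two, `C₀ ≤ C` of relative index two, `u ^ 8 = 1`. For `v ∈ G` let
`O(v)` be the set of cosets `gC` with `g⁻¹ v g ∈ C ∖ C₀`. Then `|O(u²)| = 2 c₂`, `|O(u⁴)| = 4 c₄` and
`|O(u)| + c₂ + c₄` is even.
-/

set_option autoImplicit false
set_option linter.style.haveILetI false

namespace Cfsg.Agent.H333.TrEight

open Cfsg.Agent.LargeExtra.Transfer Cfsg.Agent.LargeExtra.TransferPow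

variable {G : Type*} [Group G] {C C₀ : Subgroup G}

/-- Counting the points of period `n` in a `u`-invariant set through the orbits of `u`. -/
theorem card_period {X : Type*} [MulAction G X] [Finite X] (u : G) (F : X → Prop)
    (hF : ∀ x, F x → F (u • x)) (n : ℕ) :
    Nat.card {x : X // F x ∧ Function.minimalPeriod (u • ·) x = n} =
      n * Nat.card {q : Quotient (MulAction.orbitRel (Subgroup.zpowers u) X) //
        F q.out ∧ Function.minimalPeriod (u • ·) q.out = n} := by
  classical
  have hfX : Fintype X := Fintype.ofFinite _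
  have hfQ : Fintype (Quotient (MulAction.orbitRel (Subgroup.zpowers u) X)) := Fintype.ofFinite _
  -- invariance of `F` under powers
  have hpow : ∀ (k : ℕ) (x : X), F x → F (u ^ k • x) := by
    intro k
    induction k with
    | zero => intro x hx; rw [pow_zero, one_smul]; exact hx
    | succ k ih => intro x hx; rw [pow_succ', mul_smul]; exact hF _ (ih x hx)
  have hper : ∀ x : X, 0 < Function.minimalPeriod (u • ·) x := by
    intro x
    have hinj : Function.Injective (u • · : X → X) := MulAction.injective u
    exact Function.minimalPeriod_pos_of_mem_periodicPts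
      (Function.Injective.mem_periodicPts hinj x)
  have hrel : ∀ x y : X, (MulAction.orbitRel (Subgroup.zpowers u) X) y x →
      ∃ k : ℕ, y = u ^ k • x := by
    rintro x y ⟨⟨v, hv⟩, hvy⟩
    obtain ⟨m, rfl⟩ := Subgroup.mem_zpowers_iff.1 hv
    have h5 : u ^ m • x = y := hvy
    have hp := hper x
    refine ⟨(m % (Function.minimalPeriod (u • ·) x : ℤ)).toNat, ?_⟩
    rw [← h5]
    have h6 : u ^ (m % (Function.minimalPeriod (u • ·) x : ℤ)) • x = u ^ m • x :=
      MulAction.zpow_smul_mod_minimalPeriod u x m
    rw [← h6, ← zpow_natCast, Int.toNat_of_nonneg (Int.emod_nonneg _ (by exact_mod_cast hp.ne'))]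
  have hFrel : ∀ x y : X, (MulAction.orbitRel (Subgroup.zpowers u) X) y x → F x → F y := by
    intro x y h hx
    obtain ⟨k, rfl⟩ := hrel x y h
    exact hpow k x hx
  have hprel : ∀ x y : X, (MulAction.orbitRel (Subgroup.zpowers u) X) y x →
      Function.minimalPeriod (u • ·) y = Function.minimalPeriod (u • ·) x := by
    intro x y h
    obtain ⟨k, rfl⟩ := hrel x y h
    have e : u ^ k • x = (u • ·)^[k] x := by rw [smul_iterate]
    rw [e]
    exact Function.minimalPeriod_apply_iterate
      (Function.Injective.mem_periodicPts (MulAction.injective u) x) k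
  set A := {x : X // F x ∧ Function.minimalPeriod (u • ·) x = n} with hA
  set B := {q : Quotient (MulAction.orbitRel (Subgroup.zpowers u) X) //
        F q.out ∧ Function.minimalPeriod (u • ·) q.out = n} with hB
  have hout : ∀ x : X, (MulAction.orbitRel (Subgroup.zpowers u) X)
      (Quotient.mk (MulAction.orbitRel (Subgroup.zpowers u) X) x).out x := fun x =>
    Quotient.mk_out (s := MulAction.orbitRel (Subgroup.zpowers u) X) x
  let φ : A → B := fun x => ⟨Quotient.mk _ x.1, hFrel _ _ (hout x.1) x.2.1, by
    rw [hprel _ _ (hout x.1)]; exact x.2.2⟩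
  have hfib : ∀ q : B, Nat.card {x : A // φ x = q} = n := by
    intro q
    have h1 : Nat.card {x : A // φ x = q} = Nat.card (MulAction.orbit (Subgroup.zpowers u) q.1.out) := by
      apply Nat.card_congr
      refine
        { toFun := fun x => ⟨x.1.1, ?_⟩
          invFun := fun x => ⟨⟨x.1, ?_, ?_⟩, ?_⟩
          left_inv := fun x => ?_
          right_inv := fun x => ?_ }
      · have h2 : Quotient.mk (MulAction.orbitRel (Subgroup.zpowers u) X) x.1.1 = q.1 :=
          congrArg Subtype.val x.2
        rw [← MulAction.orbitRel_apply]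
        have h3 := hout x.1.1
        rw [h2] at h3
        exact (MulAction.orbitRel (Subgroup.zpowers u) X).symm h3
      · have h2 : (MulAction.orbitRel (Subgroup.zpowers u) X) x.1 q.1.out := by
          rw [MulAction.orbitRel_apply]; exact x.2
        exact hFrel _ _ h2 q.2.1
      · have h2 : (MulAction.orbitRel (Subgroup.zpowers u) X) x.1 q.1.out := by
          rw [MulAction.orbitRel_apply]; exact x.2
        rw [hprel _ _ h2]; exact q.2.2
      · apply Subtype.ext
        show Quotient.mk _ x.1 = q.1
        have h2 : (MulAction.orbitRel (Subgroup.zpowers u) X) x.1 q.1.out := by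
          rw [MulAction.orbitRel_apply]; exact x.2
        have e : Quotient.mk (MulAction.orbitRel (Subgroup.zpowers u) X) x.1 =
            Quotient.mk (MulAction.orbitRel (Subgroup.zpowers u) X) q.1.out := Quotient.sound h2
        exact e.trans (Quotient.out_eq q.1)
      · rfl
      · rfl
    have hf2 : Fintype (MulAction.orbit (Subgroup.zpowers u) q.1.out) := Fintype.ofFinite _
    rw [h1, Nat.card_eq_fintype_card, ← MulAction.minimalPeriod_eq_card]
    exact q.2.2
  have hcard : Nat.card A = Nat.card (Σ q : B, {x : A // φ x = q}) :=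
    Nat.card_congr (Equiv.sigmaFiberEquiv φ).symm
  have hfB : Fintype B := Fintype.ofFinite _
  rw [hcard, Nat.card_sigma]
  rw [Finset.sum_congr rfl (fun q _ => hfib q), Finset.sum_const, smul_eq_mul, mul_comm]
  rw [Nat.card_eq_fintype_card, Finset.card_univ]

/-- **Transfer with all orbit lengths**, `u ^ 8 = 1`. -/
theorem exists_counts [Finite G] (hG : ∀ H : Subgroup G, H.index ≠ 2)
    (hle : C₀ ≤ C) (h2 : C₀.relIndex C = 2) (u : G) (hu : u ^ 8 = 1) :
    ∃ c2 c4 : ℕ, Nat.card {x : G ⧸ C // Odd1 C C₀ (u ^ 2) x} = 2 * c2 ∧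
      Nat.card {x : G ⧸ C // Odd1 C C₀ (u ^ 4) x} = 4 * c4 ∧
      Even (Nat.card {x : G ⧸ C // Odd1 C C₀ u x} + c2 + c4) := by
  classical
  have : Fintype (G ⧸ C) := Fintype.ofFinite _
  have : Fintype (Quotient (MulAction.orbitRel (Subgroup.zpowers u) (G ⧸ C))) := Fintype.ofFinite _
  set f : G →* ℤˣ := MonoidHom.transfer (sgn h2) with hf
  have hf1 : f u = 1 := by
    by_contra hne
    have h3 : f u = -1 := (Int.units_eq_one_or (f u)).resolve_left hne
    apply hG f.ker
    rw [Subgroup.index_ker]
    have : f.range = ⊤ := by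
      rw [eq_top_iff]
      intro x _
      rcases Int.units_eq_one_or x with rfl | rfl
      · exact f.range.one_mem
      · exact ⟨u, h3⟩
    rw [this, Subgroup.card_top, Nat.card_eq_fintype_card]
    rfl
  rw [hf, MonoidHom.transfer_eq_prod_quotient_orbitRel_zpowers_quot] at hf1
  set P : Quotient (MulAction.orbitRel (Subgroup.zpowers u) (G ⧸ C)) → ℤˣ := fun q =>
    sgn h2 ⟨q.out.out⁻¹ * u ^ Function.minimalPeriod (u • ·) q.out * q.out.out,
      QuotientGroup.out_conj_pow_minimalPeriod_mem C u q.out⟩ with hP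
  have hprod : ∏ q, P q = 1 := hf1
  have heven : Even (Finset.univ.filter (fun q => P q = -1)).card := by
    have h3 : ∏ q, P q = ∏ q ∈ Finset.univ.filter (fun q => P q = -1), (-1 : ℤˣ) := by
      rw [Finset.prod_filter]
      apply Finset.prod_congr rfl
      intro q _
      by_cases hq : P q = -1
      · rw [if_pos hq, hq]
      · rw [if_neg hq]
        exact (Int.units_eq_one_or (P q)).resolve_right hq
    rw [h3, Finset.prod_const] at hprod
    by_contra hodd
    rw [Nat.not_even_iff_odd] at hodd
    rw [hodd.neg_one_pow] at hprod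
    exact absurd hprod (by decide)
  have hP_iff : ∀ q, P q = -1 ↔ q.out.out⁻¹ * u ^ Function.minimalPeriod (u • ·) q.out * q.out.out ∉ C₀ := by
    intro q
    rw [← sgn_eq_one_iff h2 ⟨_, QuotientGroup.out_conj_pow_minimalPeriod_mem C u q.out⟩]
    constructor
    · intro h3 h4
      have h5 : P q = 1 := h4
      rw [h5] at h3
      exact absurd h3 (by decide)
    · intro h3
      exact (Int.units_eq_one_or (P q)).resolve_left h3
  -- the points of odd type with period `n`
  let F : G ⧸ C → Prop := fun x => x.out⁻¹ * u ^ Function.minimalPeriod (u • ·) x * x.out ∉ C₀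
  have hmem : ∀ x : G ⧸ C, x.out⁻¹ * u ^ Function.minimalPeriod (u • ·) x * x.out ∈ C := fun x =>
    QuotientGroup.out_conj_pow_minimalPeriod_mem C u x
  have hFodd : ∀ x : G ⧸ C, F x ↔ Odd1 C C₀ (u ^ Function.minimalPeriod (u • ·) x) x := fun x =>
    ⟨fun h => ⟨hmem x, h⟩, fun h => h.2⟩
  have hinv : ∀ (v : G) (x : G ⧸ C), u * v = v * u → Odd1 C C₀ v x → Odd1 C C₀ v (u • x) := by
    intro v x huv hx
    obtain ⟨g, rfl⟩ := QuotientGroup.mk_surjective x
    rw [odd1_iff hle h2] at hx
    show Odd1 C C₀ v ((u * g : G) : G ⧸ C)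
    rw [odd1_iff hle h2]
    have e : (u * g)⁻¹ * v * (u * g) = g⁻¹ * v * g := by
      have : u⁻¹ * v * u = v := by
        rw [mul_assoc, ← huv, ← mul_assoc, inv_mul_cancel, one_mul]
      calc (u * g)⁻¹ * v * (u * g) = g⁻¹ * (u⁻¹ * v * u) * g := by group
        _ = _ := by rw [this]
    rw [e]; exact hx
  have hFinv : ∀ x, F x → F (u • x) := by
    intro x hx
    rw [hFodd] at hx ⊢
    have h3 : Function.minimalPeriod (u • ·) (u • x) = Function.minimalPeriod (u • ·) x :=
      Function.minimalPeriod_apply
        (Function.Injective.mem_periodicPts (MulAction.injective u) x)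
    rw [h3]
    exact hinv _ _ (by rw [← pow_succ', ← pow_succ]) hx
  -- points: `Odd1 (u ^ n) x`, `n = 1, 2, 4`
  have hpoint : ∀ (k : ℕ) (x : G ⧸ C), Odd1 C C₀ (u ^ 2 ^ k) x ↔
      (F x ∧ Function.minimalPeriod (u • ·) x = 2 ^ k) := by
    intro k x
    constructor
    · intro hx
      have h3 : u ^ 2 ^ k • x = x := by
        have := (smul_eq_iff C (u ^ 2 ^ k) x.out).2 hx.1
        rwa [QuotientGroup.out_eq'] at this
      have hdvd : Function.minimalPeriod (u • ·) x ∣ 2 ^ k := by
        apply Function.IsPeriodicPt.minimalPeriod_dvd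
        show (u • ·)^[2 ^ k] x = x
        rw [smul_iterate]
        exact h3
      obtain ⟨j, hj1, hj⟩ := (Nat.dvd_prime_pow Nat.prime_two).1 hdvd
      have hjk : j = k := by
        by_contra hne
        have hlt : j + 1 ≤ k := by omega
        apply hx.2
        obtain ⟨m, rfl⟩ := Nat.exists_eq_add_of_le hlt
        have h4 := hmem x
        rw [hj] at h4
        have h5 : x.out⁻¹ * u ^ 2 ^ (j + 1 + m) * x.out = (x.out⁻¹ * u ^ 2 ^ j * x.out) ^ (2 ^ (m + 1)) := by
          have e1 : x.out⁻¹ * u ^ 2 ^ j * x.out = x.out⁻¹ * u ^ 2 ^ j * x.out⁻¹⁻¹ := by rw [inv_inv]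
          rw [e1, conj_pow, inv_inv, ← pow_mul, ← pow_add]
          congr 3
          congr 1
          omega
        rw [h5]
        have h6 : (sgn h2 ⟨_, h4⟩) ^ (2 ^ (m + 1)) = 1 := by
          rw [pow_succ' 2 m, pow_mul, Int.units_sq, one_pow]
        rw [← map_pow, sgn_eq_one_iff] at h6
        exact h6
      subst hjk
      refine ⟨?_, hj⟩
      show x.out⁻¹ * u ^ Function.minimalPeriod (u • ·) x * x.out ∉ C₀
      rw [hj]
      exact hx.2
    · rintro ⟨h3, h4⟩
      rw [hFodd, h4] at h3
      exact h3
  have key : ∀ k : ℕ, Nat.card {x : G ⧸ C // Odd1 C C₀ (u ^ 2 ^ k) x} =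
      2 ^ k * Nat.card {q : Quotient (MulAction.orbitRel (Subgroup.zpowers u) (G ⧸ C)) //
        F q.out ∧ Function.minimalPeriod (u • ·) q.out = 2 ^ k} := by
    intro k
    exact (Nat.card_congr (Equiv.subtypeEquivRight (hpoint k))).trans (card_period u F hFinv (2 ^ k))
  have k0 := key 0
  have k1 := key 1
  have k2 := key 2
  have e2 : (2 : ℕ) ^ 1 = 2 := rfl
  have e4 : (2 : ℕ) ^ 2 = 4 := rfl
  rw [pow_zero, pow_one, one_mul] at k0
  rw [e2] at k1
  rw [e4] at k2
  refine ⟨_, _, k1, k2, ?_⟩
  rw [k0]
  have hcard : (Finset.univ.filter (fun q => P q = -1)).card =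
      Nat.card {q : Quotient (MulAction.orbitRel (Subgroup.zpowers u) (G ⧸ C)) //
        F q.out ∧ Function.minimalPeriod (u • ·) q.out = 1} +
      Nat.card {q : Quotient (MulAction.orbitRel (Subgroup.zpowers u) (G ⧸ C)) //
        F q.out ∧ Function.minimalPeriod (u • ·) q.out = 2} +
      Nat.card {q : Quotient (MulAction.orbitRel (Subgroup.zpowers u) (G ⧸ C)) //
        F q.out ∧ Function.minimalPeriod (u • ·) q.out = 4} := by
    rw [Nat.card_eq_fintype_card, Nat.card_eq_fintype_card, Nat.card_eq_fintype_card,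
      Fintype.card_subtype, Fintype.card_subtype, Fintype.card_subtype,
      ← Finset.card_union_of_disjoint, ← Finset.card_union_of_disjoint]
    · congr 1
      ext q
      simp only [Finset.mem_union, Finset.mem_filter, Finset.mem_univ, true_and]
      rw [hP_iff]
      have hF' : F q.out ↔ q.out.out⁻¹ * u ^ Function.minimalPeriod (u • ·) q.out * q.out.out ∉ C₀ := Iff.rfl
      constructor
      · intro hq
        have hdvd : Function.minimalPeriod (u • ·) q.out ∣ 2 ^ 3 := by
          apply Function.IsPeriodicPt.minimalPeriod_dvd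
          show (u • ·)^[2 ^ 3] q.out = q.out
          rw [smul_iterate]
          norm_num
          rw [hu]
          exact one_smul _ _
        obtain ⟨j, hj1, hj⟩ := (Nat.dvd_prime_pow Nat.prime_two).1 hdvd
        have hj3 : j ≠ 3 := by
          rintro rfl
          apply hq
          rw [hj]
          norm_num
          rw [hu, mul_one, inv_mul_cancel]
          exact C₀.one_mem
        have hj' : j = 0 ∨ j = 1 ∨ j = 2 := by omega
        rcases hj' with rfl | rfl | rfl
        · exact Or.inl (Or.inl ⟨hq, by rw [hj]; rfl⟩)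
        · exact Or.inl (Or.inr ⟨hq, by rw [hj]; rfl⟩)
        · exact Or.inr ⟨hq, by rw [hj]; rfl⟩
      · rintro ((h | h) | h) <;> exact h.1
    · rw [Finset.disjoint_left]
      intro q hq1 hq2
      simp only [Finset.mem_union, Finset.mem_filter, Finset.mem_univ, true_and] at hq1 hq2
      rcases hq1 with hq1 | hq1 <;> omega
    · rw [Finset.disjoint_left]
      intro q hq1 hq2
      simp only [Finset.mem_filter, Finset.mem_univ, true_and] at hq1 hq2
      omega
  rw [← hcard]
  exact heven

end Cfsg.Agent.H333.TrEight
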