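import Cfsg.Agent.H333.Chk64
import Cfsg.Agent.H333.TrEight
import Cfsg.Agent.H333.TrDiv

/-!
# Elimination of the Sylow 2-subgroups of order 64 of `Mod64` other than the one of `M₁₂` (helper333)
-/

set_option autoImplicit false

namespace Cfsg.Agent.H333.Elim64

open Cfsg.Agent.H333.Mod64 Cfsg.Agent.H333.Chk64 Cfsg.Agent.H333.TrDiv
open Cfsg.Agent.LargeExtra.Transfer

variable {G : Type*} [Group G]

/-- a coding of the elements of the subgroup `P` of order 64 -/
structure Cod (P : Subgroup G) (s t i : ℕ) (φ : ℕ → G) : Prop where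
  mem : ∀ n, φ n ∈ P
  one : φ 0 = 1
  mul : ∀ p q, φ p * φ q = φ (mulN s t i p q)
  inj : ∀ m < 64, ∀ n < 64, φ m = φ n → m = n
  surj : ∀ p ∈ P, ∃ n < 64, p = φ n

theorem mulN_lt (s t i p q : ℕ) : mulN s t i p q < 64 := by unfold mulN; omega

theorem sq_lt (s t i m : ℕ) : sq s t i m < 64 := mulN_lt _ _ _ _ _

section
variable {P : Subgroup G} {s t i : ℕ} {φ : ℕ → G} (h : Cod P s t i φ)
include h

theorem sq_eq (m : ℕ) : φ m ^ 2 = φ (sq s t i m) := by rw [pow_two, h.mul]; rfl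

theorem four_eq (m : ℕ) : φ m ^ 4 = φ (sq s t i (sq s t i m)) := by
  rw [← sq_eq h, ← sq_eq h, ← pow_mul]

theorem eight_eq (m : ℕ) : φ m ^ 8 = φ (sq s t i (sq s t i (sq s t i m))) := by
  rw [← sq_eq h, ← sq_eq h, ← sq_eq h, ← pow_mul, ← pow_mul]

theorem eq_one_iff {m : ℕ} (hm : m < 64) : φ m = 1 ↔ m = 0 := by
  constructor
  · intro h1; exact h.inj m hm 0 (by norm_num) (h1.trans h.one.symm)
  · rintro rfl; exact h.one

theorem ci_iff_ciN {m n : ℕ} (hn : n < 64) : CI (φ m) (φ n) ↔ ciN s t i m n = true := by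
  unfold CI ciN
  rw [h.mul, h.mul, h.mul, Bool.or_eq_true, Nat.beq_eq, Nat.beq_eq]
  constructor
  · rintro (h1 | h1)
    · left; exact h.inj _ (mulN_lt _ _ _ _ _) _ (mulN_lt _ _ _ _ _) h1
    · right; exact h.inj _ (mulN_lt _ _ _ _ _) _ hn h1
  · rintro (h1 | h1)
    · left; rw [h1]
    · right; rw [h1]

theorem card_ci [Finite G] (m : ℕ) : Nat.card {c : G // c ∈ P ∧ CI (φ m) c} = cnt s t i m := by
  classical
  have h1 : cnt s t i m = Nat.card {n : ℕ // n ∈ (List.range 64).filter (fun n => ciN s t i m n)} := by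
    unfold cnt
    rw [Nat.card_eq_fintype_card, Fintype.card_of_subtype (((List.range 64).filter (fun n => ciN s t i m n)).toFinset)]
    · rw [List.toFinset_card_of_nodup]
      exact List.nodup_range.filter _
    · intro x; rw [List.mem_toFinset]
  rw [h1]
  symm
  refine Nat.card_eq_of_bijective
    (fun n => (⟨φ n.1, h.mem _, ?_⟩ : {c : G // c ∈ P ∧ CI (φ m) c})) ⟨?_, ?_⟩
  · have h2 := List.mem_filter.1 n.2
    exact (ci_iff_ciN h (List.mem_range.1 h2.1)).2 h2.2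
  · rintro ⟨a, ha⟩ ⟨b, hb⟩ hab
    have h2 := List.mem_filter.1 ha
    have h3 := List.mem_filter.1 hb
    have h4 : φ a = φ b := congrArg Subtype.val hab
    exact Subtype.ext (h.inj a (List.mem_range.1 h2.1) b (List.mem_range.1 h3.1) h4)
  · rintro ⟨c, hc, hci⟩
    obtain ⟨n, hn, rfl⟩ := h.surj c hc
    exact ⟨⟨n, List.mem_filter.2 ⟨List.mem_range.2 hn, (ci_iff_ciN h hn).1 hci⟩⟩, rfl⟩

theorem card_P [Finite G] : Nat.card P = 64 := by
  have : Nat.card (Fin 64) = Nat.card P :=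
    Nat.card_eq_of_bijective (fun n : Fin 64 => (⟨φ n, h.mem _⟩ : P))
      ⟨fun a b hab => Fin.ext (h.inj a a.2 b b.2 (congrArg Subtype.val hab)), fun p => by
        obtain ⟨n, hn, hn2⟩ := h.surj p.1 p.2
        exact ⟨⟨n, hn⟩, Subtype.ext hn2.symm⟩⟩
  rw [← this, Nat.card_eq_fintype_card, Fintype.card_fin]

variable (hp : chkPar s t i = true)
include hp

omit h in
theorem par_mul {m n : ℕ} (hm : m < 64) (hn : n < 64) :
    par i (mulN s t i m n) = xor (par i m) (par i n) := by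
  have h1 := (List.all_eq_true.1 (List.all_eq_true.1 hp m (List.mem_range.2 hm))) n (List.mem_range.2 hn)
  revert h1
  cases par i (mulN s t i m n) <;> cases par i m <;> cases par i n <;> simp

/-- the subgroup of index two -/
def M0 : Subgroup G where
  carrier := {g | ∃ n < 64, par i n = false ∧ g = φ n}
  mul_mem' := by
    rintro _ _ ⟨m, hm, hm2, rfl⟩ ⟨n, hn, hn2, rfl⟩
    exact ⟨_, mulN_lt _ _ _ _ _, by rw [par_mul hp hm hn, hm2, hn2]; rfl, h.mul m n⟩
  one_mem' := ⟨0, by norm_num, by cases i <;> [rfl; skip]; (rename_i i; cases i <;> rfl), h.one.symm⟩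
  inv_mem' := by
    rintro _ ⟨m, hm, hm2, rfl⟩
    obtain ⟨n, hn, hn2⟩ := h.surj _ (P.inv_mem (h.mem m))
    refine ⟨n, hn, ?_, hn2⟩
    have h1 : φ (mulN s t i m n) = 1 := by rw [← h.mul, ← hn2, mul_inv_cancel]
    have h2 := (eq_one_iff h (mulN_lt _ _ _ _ _)).1 h1
    have h3 := par_mul hp hm hn
    have h4 : par i 0 = false := by
      cases i
      · rfl
      · rename_i i; cases i <;> rfl
    rw [h2, h4, hm2] at h3
    simpa using h3.symm

theorem mem_M0 {n : ℕ} (hn : n < 64) : φ n ∈ M0 h hp ↔ par i n = false := by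
  constructor
  · rintro ⟨m, hm, hm2, hm3⟩
    rw [h.inj n hn m hm hm3]; exact hm2
  · intro h1; exact ⟨n, hn, h1, rfl⟩

theorem M0_le : M0 h hp ≤ P := by
  rintro _ ⟨m, hm, hm2, rfl⟩
  exact h.mem m

theorem relIndex_M0 {u : ℕ} (hu : u < 64) (hu2 : par i u = true) : (M0 h hp).relIndex P = 2 := by
  rw [Subgroup.relIndex, Subgroup.index_eq_two_iff]
  refine ⟨⟨φ u, h.mem u⟩, ?_⟩
  rintro ⟨b, hb⟩
  obtain ⟨n, hn, rfl⟩ := h.surj b hb
  rw [Subgroup.mem_subgroupOf, Subgroup.mem_subgroupOf]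
  show Xor (φ n * φ u ∈ M0 h hp) (φ n ∈ M0 h hp)
  rw [h.mul, mem_M0 h hp (mulN_lt _ _ _ _ _), mem_M0 h hp hn, par_mul hp hn hu, hu2]
  cases par i n
  · right; simp
  · left; simp

end

/-- the subgroup of the elements centralising or inverting `v` -/
def ciSub (v : G) : Subgroup G where
  carrier := {c | CI v c}
  mul_mem' := by
    intro a b ha hb
    have ha' := (ci_iff v a).1 ha
    have hb' := (ci_iff v b).1 hb
    refine (ci_iff v (a * b)).2 ?_
    have e : (a * b)⁻¹ * v * (a * b) = b⁻¹ * (a⁻¹ * v * a) * b := by simp only [mul_inv_rev, mul_assoc]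
    have e2 : b⁻¹ * v⁻¹ * b = (b⁻¹ * v * b)⁻¹ := by simp only [mul_inv_rev, mul_assoc, inv_inv]
    rcases ha' with h1 | h1 <;> rcases hb' with h2 | h2
    · left; rw [e, h1, h2]
    · right; rw [e, h1, h2]
    · right; rw [e, h1, e2, h2]
    · left; rw [e, h1, e2, h2, inv_inv]
  one_mem' := Or.inl (by rw [one_mul, mul_one])
  inv_mem' := by
    intro a ha
    refine (ci_iff v a⁻¹).2 ?_
    rcases (ci_iff v a).1 ha with h1 | h1
    · left
      rw [inv_inv]
      have : v = a * v * a⁻¹ := by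
        conv_rhs => rw [← h1]
        simp [mul_assoc]
      exact this.symm
    · right
      rw [inv_inv]
      have : v⁻¹ = a * v * a⁻¹ := by
        have h2 : a⁻¹ * v⁻¹ * a = v := by
          have := congrArg (·⁻¹) h1
          simpa [mul_assoc] using this
        have h3 : v⁻¹ = a * (a⁻¹ * v⁻¹ * a) * a⁻¹ := by simp [mul_assoc]
        rw [h3, h2]
      exact this.symm

section
variable [Finite G] {P : Subgroup G} {s t i : ℕ} {φ : ℕ → G} (h : Cod P s t i φ) (hp : chkPar s t i = true)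
include h hp

/-- the number of cosets whose conjugate of `φ u` is outside `M0` -/
theorem odd_outside (hodd : Odd P.index) {u : ℕ} (hu8 : φ u ^ 8 = 1)
    (hin : ∀ m < 64, par i m = false → φ m ^ 4 ≠ 1 → cnt s t i m < cnt s t i u) (hu4 : φ u ^ 4 ≠ 1)
    {v : ℕ} (hv : v < 64) (hv2 : par i v = true) :
    Odd (Nat.card {x : G ⧸ P // Odd1 P (M0 h hp) (φ u) x}) := by
  classical
  have hrel := relIndex_M0 h hp hv hv2
  have hle := M0_le h hp
  have h1 := odd_card_fix hodd (v := φ u) (k := 3) hu8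
  have h2 : Nat.card {x : G ⧸ P // Pt P (fun w => w ∈ P) (φ u) x} =
      Nat.card {x : G ⧸ P // Pt P (fun w => w ∈ M0 h hp) (φ u) x} +
        Nat.card {x : G ⧸ P // Odd1 P (M0 h hp) (φ u) x} := by
    rw [← Nat.card_sum]
    apply Nat.card_congr
    have h4 : ∀ x : G ⧸ P, Pt P (fun w => w ∈ P) (φ u) x ↔
        (Pt P (fun w => w ∈ M0 h hp) (φ u) x ∨ Odd1 P (M0 h hp) (φ u) x) := by
      intro x
      constructor
      · intro h6
        by_cases h7 : x.out⁻¹ * φ u * x.out ∈ M0 h hp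
        · exact Or.inl h7
        · exact Or.inr ⟨h6, h7⟩
      · rintro (h6 | h6)
        · exact hle h6
        · exact h6.1
    refine (Equiv.subtypeEquivRight h4).trans ?_
    apply subtypeOrEquiv
    rw [disjoint_iff_inf_le]
    rintro x ⟨h5, h6⟩
    exact h6.2 h5
  have h3 : Even (Nat.card {x : G ⧸ P // Pt P (fun w => w ∈ M0 h hp) (φ u) x}) := by
    by_contra hne
    rw [Nat.not_even_iff_odd] at hne
    have hD : IsPGroup 2 (P ⊓ ciSub (φ u) : Subgroup G) := by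
      have h6 : IsPGroup 2 P := IsPGroup.of_card (n := 6) (by rw [card_P h]; norm_num)
      exact h6.to_le inf_le_left
    obtain ⟨g, hg1, hg2⟩ := exists_fixed (P := P) (S := fun w => w ∈ M0 h hp) (v := φ u)
      (D := P ⊓ ciSub (φ u))
      (fun c hc w hw => (normal_of_relIndex hle hrel hc).2 hw) (fun w hw => (M0 h hp).inv_mem hw)
      (fun d hd => (Subgroup.mem_inf.1 hd).2) hD hne
    obtain ⟨m, hm, hm2, hm3⟩ := hg1
    have h5 := hin m hm hm2 (by
      rw [← hm3]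
      intro h6
      apply hu4
      have e : g⁻¹ * φ u * g = g⁻¹ * φ u * g⁻¹⁻¹ := by rw [inv_inv]
      rw [e, conj_pow, inv_inv] at h6
      have := congrArg (fun z => g * z * g⁻¹) h6
      simpa [mul_assoc] using this)
    rw [← card_ci h m, ← card_ci h u] at h5
    apply absurd h5
    rw [not_lt]
    refine Nat.card_le_card_of_injective
      (fun c => (⟨g⁻¹ * c.1 * g, hg2 _ (Subgroup.mem_inf.2 ⟨c.2.1, c.2.2⟩), ?_⟩ :
        {c : G // c ∈ P ∧ CI (φ m) c})) ?_
    · rw [← hm3]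
      exact ci_conj g c.2.2
    · rintro ⟨a, ha⟩ ⟨b, hb⟩ hab
      have h7 : g⁻¹ * a * g = g⁻¹ * b * g := congrArg Subtype.val hab
      exact Subtype.ext (mul_left_cancel (mul_right_cancel h7))
  rw [h2] at h1
  rw [Nat.odd_iff] at h1 ⊢
  rw [Nat.even_iff] at h3
  omega

/-- divisibility of the number of cosets whose conjugate of `w` is outside `M0` -/
theorem dvd_outside {w : G} {b : ℕ} {v : ℕ} (hv : v < 64) (hv2 : par i v = true)
    (hw : ∀ d ∈ P, CI w d)
    (hb : ∀ (g : G), ∀ m < 64, par i m = true → g⁻¹ * w * g = φ m → cnt s t i m ≤ 2 ^ b) :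
    2 ^ (6 - b) ∣ Nat.card {x : G ⧸ P // Odd1 P (M0 h hp) w x} := by
  have hrel := relIndex_M0 h hp hv hv2
  have hle := M0_le h hp
  refine dvd_card (P := P) (S := fun w => w ∈ P ∧ w ∉ M0 h hp) (v := w) (D := P) (a := 6) (b := b)
    ?_ ?_ hw (by rw [card_P h]; norm_num) ?_
  · intro c hc z hz
    refine ⟨P.mul_mem (P.mul_mem (P.inv_mem hc) hz.1) hc, fun h1 => hz.2 ?_⟩
    exact (normal_of_relIndex hle hrel hc).1 h1
  · intro z hz
    exact ⟨P.inv_mem hz.1, fun h1 => hz.2 (by simpa using (M0 h hp).inv_mem h1)⟩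
  · rintro g ⟨hg1, hg2⟩
    obtain ⟨m, hm, hm2⟩ := h.surj _ hg1
    have h3 : par i m = true := by
      rw [hm2, mem_M0 h hp hm] at hg2
      simpa using hg2
    rw [hm2, card_ci h m]
    exact hb g m hm h3 hm2

/-- **Elimination A**. -/
theorem false_A (hG : ∀ H : Subgroup G, H.index ≠ 2) (hodd : Odd P.index) {u : ℕ}
    (hc : chkA s t i u = true) {v : ℕ} (hv : v < 64) (hv2 : par i v = true) : False := by
  unfold chkA at hc
  rw [Bool.and_eq_true, Bool.and_eq_true, Bool.and_eq_true, Bool.not_eq_true', Nat.beq_eq] at hc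
  obtain ⟨⟨⟨hc1, hc2⟩, hc3⟩, hc4⟩ := hc
  have hu8 : φ u ^ 8 = 1 := by rw [eight_eq h, hc2, h.one]
  have hu4 : φ u ^ 4 ≠ 1 := by
    rw [four_eq h]
    intro h1
    rw [eq_one_iff h (sq_lt _ _ _ _)] at h1
    rw [h1] at hc1
    simp at hc1
  have hconj : ∀ (g w : G) (n : ℕ), (g⁻¹ * w * g) ^ n = g⁻¹ * w ^ n * g := by
    intro g w n
    have e : g⁻¹ * w * g = g⁻¹ * w * g⁻¹⁻¹ := by rw [inv_inv]
    rw [e, conj_pow, inv_inv]
  have h4m : ∀ m < 64, (par i m = false → φ m ^ 4 ≠ 1 → cnt s t i m < cnt s t i u) ∧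
      (par i m = true → φ m ^ 2 ≠ 1 → φ m ^ 4 = 1 → cnt s t i m ≤ 16) ∧
      (par i m = true → φ m ^ 2 = 1 → cnt s t i m ≤ 8) := by
    intro m hm
    have h5 := List.all_eq_true.1 hc4 m (List.mem_range.2 hm)
    rw [Bool.and_eq_true, Bool.and_eq_true] at h5
    obtain ⟨⟨h6, h7⟩, h8⟩ := h5
    rw [four_eq h, sq_eq h, Ne, Ne, eq_one_iff h (sq_lt _ _ _ _), eq_one_iff h (sq_lt _ _ _ _)]
    simp only [Bool.or_eq_true, Nat.beq_eq, Nat.ble_eq, Nat.blt_eq] at h6 h7 h8
    refine ⟨fun h9 h10 => ?_, fun h9 h10 h11 => ?_, fun h9 h10 => ?_⟩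
    · rcases h6 with (h6 | h6) | h6
      · rw [h9] at h6; simp at h6
      · exact absurd h6 h10
      · exact h6
    · rcases h7 with ((h7 | h7) | h7) | h7
      · rw [h9] at h7; simp at h7
      · exact absurd h7 h10
      · rw [h11] at h7; exact absurd h7 (by decide)
      · exact h7
    · rcases h8 with (h8 | h8) | h8
      · rw [h9] at h8; simp at h8
      · rw [h10] at h8; exact absurd h8 (by decide)
      · exact h8
  obtain ⟨c2, c4, k2, k4, hev⟩ := TrEight.exists_counts hG (M0_le h hp) (relIndex_M0 h hp hv hv2) (φ u) hu8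
  have o1 := odd_outside h hp hodd hu8 (fun m hm => (h4m m hm).1) hu4 hv hv2
  have hci : ∀ d ∈ P, CI (φ u ^ 2) d ∧ CI (φ u ^ 4) d := by
    intro d hd
    obtain ⟨n, hn, rfl⟩ := h.surj d hd
    have h5 := List.all_eq_true.1 hc3 n (List.mem_range.2 hn)
    rw [Bool.and_eq_true] at h5
    rw [sq_eq h, four_eq h, ci_iff_ciN h hn, ci_iff_ciN h hn]
    exact h5
  have d4 := dvd_outside h hp (w := φ u ^ 4) (b := 3) hv hv2 (fun d hd => (hci d hd).2) (by
    intro g m hm hm2 hm3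
    apply (h4m m hm).2.2 hm2
    rw [← hm3, hconj, ← pow_mul, hu8]
    simp)
  have d2 := dvd_outside h hp (w := φ u ^ 2) (b := 4) hv hv2 (fun d hd => (hci d hd).1) (by
    intro g m hm hm2 hm3
    apply (h4m m hm).2.1 hm2
    · rw [← hm3, hconj, ← pow_mul]
      intro h5
      apply hu4
      have := congrArg (fun z => g * z * g⁻¹) h5
      simpa [mul_assoc] using this
    · rw [← hm3, hconj, ← pow_mul, hu8]
      simp)
  rw [k4] at d4
  rw [k2] at d2
  norm_num at d4 d2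
  rw [Nat.odd_iff] at o1
  rw [Nat.even_iff] at hev
  omega

end

/-- **Elimination B**: type `(1, 1, 0)`. -/
theorem false_B [Finite G] {P : Subgroup G} {φ : ℕ → G} (h : Cod P 1 1 0 φ)
    (hG : ∀ H : Subgroup G, H.index ≠ 2) (hodd : Odd P.index) : False := by
  classical
  have hp := par_110
  have hc := chkB_true
  unfold chkB at hc
  rw [Bool.and_eq_true] at hc
  obtain ⟨hc1, hc2⟩ := hc
  have hrel := relIndex_M0 h hp (u := 48) (by norm_num) (by decide)
  have hle := M0_le h hp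
  have hconj : ∀ (g w : G) (n : ℕ), (g⁻¹ * w * g) ^ n = g⁻¹ * w ^ n * g := by
    intro g w n
    have e : g⁻¹ * w * g = g⁻¹ * w * g⁻¹⁻¹ := by rw [inv_inv]
    rw [e, conj_pow, inv_inv]
  have hconjm : ∀ (g a b : G), (g⁻¹ * a * g) * (g⁻¹ * b * g) = g⁻¹ * (a * b) * g := by
    intro g a b; simp [mul_assoc]
  have hu4 : φ 48 ^ 4 = 1 := by
    rw [four_eq h]
    exact (eq_one_iff h (sq_lt _ _ _ _)).2 (by decide)
  have hev := Cfsg.Agent.LargeExtra.TransferPow.even_card_odd1 hG hle hrel (φ 48) (k := 2) hu4 (by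
    intro m g hm hg
    obtain ⟨n, hn, hn2⟩ := h.surj _ hg
    rw [hn2, mem_M0 h hp hn]
    by_contra hne
    have h1 : par 0 n = true := by simpa using hne
    have h2 := List.all_eq_true.1 hc1 n (List.mem_range.2 hn)
    rw [h1] at h2
    have h3 : sq 1 1 0 n = 0 := by
      rw [← eq_one_iff h (sq_lt _ _ _ _), ← sq_eq h, ← hn2, hconj, ← pow_mul]
      obtain ⟨k, rfl⟩ := hm
      rw [show 2 * k * 2 = 4 * k by ring, pow_mul, hu4]
      simp
    rw [h3] at h2
    exact absurd h2 (by decide))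
  have h1 := odd_card_fix hodd (v := φ 48) (k := 2) hu4
  have h2 : Nat.card {x : G ⧸ P // Pt P (fun w => w ∈ P) (φ 48) x} =
      Nat.card {x : G ⧸ P // Pt P (fun w => w ∈ M0 h hp) (φ 48) x} +
        Nat.card {x : G ⧸ P // Odd1 P (M0 h hp) (φ 48) x} := by
    rw [← Nat.card_sum]
    apply Nat.card_congr
    have h4 : ∀ x : G ⧸ P, Pt P (fun w => w ∈ P) (φ 48) x ↔
        (Pt P (fun w => w ∈ M0 h hp) (φ 48) x ∨ Odd1 P (M0 h hp) (φ 48) x) := by
      intro x
      constructor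
      · intro h6
        by_cases h7 : x.out⁻¹ * φ 48 * x.out ∈ M0 h hp
        · exact Or.inl h7
        · exact Or.inr ⟨h6, h7⟩
      · rintro (h6 | h6)
        · exact hle h6
        · exact h6.1
    refine (Equiv.subtypeEquivRight h4).trans ?_
    apply subtypeOrEquiv
    rw [disjoint_iff_inf_le]
    rintro x ⟨h5, h6⟩
    exact h6.2 h5
  have h3 : Odd (Nat.card {x : G ⧸ P // Pt P (fun w => w ∈ M0 h hp) (φ 48) x}) := by
    rw [h2] at h1
    rw [Nat.odd_iff] at h1 ⊢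
    rw [Nat.even_iff] at hev
    omega
  have hD : IsPGroup 2 (P ⊓ ciSub (φ 48) : Subgroup G) := by
    have h6 : IsPGroup 2 P := IsPGroup.of_card (n := 6) (by rw [card_P h]; norm_num)
    exact h6.to_le inf_le_left
  obtain ⟨g, hg1, hg2⟩ := exists_fixed (P := P) (S := fun w => w ∈ M0 h hp) (v := φ 48)
    (D := P ⊓ ciSub (φ 48))
    (fun c hc w hw => (normal_of_relIndex hle hrel hc).2 hw) (fun w hw => (M0 h hp).inv_mem hw)
    (fun d hd => (Subgroup.mem_inf.1 hd).2) hD h3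
  obtain ⟨p, hpl, hpp, hpe⟩ := hg1
  obtain ⟨q, hq, hqe⟩ := h.surj _ (hg2 (φ 2) (Subgroup.mem_inf.2 ⟨h.mem 2,
    (ci_iff_ciN h (by norm_num)).2 (by decide)⟩))
  obtain ⟨v, hv, hve⟩ := h.surj _ (hg2 (φ 16) (Subgroup.mem_inf.2 ⟨h.mem 16,
    (ci_iff_ciN h (by norm_num)).2 (by decide)⟩))
  have hinj : ∀ a b : G, g⁻¹ * a * g = g⁻¹ * b * g → a = b := fun a b hab =>
    mul_left_cancel (mul_right_cancel hab)
  -- the relations
  have r1 : sq 1 1 0 p ≠ 0 := by
    rw [Ne, ← eq_one_iff h (sq_lt _ _ _ _), ← sq_eq h, ← hpe, hconj]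
    intro h5
    have h6 : φ 48 ^ 2 = 1 := hinj _ _ (by rw [h5]; simp)
    rw [sq_eq h, eq_one_iff h (sq_lt _ _ _ _)] at h6
    exact absurd h6 (by decide)
  have r2 : sq 1 1 0 (sq 1 1 0 p) = 0 := by
    rw [← eq_one_iff h (sq_lt _ _ _ _), ← four_eq h, ← hpe, hconj, hu4]
    simp
  have r3 : sq 1 1 0 q ≠ 0 := by
    rw [Ne, ← eq_one_iff h (sq_lt _ _ _ _), ← sq_eq h, ← hqe, hconj]
    intro h5
    have h6 : φ 2 ^ 2 = 1 := hinj _ _ (by rw [h5]; simp)
    rw [sq_eq h, eq_one_iff h (sq_lt _ _ _ _)] at h6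
    exact absurd h6 (by decide)
  have r4 : sq 1 1 0 (sq 1 1 0 q) = 0 := by
    rw [← eq_one_iff h (sq_lt _ _ _ _), ← four_eq h, ← hqe, hconj, four_eq h]
    rw [(eq_one_iff h (sq_lt _ _ _ _)).2 (by decide)]
    simp
  have r5 : mulN 1 1 0 p q = mulN 1 1 0 q p := by
    apply h.inj _ (mulN_lt _ _ _ _ _) _ (mulN_lt _ _ _ _ _)
    rw [← h.mul, ← h.mul, ← hpe, ← hqe, hconjm, hconjm, h.mul, h.mul]
    rfl
  have r6 : sq 1 1 0 p ≠ sq 1 1 0 q := by
    intro h5
    have h6 : φ 48 ^ 2 = φ 2 ^ 2 := by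
      apply hinj
      rw [← hconj, ← hconj, hpe, hqe, sq_eq h, sq_eq h, h5]
    rw [sq_eq h, sq_eq h] at h6
    have h7 := h.inj _ (sq_lt _ _ _ _) _ (sq_lt _ _ _ _) h6
    exact absurd h7 (by decide)
  have r7 : mulN 1 1 0 (mulN 1 1 0 p v) p = v := by
    apply h.inj _ (mulN_lt _ _ _ _ _) _ hv
    rw [← h.mul, ← h.mul, ← hpe, ← hve, hconjm, hconjm, h.mul, h.mul]
    rfl
  have r8 : mulN 1 1 0 (mulN 1 1 0 q v) q = v := by
    apply h.inj _ (mulN_lt _ _ _ _ _) _ hv
    rw [← h.mul, ← h.mul, ← hqe, ← hve, hconjm, hconjm, h.mul, h.mul]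
    rfl
  have r9 : sq 1 1 0 v = sq 1 1 0 q := by
    apply h.inj _ (sq_lt _ _ _ _) _ (sq_lt _ _ _ _)
    rw [← sq_eq h, ← sq_eq h, ← hqe, ← hve, hconj, hconj, sq_eq h, sq_eq h]
    rfl
  have h5 := List.all_eq_true.1 hc2 p (List.mem_range.2 hpl)
  rw [hpp, r2] at h5
  simp only [Bool.or_eq_true, Nat.beq_eq] at h5
  rcases h5 with ((h5 | h5) | h5) | h5
  · exact absurd h5 (by decide)
  · exact r1 h5
  · exact absurd h5 (by decide)
  · have h6 := List.all_eq_true.1 h5 q (List.mem_range.2 hq)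
    rw [r4, r5] at h6
    simp only [Bool.or_eq_true, Nat.beq_eq] at h6
    rcases h6 with (((h6 | h6) | h6) | h6) | h6
    · exact r3 h6
    · exact absurd h6 (by decide)
    · rw [Bool.not_eq_true'] at h6
      have : Nat.beq (mulN 1 1 0 q p) (mulN 1 1 0 q p) = true := by rw [Nat.beq_eq]
      rw [this] at h6
      exact absurd h6 (by decide)
    · exact r6 h6
    · have h7 := List.all_eq_true.1 h6 v (List.mem_range.2 hv)
      rw [r7, r8, r9] at h7
      have e1 : Nat.beq v v = true := by rw [Nat.beq_eq]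
      have e2 : Nat.beq (sq 1 1 0 q) (sq 1 1 0 q) = true := by rw [Nat.beq_eq]
      rw [e1, e2] at h7
      exact absurd h7 (by decide)

end Cfsg.Agent.H333.Elim64
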