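import Cfsg.Agent.H333.Mod64

/-!
# Groups of order 64 with a self-centralizing element of order 8 conjugate to its odd powers (helper333)
-/

set_option autoImplicit false

namespace Cfsg.Agent.H333.Ex64

open Cfsg.Agent.H333.Mod64

variable {H : Type*} [Group H]

section
variable {f : H} (hf : orderOf f = 8)
include hf

theorem exists_pow {z : H} (h : z ∈ Subgroup.zpowers f) : ∃ r < 8, z = f ^ r := by
  obtain ⟨k, rfl⟩ := Subgroup.mem_zpowers_iff.1 h
  refine ⟨(k % 8).toNat, by omega, ?_⟩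
  rw [← zpow_natCast, Int.toNat_of_nonneg (by omega)]
  have := zpow_mod_orderOf f k
  rw [hf] at this
  exact this.symm

theorem pow_inj {m n : ℕ} (h : f ^ m = f ^ n) : m % 8 = n % 8 := by
  have := pow_inj_mod.1 h
  rwa [hf] at this

theorem f8 : f ^ 8 = 1 := by rw [← hf]; exact pow_orderOf_eq_one f

end

theorem mem_normalizer_zpowers [Finite H] {f n : H} (h : n * f * n⁻¹ ∈ Subgroup.zpowers f) :
    n ∈ Subgroup.normalizer (Subgroup.zpowers f : Set H) := by
  have hle : (Subgroup.zpowers f).map (MulAut.conj n).toMonoidHom ≤ Subgroup.zpowers f := by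
    rw [MonoidHom.map_zpowers, Subgroup.zpowers_le]
    exact h
  have heq : (Subgroup.zpowers f).map (MulAut.conj n).toMonoidHom = Subgroup.zpowers f := by
    apply Subgroup.eq_of_le_of_card_ge hle
    rw [Subgroup.card_map_of_injective (MulAut.conj n).injective]
  rw [Subgroup.mem_normalizer_iff]
  intro z
  constructor
  · intro hz
    have : (MulAut.conj n).toMonoidHom z ∈ (Subgroup.zpowers f).map (MulAut.conj n).toMonoidHom :=
      Subgroup.mem_map_of_mem _ hz
    rw [heq] at this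
    exact this
  · intro hz
    rw [← heq] at hz
    obtain ⟨w, hw, hwz⟩ := hz
    have : w = z := (MulAut.conj n).injective hwz
    rw [← this]; exact hw

/-- The normalizer of `⟨f⟩` has order 32. -/
theorem card_normalizer [Finite H] {f : H} (hf : orderOf f = 8)
    (hself : ∀ x, x * f = f * x → x ∈ Subgroup.zpowers f)
    (hodd : ∀ k ∈ ({3, 5, 7} : Set ℕ), ∃ x, x * f * x⁻¹ = f ^ k) :
    Nat.card (Subgroup.normalizer (Subgroup.zpowers f : Set H)) = 32 := by
  obtain ⟨x3, h3⟩ := hodd 3 (by simp)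
  obtain ⟨x5, h5⟩ := hodd 5 (by simp)
  obtain ⟨x7, h7⟩ := hodd 7 (by simp)
  let X : Fin 4 → H := ![1, x3, x5, x7]
  let K : Fin 4 → ℕ := ![1, 3, 5, 7]
  have hX : ∀ j, X j * f * (X j)⁻¹ = f ^ K j := by
    intro j
    fin_cases j
    · show (1 : H) * f * 1⁻¹ = f ^ 1
      simp
    · exact h3
    · exact h5
    · exact h7
  have hconj : ∀ (j : Fin 4) (r : ℕ), (X j * f ^ r) * f * (X j * f ^ r)⁻¹ = f ^ K j := by
    intro j r
    have e : (X j * f ^ r) * f * (X j * f ^ r)⁻¹ = X j * (f ^ r * f * (f ^ r)⁻¹) * (X j)⁻¹ := by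
      simp only [mul_assoc, mul_inv_rev]
    have e2 : f ^ r * f * (f ^ r)⁻¹ = f := by
      rw [← pow_succ, pow_succ', mul_assoc, mul_inv_cancel, mul_one]
    rw [e, e2, hX]
  let F : Fin 4 × Fin 8 → Subgroup.normalizer (Subgroup.zpowers f : Set H) := fun a =>
    ⟨X a.1 * f ^ (a.2 : ℕ), mem_normalizer_zpowers (by
      rw [hconj]; exact Subgroup.npow_mem_zpowers f _)⟩
  have hF : Function.Bijective F := by
    constructor
    · rintro ⟨j, r⟩ ⟨j', r'⟩ h
      have h1 : X j * f ^ (r : ℕ) = X j' * f ^ (r' : ℕ) := congrArg Subtype.val h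
      have h2 : f ^ K j = f ^ K j' := by rw [← hconj j r, ← hconj j' r', h1]
      have h4 := pow_inj hf h2
      have h6 : j = j' := by
        revert h4
        fin_cases j <;> fin_cases j' <;> simp [K]
      subst h6
      have h7 := pow_inj hf (mul_left_cancel h1)
      have h8 : r = r' := by
        apply Fin.ext
        have := r.2
        have := r'.2
        omega
      rw [h8]
    · rintro ⟨n, hn⟩
      have h1 : n * f * n⁻¹ ∈ Subgroup.zpowers f :=
        (Subgroup.mem_normalizer_iff.1 hn f).1 (Subgroup.mem_zpowers f)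
      obtain ⟨k, hk, hkn⟩ := exists_pow hf h1
      -- `k` is odd
      have hko : k % 2 = 1 := by
        by_contra hne
        have h2 : (n * f * n⁻¹) ^ 4 = 1 := by
          rw [hkn, ← pow_mul]
          have : k * 4 = 8 * (k / 2) := by omega
          rw [this, pow_mul, f8 hf, one_pow]
        rw [conj_pow] at h2
        have h4 : f ^ 4 = 1 := by
          have := congrArg (fun z => n⁻¹ * z * n) h2
          simpa [mul_assoc] using this
        have h6 : f ^ 4 = f ^ 0 := by rw [h4, pow_zero]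
        have := pow_inj hf h6
        omega
      obtain ⟨j, hj⟩ : ∃ j : Fin 4, K j = k := by
        have : k = 1 ∨ k = 3 ∨ k = 5 ∨ k = 7 := by omega
        rcases this with rfl | rfl | rfl | rfl
        · exact ⟨0, rfl⟩
        · exact ⟨1, rfl⟩
        · exact ⟨2, rfl⟩
        · exact ⟨3, rfl⟩
      have h2 : (X j)⁻¹ * n * f = f * ((X j)⁻¹ * n) := by
        have h4 : n * f * n⁻¹ = X j * f * (X j)⁻¹ := by rw [hX, hj, hkn]
        have h6 : n * f = X j * f * (X j)⁻¹ * n := by rw [← h4]; simp [mul_assoc]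
        rw [mul_assoc, h6]; simp [mul_assoc]
      obtain ⟨r, hr, hrn⟩ := exists_pow hf (hself _ h2)
      refine ⟨(j, ⟨r, hr⟩), ?_⟩
      apply Subtype.ext
      show X j * f ^ r = n
      rw [← hrn, mul_inv_cancel_left]
  rw [← Nat.card_eq_of_bijective F hF]
  simp

theorem fred {f : H} (hf : orderOf f = 8) (n : ℕ) : f ^ n = f ^ (n % 8) := pow_eq_pow_mod n (f8 hf)

/-- an element `b` of the coset of an element acting as `f ↦ f ^ 5` on `⟨f⟩`, for a conjugate `f'` of `f` -/
theorem exists_b [Finite H] (hH : Nat.card H = 64) {f : H} (hf : orderOf f = 8)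
    (hself : ∀ x, x * f = f * x → x ∈ Subgroup.zpowers f)
    (hodd : ∀ k ∈ ({3, 5, 7} : Set ℕ), ∃ x, x * f * x⁻¹ = f ^ k) :
    ∃ b g : H, b * b = 1 ∧ b * f = f ^ 5 * b ∧ b ∉ Subgroup.zpowers f ∧ g * f * g⁻¹ = f * b := by
  have hN := card_normalizer hf hself hodd
  set N := Subgroup.normalizer (Subgroup.zpowers f : Set H) with hNdef
  have hidx : N.index = 2 := by
    have := N.card_mul_index
    rw [hN, hH] at this
    omega
  have hnorm : N.Normal := Subgroup.normal_of_index_eq_two hidx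
  obtain ⟨g, hg⟩ : ∃ g, g ∉ N := by
    by_contra hcon
    push Not at hcon
    have : N = ⊤ := eq_top_iff.2 fun z _ => hcon z
    rw [this, Subgroup.index_top] at hidx
    omega
  have hfN : f ∈ N := Subgroup.le_normalizer (Subgroup.mem_zpowers f)
  obtain ⟨f', hf'⟩ : ∃ f', f' = g * f * g⁻¹ := ⟨_, rfl⟩
  have hf'N : f' ∈ N := by rw [hf']; exact hnorm.conj_mem f hfN g
  have hf'n : f' ∉ Subgroup.zpowers f := fun h => hg (mem_normalizer_zpowers (by rw [← hf']; exact h))
  -- `f' f f'⁻¹ = f ^ k`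
  obtain ⟨k, hk, hkn⟩ := exists_pow hf ((Subgroup.mem_normalizer_iff.1 hf'N f).1 (Subgroup.mem_zpowers f))
  have hkn' : f' * f = f ^ k * f' := by rw [← hkn]; simp [mul_assoc]
  have hpow : ∀ n : ℕ, f' * f ^ n = f ^ (k * n) * f' := by
    intro n
    induction n with
    | zero => simp
    | succ n ih =>
      rw [pow_succ, ← mul_assoc, ih, mul_assoc, hkn', ← mul_assoc, ← pow_add]
      congr 2
  have hord : orderOf f' = 8 := by
    rw [hf', ← hf]
    exact orderOf_injective (MulAut.conj g).toMonoidHom (MulAut.conj g).injective f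
  have hfsq : f' * f' * f = f ^ (k * k) * (f' * f') := by
    rw [mul_assoc, hkn', ← mul_assoc, hpow, mul_assoc]
  -- `k` odd
  have hko : k % 2 = 1 := by
    by_contra hne
    have h2 : f' * f ^ 4 = f' := by
      rw [hpow]
      have : k * 4 = 8 * (k / 2) := by omega
      rw [this, pow_mul, f8 hf, one_pow, one_mul]
    have h3 : f ^ 4 = f ^ 0 := by rw [pow_zero]; exact mul_eq_left.1 h2
    have := pow_inj hf h3
    omega
  have hkk : f ^ (k * k) = f := by
    have hk4 : k = 1 ∨ k = 3 ∨ k = 5 ∨ k = 7 := by omega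
    rcases hk4 with rfl | rfl | rfl | rfl <;> rw [fred hf] <;> norm_num
  rw [hkk] at hfsq
  obtain ⟨m, hm, hm2⟩ := exists_pow hf (hself _ hfsq)
  -- `m` is `2` or `6`
  have hf'8 := f8 hord
  have hm4 : m = 2 ∨ m = 6 := by
    have h1 : f ^ (m * 4) = f ^ 0 := by
      rw [pow_mul, ← hm2, pow_zero, ← pow_two, ← pow_mul]
      exact hf'8
    have h2 := pow_inj hf h1
    have h3 : ¬ (m * 2 % 8 = 0) := by
      intro h
      have h4 : f ^ (m * 2) = 1 := by rw [fred hf, h, pow_zero]
      have h5 : f' ^ 4 = f' ^ 0 := by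
        rw [pow_mul, ← hm2, ← pow_two, ← pow_mul] at h4
        rw [pow_zero]; exact h4
      have := pow_inj hord h5
      omega
    omega
  -- `k = 5`
  have hk5 : k = 5 := by
    have h1 : f' * f ^ m = f ^ m * f' := by rw [← hm2]; simp only [mul_assoc]
    rw [hpow] at h1
    have h2 := pow_inj hf (mul_right_cancel h1)
    have hk4 : k = 1 ∨ k = 3 ∨ k = 5 ∨ k = 7 := by omega
    rcases hk4 with rfl | rfl | rfl | rfl
    · exfalso
      apply hf'n
      apply hself
      rw [hkn', pow_one]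
    · rcases hm4 with rfl | rfl <;> omega
    · rfl
    · rcases hm4 with rfl | rfl <;> omega
  subst hk5
  obtain ⟨x7, h7⟩ := hodd 7 (by simp)
  have hfb : ∀ j, f ^ j * f' = f' * f ^ (5 * j) := by
    intro j
    rw [hpow, fred hf (5 * (5 * j)), fred hf j]
    congr 2
    omega
  rcases hm4 with rfl | rfl
  · -- `b = f' f`
    refine ⟨f' * f, g * x7, ?_, ?_, ?_, ?_⟩
    · have h1 : f' * f * (f' * f) = f' * (f ^ 1 * f') * f := by rw [pow_one]; simp only [mul_assoc]
      rw [h1, hfb]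
      have h2 : f' * (f' * f ^ (5 * 1)) * f = (f' * f') * (f ^ (5 * 1) * f) := by simp only [mul_assoc]
      rw [h2, hm2, ← pow_succ, ← pow_add]
      exact f8 hf
    · rw [hkn']; simp only [mul_assoc]; rw [hkn']
    · intro h
      apply hf'n
      exact (Subgroup.mul_mem_cancel_right _ (Subgroup.mem_zpowers f)).1 h
    · have h1 : g * x7 * f * (g * x7)⁻¹ = f' ^ 7 := by
        have : g * x7 * f * (g * x7)⁻¹ = g * (x7 * f * x7⁻¹) * g⁻¹ := by simp [mul_assoc]
        rw [this, h7, hf', conj_pow]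
      rw [h1]
      have h3 : f' ^ 7 = (f' * f') * (f' * f') * (f' * f') * f' := by
        rw [show 7 = 2 + 2 + 2 + 1 from rfl, pow_add, pow_add, pow_add, pow_one, pow_two]
      rw [h3, hm2, ← pow_add, ← pow_add, hkn', ← mul_assoc, ← pow_succ']
  · -- `b = f' f ^ 3`
    refine ⟨f' * f ^ 3, g, ?_, ?_, ?_, ?_⟩
    · have h1 : f' * f ^ 3 * (f' * f ^ 3) = f' * (f ^ 3 * f') * f ^ 3 := by simp only [mul_assoc]
      rw [h1, hfb]
      have h2 : f' * (f' * f ^ (5 * 3)) * f ^ 3 = (f' * f') * (f ^ (5 * 3) * f ^ 3) := by simp only [mul_assoc]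
      rw [h2, hm2, ← pow_add, ← pow_add, fred hf]
      norm_num
    · calc f' * f ^ 3 * f = (f' * f) * f ^ 3 := by
            rw [mul_assoc, mul_assoc, ← pow_succ, ← pow_succ']
        _ = f ^ 5 * (f' * f ^ 3) := by rw [hkn', mul_assoc]
    · intro h
      apply hf'n
      exact (Subgroup.mul_mem_cancel_right _ (Subgroup.npow_mem_zpowers f 3)).1 h
    · rw [← hf', hpow, ← mul_assoc, ← pow_succ', fred hf]
      norm_num

/-- an element normalising `⟨f⟩` and `⟨f⟩b` maps `b` to `b` or `f ^ 4 * b` -/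
theorem conj_b {f b n : H} (hf : orderOf f = 8) (hself : ∀ x, x * f = f * x → x ∈ Subgroup.zpowers f)
    (hbb : b * b = 1) (hbf : b * f = f ^ 5 * b) {k : ℕ} (hn : n * f * n⁻¹ = f ^ k) :
    n * b * n⁻¹ = b ∨ n * b * n⁻¹ = f ^ 4 * b := by
  have hbpow : ∀ j : ℕ, b * f ^ j = f ^ (5 * j) * b := by
    intro j
    induction j with
    | zero => simp
    | succ j ih => rw [pow_succ, ← mul_assoc, ih, mul_assoc, hbf, ← mul_assoc, ← pow_add]; congr 2
  obtain ⟨b1, hb1⟩ : ∃ b1, b1 = n * b * n⁻¹ := ⟨_, rfl⟩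
  rw [← hb1]
  have hb11 : b1 * b1 = 1 := by
    have : n * b * n⁻¹ * (n * b * n⁻¹) = n * (b * b) * n⁻¹ := by simp [mul_assoc]
    rw [hb1, this, hbb]; simp
  -- the action of `b1` on `f ^ k`
  have h1 : b1 * f ^ k = f ^ (5 * k) * b1 := by
    have e : n * f * n⁻¹ = f ^ k := hn
    calc b1 * f ^ k = n * b * n⁻¹ * (n * f * n⁻¹) := by rw [hb1, hn]
      _ = n * (b * f) * n⁻¹ := by simp [mul_assoc]
      _ = n * (f ^ 5 * b) * n⁻¹ := by rw [hbf]
      _ = (n * f ^ 5 * n⁻¹) * (n * b * n⁻¹) := by simp [mul_assoc]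
      _ = f ^ (5 * k) * b1 := by rw [← conj_pow, hn, ← pow_mul, mul_comm k 5, hb1]
  -- `k` is odd
  have hko : k % 2 = 1 := by
    by_contra hne
    have h2 : (n * f * n⁻¹) ^ 4 = 1 := by
      rw [hn, ← pow_mul]
      have : k * 4 = 8 * (k / 2) := by omega
      rw [this, pow_mul, f8 hf, one_pow]
    rw [conj_pow] at h2
    have h4 : f ^ 4 = 1 := by
      have := congrArg (fun z => n⁻¹ * z * n) h2
      simpa [mul_assoc] using this
    have h6 : f ^ 4 = f ^ 0 := by rw [h4, pow_zero]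
    have := pow_inj hf h6
    omega
  -- so `b1` acts on `f` as `b`
  have h2 : ∀ j : ℕ, b1 * f ^ (k * j) = f ^ (5 * (k * j)) * b1 := by
    intro j
    induction j with
    | zero => simp
    | succ j ih =>
      rw [mul_add, mul_one, pow_add, ← mul_assoc, ih, mul_assoc, h1, ← mul_assoc, ← pow_add]
      congr 2
      ring
  have h3 : b1 * f = f ^ 5 * b1 := by
    have h4 := h2 k
    rw [fred hf (k * k), fred hf (5 * (k * k))] at h4
    have h5 : k * k % 8 = 1 := by
      have : k % 8 = 1 ∨ k % 8 = 3 ∨ k % 8 = 5 ∨ k % 8 = 7 := by omega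
      rcases this with h | h | h | h <;> rw [Nat.mul_mod, h]
    have h6 : 5 * (k * k) % 8 = 5 := by omega
    rw [h5, h6, pow_one] at h4
    exact h4
  -- `b1 b` centralises `f`
  have h4 : b1 * b * f = f * (b1 * b) := by
    have h5 : ∀ j : ℕ, b1 * f ^ j = f ^ (5 * j) * b1 := by
      intro j
      induction j with
      | zero => simp
      | succ j ih => rw [pow_succ, ← mul_assoc, ih, mul_assoc, h3, ← mul_assoc, ← pow_add]; congr 2
    rw [mul_assoc, hbf, ← mul_assoc, h5, fred hf]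
    norm_num
    rw [mul_assoc]
  obtain ⟨r, hr, hr2⟩ := exists_pow hf (hself _ h4)
  have h5 : b1 = f ^ r * b := by rw [← hr2, mul_assoc, hbb, mul_one]
  have h6 : f ^ (r * 6) = f ^ 0 := by
    rw [h5] at hb11
    have : f ^ r * b * (f ^ r * b) = f ^ r * (b * f ^ r) * b := by simp only [mul_assoc]
    rw [this, hbpow] at hb11
    have : f ^ r * (f ^ (5 * r) * b) * b = f ^ r * f ^ (5 * r) * (b * b) := by simp only [mul_assoc]
    rw [this, hbb, mul_one, ← pow_add] at hb11
    rw [pow_zero, ← hb11]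
    congr 1
    ring
  have h7 := pow_inj hf h6
  have h8 : r = 0 ∨ r = 4 := by omega
  rcases h8 with rfl | rfl
  · left; rw [h5, pow_zero, one_mul]
  · right; exact h5


/-- two involutions acting as `f ↦ f ^ 5` -/
theorem two_b {f b b1 : H} (hf : orderOf f = 8) (hself : ∀ x, x * f = f * x → x ∈ Subgroup.zpowers f)
    (hbb : b * b = 1) (hbf : b * f = f ^ 5 * b) (hb11 : b1 * b1 = 1) (h3 : b1 * f = f ^ 5 * b1) :
    b1 = b ∨ b1 = f ^ 4 * b := by
  have hbpow : ∀ j : ℕ, b * f ^ j = f ^ (5 * j) * b := by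
    intro j
    induction j with
    | zero => simp
    | succ j ih => rw [pow_succ, ← mul_assoc, ih, mul_assoc, hbf, ← mul_assoc, ← pow_add]; congr 2
  have h4 : b1 * b * f = f * (b1 * b) := by
    have h5 : ∀ j : ℕ, b1 * f ^ j = f ^ (5 * j) * b1 := by
      intro j
      induction j with
      | zero => simp
      | succ j ih => rw [pow_succ, ← mul_assoc, ih, mul_assoc, h3, ← mul_assoc, ← pow_add]; congr 2
    rw [mul_assoc, hbf, ← mul_assoc, h5, fred hf]
    norm_num
    rw [mul_assoc]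
  obtain ⟨r, hr, hr2⟩ := exists_pow hf (hself _ h4)
  have h5 : b1 = f ^ r * b := by rw [← hr2, mul_assoc, hbb, mul_one]
  have h6 : f ^ (r * 6) = f ^ 0 := by
    rw [h5] at hb11
    have : f ^ r * b * (f ^ r * b) = f ^ r * (b * f ^ r) * b := by simp only [mul_assoc]
    rw [this, hbpow] at hb11
    have : f ^ r * (f ^ (5 * r) * b) * b = f ^ r * f ^ (5 * r) * (b * b) := by simp only [mul_assoc]
    rw [this, hbb, mul_one, ← pow_add] at hb11
    rw [pow_zero, ← hb11]
    congr 1
    ring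
  have h7 := pow_inj hf h6
  have h8 : r = 0 ∨ r = 4 := by omega
  rcases h8 with rfl | rfl
  · left; rw [h5, pow_zero, one_mul]
  · right; exact h5

theorem exists_rel [Finite H] (hH : Nat.card H = 64) {f : H} (hf : orderOf f = 8)
    (hself : ∀ x, x * f = f * x → x ∈ Subgroup.zpowers f)
    (hodd : ∀ k ∈ ({3, 5, 7} : Set ℕ), ∃ x, x * f * x⁻¹ = f ^ k) :
    ∃ (b x y : H) (s t i : ℕ), s < 2 ∧ t < 2 ∧ i < 2 ∧ Rel f b x y s t i ∧ b ∉ Subgroup.zpowers f := by
  obtain ⟨b, g, hbb, hbf, hbn, hg⟩ := exists_b hH hf hself hodd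
  have hbpow : ∀ j : ℕ, b * f ^ j = f ^ (5 * j) * b := by
    intro j
    induction j with
    | zero => simp
    | succ j ih => rw [pow_succ, ← mul_assoc, ih, mul_assoc, hbf, ← mul_assoc, ← pow_add]; congr 2
  have hfb4 : f * b * f⁻¹ = f ^ 4 * b := by
    rw [mul_inv_eq_iff_eq_mul, mul_assoc, hbf, ← mul_assoc, ← pow_add, fred hf (4 + 5)]
    norm_num
  -- `x`
  obtain ⟨x, hx, hxb⟩ : ∃ x, x * f = f ^ 7 * x ∧ x * b = b * x := by
    obtain ⟨x7, h7⟩ := hodd 7 (by simp)
    rcases conj_b hf hself hbb hbf h7 with h | h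
    · exact ⟨x7, by rw [← h7]; simp, mul_inv_eq_iff_eq_mul.1 h⟩
    · refine ⟨x7 * f, ?_, ?_⟩
      · have : x7 * f = f ^ 7 * x7 := by rw [← h7]; simp
        calc x7 * f * f = f ^ 7 * x7 * f := by rw [this]
          _ = _ := by rw [mul_assoc]
      · have e : x7 * f * b * (x7 * f)⁻¹ = b := by
          calc x7 * f * b * (x7 * f)⁻¹ = x7 * (f * b * f⁻¹) * x7⁻¹ := by simp [mul_assoc]
            _ = (x7 * f * x7⁻¹) ^ 4 * (x7 * b * x7⁻¹) := by rw [hfb4, conj_pow]; simp [mul_assoc]
            _ = f ^ (7 * 4) * (f ^ 4 * b) := by rw [h7, h, ← pow_mul]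
            _ = b := by
                rw [← mul_assoc, ← pow_add, fred hf]
                norm_num
        exact mul_inv_eq_iff_eq_mul.1 e
  have hxpow : ∀ j : ℕ, x * f ^ j = f ^ (7 * j) * x := by
    intro j
    induction j with
    | zero => simp
    | succ j ih => rw [pow_succ, ← mul_assoc, ih, mul_assoc, hx, ← mul_assoc, ← pow_add]; congr 2
  -- powers of `f b`
  have hfb2 : f * b * (f * b) = f ^ 6 := by
    calc f * b * (f * b) = f * (b * f) * b := by simp only [mul_assoc]
      _ = f * f ^ 5 * (b * b) := by rw [hbf]; simp only [mul_assoc]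
      _ = _ := by rw [hbb, mul_one, ← pow_succ']
  have hfb4' : (f * b) ^ 4 = f ^ 4 := by
    rw [show 4 = 2 * 2 from rfl, pow_mul, pow_two (f * b), hfb2, ← pow_mul, fred hf]
  have hfb5 : (f * b) ^ 5 = f ^ 5 * b := by
    rw [show 5 = 4 + 1 from rfl, pow_succ, hfb4', ← mul_assoc, ← pow_succ]
  have hbfb : b * (f * b) = (f * b) ^ 5 * b := by
    rw [hfb5, ← mul_assoc, hbf]
  -- `y`
  obtain ⟨y0, hy0, hy0b⟩ : ∃ y, y * f = f * b * y ∧ y * b = b * y := by
    have hord : orderOf (f * b) = 8 := by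
      rw [← hg, ← hf]
      exact orderOf_injective (MulAut.conj g).toMonoidHom (MulAut.conj g).injective f
    have hself' : ∀ z, z * (f * b) = f * b * z → z ∈ Subgroup.zpowers (f * b) := by
      intro z hz
      have h1 : g⁻¹ * z * g * f = f * (g⁻¹ * z * g) := by
        rw [← hg] at hz
        have := congrArg (fun w => g⁻¹ * w * g) hz
        simpa [mul_assoc] using this
      obtain ⟨r, hr⟩ := Subgroup.mem_zpowers_iff.1 (hself _ h1)
      rw [Subgroup.mem_zpowers_iff]
      refine ⟨r, ?_⟩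
      rw [← hg, conj_zpow, hr]
      simp [mul_assoc]
    have hgb : g * b * g⁻¹ = b ∨ g * b * g⁻¹ = (f * b) ^ 4 * b := by
      apply two_b hord hself' hbb hbfb
      · have : g * b * g⁻¹ * (g * b * g⁻¹) = g * (b * b) * g⁻¹ := by simp [mul_assoc]
        rw [this, hbb]; simp
      · calc g * b * g⁻¹ * (f * b) = g * b * g⁻¹ * (g * f * g⁻¹) := by rw [hg]
          _ = g * (b * f) * g⁻¹ := by simp [mul_assoc]
          _ = (g * f * g⁻¹) ^ 5 * (g * b * g⁻¹) := by rw [hbf, conj_pow]; simp [mul_assoc]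
          _ = _ := by rw [hg]
    rcases hgb with h | h
    · exact ⟨g, by rw [← hg]; simp, mul_inv_eq_iff_eq_mul.1 h⟩
    · refine ⟨g * f, ?_, ?_⟩
      · have : g * f = f * b * g := by rw [← hg]; simp
        calc g * f * f = f * b * g * f := by rw [this]
          _ = _ := by simp only [mul_assoc]
      · have e : g * f * b * (g * f)⁻¹ = b := by
          calc g * f * b * (g * f)⁻¹ = g * (f * b * f⁻¹) * g⁻¹ := by simp [mul_assoc]
            _ = (g * f * g⁻¹) ^ 4 * (g * b * g⁻¹) := by rw [hfb4, conj_pow]; simp [mul_assoc]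
            _ = (f * b) ^ 4 * ((f * b) ^ 4 * b) := by rw [hg, h]
            _ = b := by
                rw [hfb4', ← mul_assoc, ← pow_add, fred hf]
                norm_num
        exact mul_inv_eq_iff_eq_mul.1 e
  -- squares
  have hcent : ∀ z, z * f = f * z → z * b = b * z → ∃ r < 4, z = f ^ (2 * r) := by
    intro z h1 h2
    obtain ⟨r, hr, rfl⟩ := exists_pow hf (hself _ h1)
    have h3 : f ^ r * b = f ^ (5 * r) * b := by rw [h2, hbpow]
    have h4 := pow_inj hf (mul_right_cancel h3)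
    refine ⟨r / 2, by omega, ?_⟩
    congr 1
    omega
  obtain ⟨s, hs, hxx⟩ : ∃ s < 2, x * x = f ^ (4 * s) := by
    obtain ⟨r, hr, hr2⟩ := hcent (x * x) (by
      rw [mul_assoc, hx, ← mul_assoc, hxpow, fred hf (7 * 7), mul_assoc]
      norm_num) (by rw [mul_assoc, hxb, ← mul_assoc, hxb, mul_assoc])
    have h1 : x * f ^ (2 * r) = f ^ (2 * r) * x := by rw [← hr2, mul_assoc]
    rw [hxpow] at h1
    have h2 := pow_inj hf (mul_right_cancel h1)
    refine ⟨r / 2, by omega, ?_⟩
    rw [hr2]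
    congr 1
    omega
  have hyf2 : ∀ y : H, y * f = f * b * y → ∀ n : ℕ, y * f ^ (2 * n) = f ^ (6 * n) * y := by
    intro y hy n
    induction n with
    | zero => simp
    | succ n ih =>
      have e : y * (f * f) = f ^ 6 * y := by
        calc y * (f * f) = (y * f) * f := by rw [mul_assoc]
          _ = f * b * y * f := by rw [hy]
          _ = f * b * (y * f) := by simp only [mul_assoc]
          _ = f * b * (f * b * y) := by rw [hy]
          _ = f * b * (f * b) * y := by simp only [mul_assoc]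
          _ = _ := by rw [hfb2]
      calc y * f ^ (2 * (n + 1)) = (y * f ^ (2 * n)) * (f * f) := by
            rw [mul_add, pow_add, ← mul_assoc, mul_one, pow_two]
        _ = f ^ (6 * n) * (y * (f * f)) := by rw [ih]; simp only [mul_assoc]
        _ = f ^ (6 * (n + 1)) * y := by rw [e, mul_add, pow_add, mul_one]; simp only [mul_assoc]
  obtain ⟨t, ht, hyy⟩ : ∃ t < 2, y0 * y0 = f ^ (4 * t) := by
    obtain ⟨r, hr, hr2⟩ := hcent (y0 * y0) (by
      calc y0 * y0 * f = y0 * (y0 * f) := by rw [mul_assoc]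
        _ = y0 * (f * b * y0) := by rw [hy0]
        _ = (y0 * f) * (b * y0) := by simp only [mul_assoc]
        _ = f * b * y0 * (b * y0) := by rw [hy0]
        _ = f * b * (y0 * b) * y0 := by simp only [mul_assoc]
        _ = f * (b * b) * (y0 * y0) := by rw [hy0b]; simp only [mul_assoc]
        _ = _ := by rw [hbb, mul_one]) (by rw [mul_assoc, hy0b, ← mul_assoc, hy0b, mul_assoc])
    have h1 : y0 * f ^ (2 * r) = f ^ (2 * r) * y0 := by rw [← hr2, mul_assoc]
    rw [hyf2 y0 hy0] at h1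
    have h2 := pow_inj hf (mul_right_cancel h1)
    refine ⟨r / 2, by omega, ?_⟩
    rw [hr2]
    congr 1
    omega
  -- `y x`
  obtain ⟨r, hr, hyx⟩ : ∃ r < 4, y0 * x = f ^ (2 * r) * b * x * y0 := by
    obtain ⟨p, hp⟩ : ∃ p, p = y0 * x := ⟨_, rfl⟩
    obtain ⟨q, hq⟩ : ∃ q, q = b * x * y0 := ⟨_, rfl⟩
    have hpf : p * f = f ^ 3 * b * p := by
      have h1 : y0 * f ^ 7 = f ^ 3 * b * y0 := by
        have h2 : f ^ 7 = f ^ (2 * 3) * f := by rw [← pow_succ]
        rw [h2, ← mul_assoc, hyf2 y0 hy0 3, mul_assoc, hy0, ← mul_assoc, ← mul_assoc, ← pow_succ, fred hf]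
      rw [hp, mul_assoc, hx, ← mul_assoc, h1]
      simp only [mul_assoc]
    have hqf : q * f = f ^ 3 * b * q := by
      calc q * f = b * x * (y0 * f) := by rw [hq, mul_assoc]
        _ = b * (x * f) * b * y0 := by rw [hy0]; simp only [mul_assoc]
        _ = (b * f ^ 7) * (x * b) * y0 := by rw [hx]; simp only [mul_assoc]
        _ = f ^ 3 * b * (b * x) * y0 := by rw [hbpow, hxb, fred hf (5 * 7)]
        _ = _ := by rw [hq]; simp only [mul_assoc]
    have hpb : p * b = b * p := by rw [hp, mul_assoc, hxb, ← mul_assoc, hy0b, mul_assoc]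
    have hqb : q * b = b * q := by
      rw [hq, mul_assoc, hy0b, mul_assoc, ← mul_assoc x, hxb]
    have hcomm : ∀ w u : H, p * u = w * p → q * u = w * q → p * q⁻¹ * w = w * (p * q⁻¹) := by
      intro w u h1 h2
      have h3 : q⁻¹ * w = u * q⁻¹ := by
        rw [inv_mul_eq_iff_eq_mul, ← mul_assoc, eq_mul_inv_iff_mul_eq, h2]
      rw [mul_assoc, h3, ← mul_assoc, h1, mul_assoc]
    have c1 := hcomm _ _ hpf hqf
    have c2 := hcomm _ _ hpb hqb
    obtain ⟨r, hr, hr2⟩ := hcent (p * q⁻¹) (by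
      have c3 : Commute (p * q⁻¹) (f ^ 3 * b) := c1
      have c4 : Commute (p * q⁻¹) b := c2
      have c5 : Commute (p * q⁻¹) ((f ^ 3 * b * b) ^ 3) := (c3.mul_right c4).pow_right 3
      rw [mul_assoc, hbb, mul_one, ← pow_mul, fred hf] at c5
      norm_num at c5
      exact c5) c2
    refine ⟨r, hr, ?_⟩
    have h1 : p = f ^ (2 * r) * q := by rw [← hr2]; simp
    rw [← hp, h1, hq]
    simp only [mul_assoc]
  by_cases hr2 : r < 2
  · exact ⟨b, x, y0, s, t, r, hs, ht, hr2, ⟨f8 hf, hbb, hbf, hx, hxb, hy0, hy0b, hxx, hyy, hyx⟩, hbn⟩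
  · -- replace `y` by `y f²`
    have hbf2 : b * f ^ 2 = f ^ 2 * b := by rw [hbpow, fred hf (5 * 2)]
    have hyf : y0 * f ^ 2 = f ^ 6 * y0 := hyf2 y0 hy0 1
    refine ⟨b, x, y0 * f ^ 2, s, t, r - 2, hs, ht, by omega,
      ⟨f8 hf, hbb, hbf, hx, hxb, ?_, ?_, hxx, ?_, ?_⟩, hbn⟩
    · calc y0 * f ^ 2 * f = (y0 * f) * f ^ 2 := by
            rw [mul_assoc, mul_assoc, ← pow_succ, ← pow_succ']
        _ = _ := by rw [hy0]; simp only [mul_assoc]
    · rw [mul_assoc, ← hbf2, ← mul_assoc, hy0b, mul_assoc]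
    · calc y0 * f ^ 2 * (y0 * f ^ 2) = y0 * (f ^ 2 * (f ^ 6 * y0)) := by rw [← hyf]; simp only [mul_assoc]
        _ = y0 * (f ^ (2 + 6) * y0) := by rw [pow_add]; simp only [mul_assoc]
        _ = _ := by
          rw [fred hf]
          norm_num
          exact hyy
    · have h1 : f ^ 2 * x = x * f ^ 6 := by rw [hxpow, fred hf (7 * 6)]
      calc y0 * f ^ 2 * x = y0 * x * f ^ 6 := by rw [mul_assoc, h1, mul_assoc]
        _ = f ^ (2 * r) * b * x * (y0 * f ^ 2 * f ^ 4) := by
            rw [hyx, mul_assoc _ (f ^ 2), ← pow_add]; simp only [mul_assoc]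
        _ = f ^ (2 * r) * b * x * (f ^ 4 * (y0 * f ^ 2)) := by
            rw [hyf, mul_assoc (f ^ 6), show f ^ 4 = f ^ (2 * 2) from rfl, hyf2 y0 hy0 2, ← mul_assoc (f ^ 6),
              ← mul_assoc (f ^ (2 * 2)), ← pow_add, ← pow_add, fred hf (6 + 6 * 2), fred hf (2 * 2 + 6)]
        _ = f ^ (2 * (r - 2)) * b * x * (y0 * f ^ 2) := by
            have h2 : x * f ^ 4 = f ^ 4 * x := by rw [hxpow, fred hf (7 * 4)]
            have h3 : b * f ^ 4 = f ^ 4 * b := by rw [hbpow, fred hf (5 * 4)]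
            calc f ^ (2 * r) * b * x * (f ^ 4 * (y0 * f ^ 2))
                = f ^ (2 * r) * b * (x * f ^ 4) * (y0 * f ^ 2) := by simp only [mul_assoc]
              _ = f ^ (2 * r) * (b * f ^ 4) * x * (y0 * f ^ 2) := by rw [h2]; simp only [mul_assoc]
              _ = f ^ (2 * r + 4) * b * x * (y0 * f ^ 2) := by rw [h3, pow_add]; simp only [mul_assoc]
              _ = _ := by
                rw [fred hf (2 * r + 4), fred hf (2 * (r - 2))]
                congr 4
                omega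


theorem mulN_lt (s t i p q : ℕ) : mulN s t i p q < 64 := by unfold mulN; omega

/-- every element is a normal form -/
theorem exists_nf [Finite H] (hH : Nat.card H = 64) {f b x y : H} {s t i : ℕ} (hf : orderOf f = 8)
    (hself : ∀ x, x * f = f * x → x ∈ Subgroup.zpowers f)
    (hodd : ∀ k ∈ ({3, 5, 7} : Set ℕ), ∃ x, x * f * x⁻¹ = f ^ k)
    (h : Rel f b x y s t i) (hbn : b ∉ Subgroup.zpowers f) (p : H) :
    ∃ n < 64, p = nf f b x y n := by
  have hN := card_normalizer hf hself hodd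
  set N := Subgroup.normalizer (Subgroup.zpowers f : Set H) with hNdef
  have hidx : N.index = 2 := by
    have := N.card_mul_index
    rw [hN, hH] at this
    omega
  have hyN : y ∉ N := by
    intro hy
    have h1 := (Subgroup.mem_normalizer_iff.1 hy f).1 (Subgroup.mem_zpowers f)
    rw [h.yf] at h1
    have h2 : f * b ∈ Subgroup.zpowers f := by simpa [mul_assoc] using h1
    exact hbn ((Subgroup.mul_mem_cancel_left _ (Subgroup.mem_zpowers f)).1 h2)
  -- elements of `N`
  have hNmem : ∀ n ∈ N, ∃ m, n = nf f b x y m := by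
    intro n hn
    have h1 : n * f * n⁻¹ ∈ Subgroup.zpowers f :=
      (Subgroup.mem_normalizer_iff.1 hn f).1 (Subgroup.mem_zpowers f)
    obtain ⟨k, hk, hkn⟩ := exists_pow hf h1
    have hko : k % 2 = 1 := by
      by_contra hne
      have h2 : (n * f * n⁻¹) ^ 4 = 1 := by
        rw [hkn, ← pow_mul]
        have : k * 4 = 8 * (k / 2) := by omega
        rw [this, pow_mul, f8 hf, one_pow]
      rw [conj_pow] at h2
      have h4 : f ^ 4 = 1 := by
        have := congrArg (fun z => n⁻¹ * z * n) h2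
        simpa [mul_assoc] using this
      have h6 : f ^ 4 = f ^ 0 := by rw [h4, pow_zero]
      have := pow_inj hf h6
      omega
    obtain ⟨c, d, hcd, hc2⟩ : ∃ c d : ℕ, c ≤ 1 ∧ d ≤ 1 ∧ (b ^ c * x ^ d) * f = f ^ k * (b ^ c * x ^ d) := by
      have hb7 := b_pow h 7
      have : k = 1 ∨ k = 3 ∨ k = 5 ∨ k = 7 := by omega
      rcases this with rfl | rfl | rfl | rfl
      · exact ⟨0, 0, by norm_num, by norm_num, by simp⟩
      · refine ⟨1, 1, by norm_num, by norm_num, ?_⟩
        rw [pow_one, pow_one, mul_assoc, h.xf, ← mul_assoc, hb7, fred hf (5 * 7)]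
        simp only [mul_assoc]
      · exact ⟨1, 0, by norm_num, by norm_num, by rw [pow_one, pow_zero, mul_one]; exact h.bf⟩
      · exact ⟨0, 1, by norm_num, by norm_num, by rw [pow_one, pow_zero, one_mul]; exact h.xf⟩
    obtain ⟨hd, hc2⟩ := hc2
    obtain ⟨w, hw⟩ : ∃ w, w = b ^ c * x ^ d := ⟨_, rfl⟩
    rw [← hw] at hc2
    have h2 : w⁻¹ * n * f = f * (w⁻¹ * n) := by
      have h3 : n * f = f ^ k * n := by rw [← hkn]; simp
      rw [mul_assoc, h3, ← mul_assoc, ← mul_assoc]
      congr 1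
      rw [inv_mul_eq_iff_eq_mul, ← mul_assoc, hc2]
      simp
    obtain ⟨r, hr, hr2⟩ := exists_pow hf (hself _ h2)
    have h3 : n = w * f ^ r := by rw [← hr2]; simp
    have h4 : w = nf f b x y (8 * c + 16 * d) := by
      rw [hw]
      unfold nf
      have e1 : (8 * c + 16 * d) % 8 = 0 := by omega
      have e2 : (8 * c + 16 * d) / 8 % 2 = c := by omega
      have e3 : (8 * c + 16 * d) / 16 % 2 = d := by omega
      have e4 : (8 * c + 16 * d) / 32 % 2 = 0 := by omega
      rw [e1, e2, e3, e4]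
      simp
    have h5 : f ^ r = nf f b x y r := by
      unfold nf
      have e1 : r % 8 = r := by omega
      have e2 : r / 8 % 2 = 0 := by omega
      have e3 : r / 16 % 2 = 0 := by omega
      have e4 : r / 32 % 2 = 0 := by omega
      rw [e1, e2, e3, e4]
      simp
    exact ⟨_, by rw [h3, h4, h5, nf_mul h]⟩
  have hall : ∃ m, p = nf f b x y m := by
    by_cases hp : p ∈ N
    · exact hNmem p hp
    · have h1 : y⁻¹ * p ∈ N := by
        rw [Subgroup.mul_mem_iff_of_index_two hidx]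
        exact ⟨fun h2 => absurd (N.inv_mem_iff.1 h2) hyN, fun h2 => absurd h2 hp⟩
      obtain ⟨m, hm⟩ := hNmem _ h1
      have h5 : y = nf f b x y 32 := by unfold nf; simp
      refine ⟨mulN s t i 32 m, ?_⟩
      rw [← nf_mul h, ← h5, ← hm]
      simp
  obtain ⟨m, hm⟩ := hall
  refine ⟨mulN s t i m 0, mulN_lt _ _ _ _ _, ?_⟩
  rw [← nf_mul h, ← hm]
  unfold nf
  simp

end Cfsg.Agent.H333.Ex64
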