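import Cfsg.Agent.LargeExtra.TwoCentral
import Cfsg.Agent.LargeExtra.Transfer
import Cfsg.Agent.LargeExtra.WC2
import Cfsg.Agent.Transfer.Extraspecial

/-!
# Large extraspecial 2-subgroups and subgroups of index two of `C_G(z)` (S3299, S3300)

* `large_of_pCore` : the hypotheses of S3299 and S3300 give `Large E z`;
* `index_ne_two` : `O^2(G) = G` forbids subgroups of index two;
* `le_of_index_two` : `Q` lies in every subgroup of index two of `C_G(z)`.
-/

set_option autoImplicit false

namespace Cfsg.Agent.H333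

open Cfsg.Agent.Co2Type.Quad

variable {G : Type*} [Group G]

/-- `O^2(G) = G` forbids subgroups of index two. -/
theorem index_ne_two (hres : Cfsg.pResidual 2 G = ⊤) (H : Subgroup G) : H.index ≠ 2 := by
  intro hH
  have h1 : Cfsg.pResidual 2 G ≤ H := by
    rw [Cfsg.pResidual, Subgroup.closure_le]
    intro g hg
    have hg' : Nat.Coprime (orderOf g) 2 := hg
    have h2 : g ^ 2 ∈ H := by
      have hN : H.Normal := Subgroup.normal_of_index_eq_two hH
      have := H.pow_index_mem g
      rwa [hH] at this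
    have h3 : Odd (orderOf g) := Nat.coprime_two_right.1 hg'
    obtain ⟨k, hk⟩ := h3
    have h4 : g = (g ^ 2) ^ (k + 1) := by
      rw [← pow_mul]
      have : 2 * (k + 1) = orderOf g + 1 := by omega
      rw [this, pow_succ, pow_orderOf_eq_one, one_mul]
    show g ∈ H
    rw [h4]
    exact H.pow_mem h2 _
  rw [hres] at h1
  have h2 : H = ⊤ := top_le_iff.1 h1
  rw [h2, Subgroup.index_top] at hH
  exact absurd hH (by norm_num)

/-- The bridge from the hypotheses of S3299 and S3300 to `Large`. -/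
theorem large_of_extraspecial [Finite G] {z : G} (hz : orderOf z = 2) {E : Subgroup G}
    (hle : ∀ x ∈ E, x * z = z * x) (hnorm : ∀ g, g * z = z * g → ∀ x ∈ E, g * x * g⁻¹ ∈ E)
    (hext : Cfsg.IsExtraspecial 2 ↥E) (hcent : Subgroup.centralizer (E : Set G) ≤ E) : Large E z := by
  classical
  have htt : z * z = 1 := by rw [← pow_two, ← hz]; exact pow_orderOf_eq_one z
  have ht1 : z ≠ 1 := by
    intro h; rw [h, orderOf_one] at hz; exact absurd hz (by norm_num)
  have hzE : z ∈ E := hcent (Subgroup.mem_centralizer_iff.2 fun x hx => hle x hx)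
  have hZ : ∀ x : E, x ∈ Subgroup.center E → (x : G) = 1 ∨ (x : G) = z := by
    intro x hx
    have hcard2 := hext.2
    have htz : (⟨z, hzE⟩ : E) ∈ Subgroup.center E := by
      rw [Subgroup.mem_center_iff]
      intro y
      exact Subtype.ext (hle y y.2)
    obtain ⟨a, b, hab, huniv⟩ := Nat.card_eq_two_iff.1 hcard2
    have h1 : (⟨⟨z, hzE⟩, htz⟩ : Subgroup.center E) ≠ 1 := by
      intro h
      apply ht1
      exact congrArg (fun y : Subgroup.center E => ((y : E) : G)) h
    have ha : ∀ w : Subgroup.center E, w = a ∨ w = b := by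
      intro w
      have : w ∈ ({a, b} : Set (Subgroup.center E)) := by rw [huniv]; trivial
      simpa using this
    have key : ∀ y : Subgroup.center E, y = 1 ∨ y = ⟨⟨z, hzE⟩, htz⟩ := by
      intro y
      rcases ha y with hy | hy <;> rcases ha 1 with h2 | h2 <;>
        rcases ha ⟨⟨z, hzE⟩, htz⟩ with h3 | h3
      · exact absurd (h3.trans h2.symm) h1
      · left; exact hy.trans h2.symm
      · right; exact hy.trans h3.symm
      · exact absurd (h3.trans h2.symm) h1
      · exact absurd (h3.trans h2.symm) h1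
      · right; exact hy.trans h3.symm
      · left; exact hy.trans h2.symm
      · exact absurd (h3.trans h2.symm) h1
    rcases key ⟨x, hx⟩ with h | h
    · left; exact congrArg (fun y : Subgroup.center E => ((y : E) : G)) h
    · right; exact congrArg (fun y : Subgroup.center E => ((y : E) : G)) h
  refine ⟨hzE, ht1, htt, hle, hnorm, ?_, ?_, ?_, ?_⟩
  · intro x hx
    have h1 : (⟨x, hx⟩ : E) ^ 2 ∈ Subgroup.center E :=
      Cfsg.Agent.Transfer.Extraspecial.pow_mem_center hext ⟨x, hx⟩
    rcases hZ _ h1 with h | h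
    · left; rw [← pow_two]; exact h
    · right; rw [← pow_two]; exact h
  · intro x hx y hy
    have h1 := Cfsg.Agent.Transfer.Extraspecial.comm_mem_center hext (⟨y, hy⟩ : E)⁻¹ (⟨x, hx⟩ : E)⁻¹
    rcases hZ _ h1 with h | h
    · left
      have h3 : (y : G)⁻¹ * (x : G)⁻¹ * ((y : G)⁻¹)⁻¹ * ((x : G)⁻¹)⁻¹ = 1 := h
      calc (x : G) * y = (x * y : G) * ((y : G)⁻¹ * (x : G)⁻¹ * ((y : G)⁻¹)⁻¹ * ((x : G)⁻¹)⁻¹) := by
            rw [h3, mul_one]
        _ = y * x := by group
    · right
      have h3 : (y : G)⁻¹ * (x : G)⁻¹ * ((y : G)⁻¹)⁻¹ * ((x : G)⁻¹)⁻¹ = z := h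
      calc (x : G) * y
          = (x * y : G) * ((y : G)⁻¹ * (x : G)⁻¹ * ((y : G)⁻¹)⁻¹ * ((x : G)⁻¹)⁻¹) *
            ((y : G)⁻¹ * (x : G)⁻¹ * ((y : G)⁻¹)⁻¹ * ((x : G)⁻¹)⁻¹)⁻¹ := by group
        _ = y * x * z⁻¹ := by rw [h3]; rw [← h3]; group
        _ = y * x * z := by rw [inv_eq_of_mul_eq_one_left htt]
  · intro x hx hc
    have h1 : (⟨x, hx⟩ : E) ∈ Subgroup.center E := by
      rw [Subgroup.mem_center_iff]
      intro y
      apply Subtype.ext
      exact (hc _ y.2).symm
    exact hZ _ h1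
  · intro g _ hc
    exact hcent (Subgroup.mem_centralizer_iff.2 fun x hx => (hc x hx).symm)

theorem large_of_pCore [Finite G] (z : G) (hz : orderOf z = 2) (E : Subgroup G)
    (hE : E = (Cfsg.pCore 2 ↥(Subgroup.centralizer ({z} : Set G))).map (Subgroup.centralizer ({z} : Set G)).subtype)
    (hext : Cfsg.IsExtraspecial 2 ↥E) (hcent : Subgroup.centralizer (E : Set G) ≤ E) : Large E z := by
  refine large_of_extraspecial hz ?_ ?_ hext hcent
  · intro x hx
    rw [hE] at hx
    obtain ⟨y, -, rfl⟩ := hx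
    exact Subgroup.mem_centralizer_singleton_iff.1 y.2
  · intro g hg x hx
    rw [hE] at hx ⊢
    obtain ⟨y, hy, rfl⟩ := hx
    have hn : (Cfsg.pCore 2 ↥(Subgroup.centralizer ({z} : Set G))).Normal :=
      Subgroup.sSup_normal _ fun N hN => hN.1
    exact ⟨_, hn.conj_mem y hy ⟨g, Subgroup.mem_centralizer_singleton_iff.2 hg⟩, rfl⟩

end Cfsg.Agent.H333
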