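import Cfsg.Agent.H333.LargeA

/-!
# `Q ≤ K` for every subgroup `K` of index two of `C_G(z)` (S3299)
-/

set_option autoImplicit false

namespace Cfsg.Agent.H333

open Cfsg.Agent.Co2Type.Quad Cfsg.Agent.LargeExtra

/-- the square of the order of an isotropic subspace is at most the order of the space -/
theorem sq_card_isotropic {V : Type*} [AddCommGroup V] [Module (ZMod 2) V] (S : WC.QS V) [Finite V]
    (U : Submodule (ZMod 2) V) (hU : ∀ u ∈ U, ∀ v ∈ U, S.b u v = 0) :
    Nat.card U * Nat.card U ≤ Nat.card V := by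
  have h1 := S.card_perp U
  have h2 : U ≤ S.perp U := fun v hv => S.mem_perp.2 fun u hu => hU u hu v hv
  have h3 : Nat.card U ≤ Nat.card (S.perp U) := Nat.card_le_card_of_injective
    (Submodule.inclusion h2) (Submodule.inclusion_injective h2)
  rw [← h1]
  exact Nat.mul_le_mul le_rfl h3

variable {G : Type*} [Group G] {Q : Subgroup G} {z : G}

/-- membership in a subgroup of index two -/
theorem mul_mem_iff {C K : Subgroup G} (h2 : K.relIndex C = 2) {a b : G} (ha : a ∈ C) (hb : b ∈ C) :
    a * b ∈ K ↔ (a ∈ K ↔ b ∈ K) := by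
  have h3 : ((⟨a, ha⟩ * ⟨b, hb⟩ : C) ∈ K.subgroupOf C ↔
      ((⟨a, ha⟩ : C) ∈ K.subgroupOf C ↔ (⟨b, hb⟩ : C) ∈ K.subgroupOf C)) :=
    Subgroup.mul_mem_iff_of_index_two h2
  exact h3

/-- commutators of `C` lie in `K` -/
theorem comm_mem_of_index_two {C K : Subgroup G} (h2 : K.relIndex C = 2) {a b : G} (ha : a ∈ C) (hb : b ∈ C) :
    a * b * a⁻¹ * b⁻¹ ∈ K := by
  have ha' := inv_mem ha
  have hb' := inv_mem hb
  rw [mul_mem_iff h2 (mul_mem (mul_mem ha hb) ha') hb', mul_mem_iff h2 (mul_mem ha hb) ha',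
    mul_mem_iff h2 ha hb, inv_mem_iff, inv_mem_iff]
  tauto

/-- squares of `C` lie in `K` -/
theorem sq_mem_of_index_two {C K : Subgroup G} (h2 : K.relIndex C = 2) {a : G} (ha : a ∈ C) : a * a ∈ K := by
  rw [mul_mem_iff h2 ha ha]

theorem mem_cent (h : Large Q z) {x : G} (hx : x ∈ Q) : x ∈ Subgroup.centralizer ({z} : Set G) :=
  Subgroup.mem_centralizer_singleton_iff.2 (h.comm_z x hx)

/-- For `e ∈ Q` with `|Q| ≥ 32`: two elements of `C_Q(e)` with commutator `z`. -/
theorem exists_comm_cent (h : Large Q z) (h32 : 32 ≤ Nat.card Q) {e : G} (he : e ∈ Q) :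
    ∃ a ∈ Q, ∃ b ∈ Q, a * e = e * a ∧ b * e = e * b ∧ a * b = b * a * z := by
  classical
  have hfin : Finite Q := Nat.finite_of_card_ne_zero (by omega)
  by_contra hcon
  push Not at hcon
  set U : Submodule (ZMod 2) h.V := Submodule.span (ZMod 2) {h.pr ⟨e, he⟩} with hU
  have hmem : ∀ {x : G} (hx : x ∈ Q), h.pr ⟨x, hx⟩ ∈ (WC.qs h).perp U → x * e = e * x := by
    intro x hx hxU
    have h1 := (WC.qs h).mem_perp.1 hxU (h.pr ⟨e, he⟩) (Submodule.mem_span_singleton_self _)
    exact ((h.b_pr _ _).1 h1).symm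
  -- `e^⊥` is totally isotropic
  have h1 := sq_card_isotropic (WC.qs h) ((WC.qs h).perp U) (by
    intro u hu v hv
    obtain ⟨x, rfl⟩ := h.pr_surjective u
    obtain ⟨y, rfl⟩ := h.pr_surjective v
    have h2 := hcon x x.2 y y.2 (hmem x.2 hu) (hmem y.2 hv)
    exact (h.b_pr _ _).2 ((h.comm x x.2 y y.2).resolve_right h2))
  have h2 := (WC.qs h).card_perp U
  have h3 : Nat.card U ≤ 2 := by
    have h4 : (U : Set h.V) ⊆ (({0, h.pr ⟨e, he⟩} : Finset h.V) : Set h.V) := by
      intro v hv
      obtain ⟨c, rfl⟩ := Submodule.mem_span_singleton.1 hv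
      rcases TwoCentral.zmod_two c with rfl | rfl
      · rw [zero_smul]; simp
      · rw [one_smul]; simp
    calc Nat.card U = Set.ncard (U : Set h.V) := rfl
      _ ≤ Set.ncard (({0, h.pr ⟨e, he⟩} : Finset h.V) : Set h.V) := Set.ncard_le_ncard h4 (Finset.finite_toSet _)
      _ = Finset.card _ := Set.ncard_coe_finset _
      _ ≤ 2 := Finset.card_le_two
  have h4 := h.card_eq
  have h5 : 16 ≤ Nat.card h.V := by omega
  set p := Nat.card ((WC.qs h).perp U)
  set V := Nat.card h.V
  have h6 : V ≤ 2 * p := by rw [← h2]; exact Nat.mul_le_mul h3 le_rfl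
  nlinarith

/-- `z ∈ K` for `K` of index two in `C_G(z)` -/
theorem z_mem_of_index_two (h : Large Q z) (h32 : 32 ≤ Nat.card Q) {K : Subgroup G}
    (h2 : K.relIndex (Subgroup.centralizer ({z} : Set G)) = 2) : z ∈ K := by
  obtain ⟨a, ha, b, hb, -, -, hab⟩ := exists_comm_cent h h32 h.z_mem
  have h1 := comm_mem_of_index_two h2 (mem_cent h ha) (mem_cent h hb)
  have e : a * b * a⁻¹ * b⁻¹ = z := by
    rw [hab, mul_assoc (b * a), (h.commz ha).inv_left.eq.symm, mul_assoc (b * a), mul_assoc a⁻¹,
      (h.commz hb).inv_left.eq.symm]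
    group
  rwa [e] at h1

/-- **`Q` lies in every subgroup of index two of `C_G(z)`.** -/
theorem le_of_index_two [Finite G] (hG : ∀ H : Subgroup G, H.index ≠ 2) (h : Large Q z)
    (h32 : 32 ≤ Nat.card Q) {K : Subgroup G} (hle : K ≤ Subgroup.centralizer ({z} : Set G))
    (h2 : K.relIndex (Subgroup.centralizer ({z} : Set G)) = 2) : Q ≤ K := by
  classical
  by_contra hnot
  obtain ⟨x, hx, hxK⟩ := SetLike.not_le_iff_exists.1 hnot
  have hzK := z_mem_of_index_two h h32 h2
  have hm : ∀ {a b : G}, a ∈ Q → b ∈ Q → (a * b ∈ K ↔ (a ∈ K ↔ b ∈ K)) := fun ha hb =>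
    mul_mem_iff h2 (mem_cent h ha) (mem_cent h hb)
  -- an involution in `Q ∖ K`
  obtain ⟨e, he, heK, hee⟩ : ∃ e ∈ Q, e ∉ K ∧ e * e = 1 := by
    by_contra hcon
    push Not at hcon
    have hsq : ∀ y ∈ Q, y ∉ K → y * y = z := fun y hy hyK => (h.sq y hy).resolve_left (hcon y hy hyK)
    obtain ⟨a, ha, b, hb, hax, hbx, hab⟩ := exists_comm_cent h h32 hx
    have hxx := hsq x hx hxK
    -- elements of `K ∩ C_Q(x)` are involutions
    have hK : ∀ y ∈ Q, y * x = x * y → y ∈ K → y * y = 1 := by
      intro y hy hyx hyK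
      have h3 : x * y ∉ K := by rw [hm hx hy]; tauto
      have h4 := hsq _ (mul_mem hx hy) h3
      have e1 : x * y * (x * y) = (x * x) * (y * y) := by
        calc x * y * (x * y) = x * (y * x) * y := by group
          _ = _ := by rw [hyx]; group
      rw [e1, hxx] at h4
      exact mul_eq_left.1 h4
    have hab2 : (a * b) * (a * b) = (a * a) * (b * b) * z := by
      have e1 : b * a = a * b * z := by
        rw [hab, mul_assoc, h.z_sq, mul_one]
      calc (a * b) * (a * b) = a * (b * a) * b := by group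
        _ = a * (a * b * z) * b := by rw [e1]
        _ = (a * a) * (b * (z * b)) := by group
        _ = (a * a) * (b * (b * z)) := by rw [(h.commz hb).eq]
        _ = _ := by group
    have habx : (a * b) * x = x * (a * b) := by rw [mul_assoc, hbx, ← mul_assoc, hax, mul_assoc]
    have hz1 := h.z_ne
    have hzz := h.z_sq
    by_cases haK : a ∈ K <;> by_cases hbK : b ∈ K
    · have h3 : a * b ∈ K := (hm ha hb).2 (by tauto)
      have h4 := hK _ (mul_mem ha hb) habx h3
      rw [hab2, hK a ha hax haK, hK b hb hbx hbK, one_mul, one_mul] at h4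
      exact hz1 h4
    · have h3 : a * b ∉ K := by rw [hm ha hb]; tauto
      have h4 := hsq _ (mul_mem ha hb) h3
      rw [hab2, hK a ha hax haK, hsq b hb hbK, one_mul, hzz] at h4
      exact hz1 h4.symm
    · have h3 : a * b ∉ K := by rw [hm ha hb]; tauto
      have h4 := hsq _ (mul_mem ha hb) h3
      rw [hab2, hK b hb hbx hbK, hsq a ha haK, mul_one, hzz] at h4
      exact hz1 h4.symm
    · have h3 : a * b ∈ K := (hm ha hb).2 (by tauto)
      have h4 := hK _ (mul_mem ha hb) habx h3
      rw [hab2, hsq a ha haK, hsq b hb hbK, hzz, one_mul] at h4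
      exact hz1 h4
  -- `C_Q(e)`
  have hez := h.comm_z e he
  set P : Subgroup G := Q ⊓ Subgroup.centralizer ({e} : Set G) with hP
  have hmemP : ∀ {p : G}, p ∈ P ↔ p ∈ Q ∧ p * e = e * p := by
    intro p
    rw [hP, Subgroup.mem_inf, Subgroup.mem_centralizer_singleton_iff]
  have hzP : z ∈ P := hmemP.2 ⟨h.z_mem, hez.symm⟩
  obtain ⟨g, hg1, hg2, hg3, hg4⟩ := Transfer.exists_conj hG (TwoCentral.odd_index h) hle h2 e hee hez heK P
    ((Base.isPGroup h).to_le inf_le_left) (fun p hp => (hmemP.1 hp).2)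
    (fun p hp => h.comm_z p (hmemP.1 hp).1)
  set y := g * z * g⁻¹ with hy
  have hyz : y * z = z * y := (hg2 z hzP).symm
  have hyy : y * y = 1 := by rw [hy]; calc g * z * g⁻¹ * (g * z * g⁻¹) = g * (z * z) * g⁻¹ := by group
    _ = 1 := by rw [h.z_sq]; group
  have hyne : y ≠ 1 := by
    intro h1
    apply h.z_ne
    have : z = g⁻¹ * y * g := by rw [hy]; group
    rw [this, h1]; group
  -- an element `f ∈ Q` with `[e, f] = z`
  have he1 : e ≠ 1 := by rintro rfl; exact heK (one_mem _)
  have hez1 : e ≠ z := by rintro rfl; exact heK hzK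
  obtain ⟨f, hf, hfe⟩ := Base.exists_not_comm h he he1 hez1
  -- `y ∈ {e, e z}`
  have hcase : y = e ∨ y = e * z := by
    have hc : y * f * y⁻¹ * f⁻¹ ∈ Q := mul_mem (h.conj_mem y hyz f hf) (inv_mem hf)
    have hcP : ∀ p ∈ Q, p * e = e * p → p * (y * f * y⁻¹ * f⁻¹) = (y * f * y⁻¹ * f⁻¹) * p := by
      intro p hp hpe
      have hyp := hg2 p (hmemP.2 ⟨hp, hpe⟩)
      rcases h.comm p hp f hf with h5 | h5
      · have h6 : Commute p y := hyp
        have h7 : Commute p f := h5
        exact (((h6.mul_right h7).mul_right h6.inv_right).mul_right h7.inv_right).eq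
      · have e1 : f⁻¹ * p = p * f⁻¹ * z := by
          have h8 : f * p = p * f * z := by
            rw [h5, mul_assoc, h.z_sq, mul_one]
          have h9 : f⁻¹ * (f * p) * f⁻¹ = f⁻¹ * (p * f * z) * f⁻¹ := by rw [h8]
          have e2 : f⁻¹ * (f * p) * f⁻¹ = p * f⁻¹ := by group
          have e3 : f⁻¹ * (p * f * z) * f⁻¹ = f⁻¹ * p * z := by
            calc f⁻¹ * (p * f * z) * f⁻¹ = f⁻¹ * p * (f * (z * f⁻¹)) := by group
              _ = f⁻¹ * p * (f * (f⁻¹ * z)) := by rw [(h.commz hf).inv_left.eq]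
              _ = _ := by group
          rw [e2, e3] at h9
          rw [h9, mul_assoc, h.z_sq, mul_one]
        have e4 : y⁻¹ * p = p * y⁻¹ := ((show Commute p y from hyp).inv_right).eq.symm
        calc p * (y * f * y⁻¹ * f⁻¹) = (p * y) * f * y⁻¹ * f⁻¹ := by group
          _ = y * (p * f) * y⁻¹ * f⁻¹ := by rw [hyp]; group
          _ = y * (f * p * z) * y⁻¹ * f⁻¹ := by rw [h5]
          _ = y * f * p * (z * y⁻¹) * f⁻¹ := by group
          _ = y * f * p * (y⁻¹ * z) * f⁻¹ := by rw [((show Commute y z from hyz).inv_left).eq]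
          _ = y * f * (p * y⁻¹) * (z * f⁻¹) := by group
          _ = y * f * (y⁻¹ * p) * (f⁻¹ * z) := by rw [e4, (h.commz hf).inv_left.eq]
          _ = y * f * y⁻¹ * (p * f⁻¹ * z) := by group
          _ = y * f * y⁻¹ * (f⁻¹ * p) := by rw [e1]
          _ = _ := by group
    have hc4 := TwoCentral.eq_of_cent h he hc hcP
    have hyfe : y * f * y⁻¹ = (y * f * y⁻¹ * f⁻¹) * f := by group
    have hff : y * f * y⁻¹ * (y * f * y⁻¹) = f * f := by
      have h6 : y * f * y⁻¹ * (y * f * y⁻¹) = y * (f * f) * y⁻¹ := by group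
      rw [h6]
      rcases h.sq f hf with h7 | h7
      · rw [h7]; group
      · rw [h7, hyz]; group
    -- `[y, f] ∈ {1, z}`
    have hc2 : y * f * y⁻¹ * f⁻¹ = 1 ∨ y * f * y⁻¹ * f⁻¹ = z := by
      rcases hc4 with h5 | h5 | h5 | h5
      · exact Or.inl h5
      · exact Or.inr h5
      · exfalso
        rw [hyfe, h5] at hff
        -- `(e f)² = f² z`
        have h6 : e * f * (e * f) = f * f * z := by
          calc e * f * (e * f) = e * (f * e) * f := by group
            _ = e * (e * f * z) * f := by rw [hfe]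
            _ = (e * e) * f * (z * f) := by group
            _ = (e * e) * f * (f * z) := by rw [(h.commz hf).eq]
            _ = _ := by rw [hee]; group
        rw [h6] at hff
        exact h.z_ne (mul_eq_left.1 hff)
      · exfalso
        rw [hyfe, h5] at hff
        have h6 : e * z * f * (e * z * f) = f * f * z := by
          calc e * z * f * (e * z * f) = e * (z * (f * e)) * z * f := by group
            _ = e * (z * (e * f * z)) * z * f := by rw [hfe]
            _ = e * (z * e) * f * (z * z) * f := by group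
            _ = e * (e * z) * f * f := by rw [h.z_sq, hez]; group
            _ = (e * e) * (z * (f * f)) := by group
            _ = (e * e) * ((f * f) * z) := by rw [((h.commz (mul_mem hf hf)).eq).symm]
            _ = _ := by rw [hee]; group
        rw [h6] at hff
        exact h.z_ne (mul_eq_left.1 hff)
    -- every element of `Q` is in `C_Q(e)` or in `C_Q(e) f`
    have hgen : ∀ w : G, w * f = f * w → (∀ p ∈ P, p * w = w * p) → ∀ r ∈ Q, w * r = r * w := by
      intro w hwf hwP r hr
      rcases h.comm r hr e he with h5 | h5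
      · exact (hwP r (hmemP.2 ⟨hr, h5⟩)).symm
      · have h6 : (r * f⁻¹) * e = e * (r * f⁻¹) := by
          have e1 : f⁻¹ * e = e * f⁻¹ * z := by
            have h8 : e * f = f * e * z := by rw [hfe, mul_assoc, h.z_sq, mul_one]
            have h9 : f⁻¹ * (e * f) * f⁻¹ = f⁻¹ * (f * e * z) * f⁻¹ := by rw [h8]
            have e2 : f⁻¹ * (e * f) * f⁻¹ = f⁻¹ * e := by group
            have e3 : f⁻¹ * (f * e * z) * f⁻¹ = e * (z * f⁻¹) := by group
            rw [e2, e3, ← (h.commz hf).inv_left.eq] at h9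
            rw [h9]; group
          calc (r * f⁻¹) * e = r * (f⁻¹ * e) := by group
            _ = r * (e * f⁻¹ * z) := by rw [e1]
            _ = (r * e) * (f⁻¹ * z) := by group
            _ = (e * r * z) * (z * f⁻¹) := by rw [h5, (h.commz hf).inv_left.eq]
            _ = e * r * (z * z) * f⁻¹ := by group
            _ = _ := by rw [h.z_sq]; group
        have h7 := hwP (r * f⁻¹) (hmemP.2 ⟨mul_mem hr (inv_mem hf), h6⟩)
        have e5 : r = (r * f⁻¹) * f := by group
        have h8 : Commute w (r * f⁻¹) := h7.symm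
        have h9 : Commute w f := hwf
        rw [e5]
        exact (h8.mul_right h9).eq
    rcases hc2 with h5 | h5
    · exfalso
      have h6 : y * f = f * y := by
        have : y * f * y⁻¹ = f := by rw [hyfe, h5, one_mul]
        rw [mul_inv_eq_iff_eq_mul] at this; exact this
      have h7 := hgen y h6 hg2
      rcases h.cent y (h.self y hyz h7) h7 with h8 | h8
      · exact hyne h8
      · exact hg1 h8
    · -- `y e` centralises `Q`
      have h6 : (y * e) * f = f * (y * e) := by
        have h7 : y * f = z * f * y := by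
          have : y * f * y⁻¹ = z * f := by rw [hyfe, h5]
          rw [mul_inv_eq_iff_eq_mul] at this; exact this
        have h8 : e * f = f * e * z := by rw [hfe, mul_assoc, h.z_sq, mul_one]
        calc (y * e) * f = y * (e * f) := by group
          _ = y * (f * e * z) := by rw [h8]
          _ = (y * f) * (e * z) := by group
          _ = (z * f * y) * (e * z) := by rw [h7]
          _ = (z * f) * y * (e * z) := by group
          _ = (f * z) * y * (z * e) := by rw [(h.commz hf).eq, hez]
          _ = f * (z * y) * z * e := by group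
          _ = f * (y * z) * z * e := by rw [hyz]
          _ = f * y * (z * z) * e := by group
          _ = _ := by rw [h.z_sq]; group
      have h7 := hgen (y * e) h6 (fun p hp => by
        have h8 : Commute p y := hg2 p hp
        have h9 : Commute p e := (hmemP.1 hp).2
        exact (h8.mul_right h9).eq)
      have h8 : (y * e) * z = z * (y * e) := h7 z h.z_mem
      have hei : e⁻¹ = e := inv_eq_of_mul_eq_one_left hee
      rcases h.cent _ (h.self _ h8 h7) h7 with h9 | h9
      · left
        rw [mul_eq_one_iff_eq_inv, hei] at h9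
        exact h9
      · right
        rw [← eq_mul_inv_iff_mul_eq, hei] at h9
        rw [h9, hez]
  -- conclusion
  rcases hcase with h5 | h5
  · apply hg4
    have : g⁻¹ * e * g = z := by rw [← h5, hy]; group
    rw [this]; exact hzK
  · apply hg4
    have e1 : g⁻¹ * e * g = z * (g⁻¹ * z * g) := by
      have h6 : e = y * z := by rw [h5, mul_assoc, h.z_sq, mul_one]
      rw [h6, hy]; group
    rw [e1]
    refine mul_mem hzK ?_
    obtain ⟨a, ha, b, hb, hae, hbe, hab⟩ := exists_comm_cent h h32 he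
    have hconj : ∀ p ∈ P, g⁻¹ * p * g ∈ Subgroup.centralizer ({z} : Set G) := by
      intro p hp
      rw [Subgroup.mem_centralizer_singleton_iff]
      have h6 := hg2 p hp
      calc g⁻¹ * p * g * z = g⁻¹ * (p * (g * z * g⁻¹)) * g := by group
        _ = g⁻¹ * ((g * z * g⁻¹) * p) * g := by rw [← hy, h6]
        _ = _ := by group
    have h7 := comm_mem_of_index_two h2 (hconj a (hmemP.2 ⟨ha, hae⟩)) (hconj b (hmemP.2 ⟨hb, hbe⟩))
    have e2 : g⁻¹ * a * g * (g⁻¹ * b * g) * (g⁻¹ * a * g)⁻¹ * (g⁻¹ * b * g)⁻¹ = g⁻¹ * z * g := by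
      have e3 : a * b * a⁻¹ * b⁻¹ = z := by
        rw [hab, mul_assoc (b * a), (h.commz ha).inv_left.eq.symm, mul_assoc (b * a), mul_assoc a⁻¹,
          (h.commz hb).inv_left.eq.symm]
        group
      rw [← e3]; group
    rwa [e2] at h7

end Cfsg.Agent.H333
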