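import Cfsg.Agent.LargeExtra.WG2
import Cfsg.Agent.LargeExtra.TransferPow
import Cfsg.Agent.H333.LargeB

/-!
# `z` weakly closed in `Q`, all commuting pairs are lines: `C_G(z)` has no subgroup of index two (S3300)

`K` a subgroup of index two of `C_G(z)`, `G` without subgroups of index two. For `p = z^g` let `K_p = K^g`
(`KK K z p u` says `u ∈ K_p`).  For a line pair `(p, t)`: `C_{Q p}(t) ≤ K_t` (`KK_W`), and a 2-element `u`
commuting with `p` and `t` lies in `K_p` iff it lies in `K_t` (`KK_two`). The transfer of a 2-element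
`u ∈ C_G(z) ∖ K` of minimal order is nontrivial: a contradiction (`false_of_lines`).
-/

set_option autoImplicit false

namespace Cfsg.Agent.H333

open Cfsg.Agent.Co2Type.Quad Cfsg.Agent.LargeExtra Cfsg.Agent.LargeExtra.WC Cfsg.Agent.LargeExtra.WCIrr

variable {G : Type*} [Group G] {Q : Subgroup G} {z : G} {K : Subgroup G}

/-- `u` lies in the conjugate `K_p` of `K` -/
def KK (K : Subgroup G) (z p u : G) : Prop := ∃ g, g * z * g⁻¹ = p ∧ g⁻¹ * u * g ∈ K

theorem KK_iff (hle : K ≤ Subgroup.centralizer ({z} : Set G))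
    (h2 : K.relIndex (Subgroup.centralizer ({z} : Set G)) = 2) {g u : G} :
    KK K z (g * z * g⁻¹) u ↔ g⁻¹ * u * g ∈ K := by
  constructor
  · rintro ⟨g', hg', hu⟩
    have hc : g'⁻¹ * g ∈ Subgroup.centralizer ({z} : Set G) := by
      rw [Subgroup.mem_centralizer_singleton_iff]
      calc g'⁻¹ * g * z = g'⁻¹ * (g * z * g⁻¹) * g := by group
        _ = g'⁻¹ * (g' * z * g'⁻¹) * g := by rw [hg']
        _ = _ := by group
    have h3 := (Transfer.normal_of_relIndex hle h2 (x := g'⁻¹ * u * g') hc).2 hu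
    have e : (g'⁻¹ * g)⁻¹ * (g'⁻¹ * u * g') * (g'⁻¹ * g) = g⁻¹ * u * g := by group
    rwa [e] at h3
  · intro h
    exact ⟨g, rfl, h⟩

theorem KK_conj {p u : G} (x : G) : KK K z (x * p * x⁻¹) (x * u * x⁻¹) ↔ KK K z p u := by
  constructor
  · rintro ⟨g, hg, hu⟩
    refine ⟨x⁻¹ * g, ?_, ?_⟩
    · calc x⁻¹ * g * z * (x⁻¹ * g)⁻¹ = x⁻¹ * (g * z * g⁻¹) * x := by group
        _ = p := by rw [hg]; group
    · have e : (x⁻¹ * g)⁻¹ * u * (x⁻¹ * g) = g⁻¹ * (x * u * x⁻¹) * g := by group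
      rw [e]; exact hu
  · rintro ⟨g, rfl, hu⟩
    refine ⟨x * g, by group, ?_⟩
    have e : (x * g)⁻¹ * (x * u * x⁻¹) * (x * g) = g⁻¹ * u * g := by group
    rw [e]; exact hu

theorem conj_cent {g u : G} (hu : u * (g * z * g⁻¹) = (g * z * g⁻¹) * u) :
    g⁻¹ * u * g ∈ Subgroup.centralizer ({z} : Set G) := by
  rw [Subgroup.mem_centralizer_singleton_iff]
  calc g⁻¹ * u * g * z = g⁻¹ * (u * (g * z * g⁻¹)) * g := by group
    _ = g⁻¹ * ((g * z * g⁻¹) * u) * g := by rw [hu]
    _ = _ := by group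

theorem KK_mul (hle : K ≤ Subgroup.centralizer ({z} : Set G))
    (h2 : K.relIndex (Subgroup.centralizer ({z} : Set G)) = 2) {p u v : G} (hp : p ∈ cls z)
    (hu : u * p = p * u) (hv : v * p = p * v) : KK K z p (u * v) ↔ (KK K z p u ↔ KK K z p v) := by
  obtain ⟨g, rfl⟩ := hp
  rw [KK_iff hle h2, KK_iff hle h2, KK_iff hle h2]
  have e : g⁻¹ * (u * v) * g = (g⁻¹ * u * g) * (g⁻¹ * v * g) := by group
  rw [e, mul_mem_iff h2 (conj_cent hu) (conj_cent hv)]

theorem KK_comm (hle : K ≤ Subgroup.centralizer ({z} : Set G))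
    (h2 : K.relIndex (Subgroup.centralizer ({z} : Set G)) = 2) {p u v : G} (hp : p ∈ cls z)
    (hu : u * p = p * u) (hv : v * p = p * v) : KK K z p (u * v * u⁻¹ * v⁻¹) := by
  obtain ⟨g, rfl⟩ := hp
  rw [KK_iff hle h2]
  have e : g⁻¹ * (u * v * u⁻¹ * v⁻¹) * g =
      (g⁻¹ * u * g) * (g⁻¹ * v * g) * (g⁻¹ * u * g)⁻¹ * (g⁻¹ * v * g)⁻¹ := by group
  rw [e]
  exact comm_mem_of_index_two h2 (conj_cent hu) (conj_cent hv)

theorem KK_Q (h : Large Q z) (hQK : Q ≤ K) {p x : G} (hp : p ∈ cls z) (hx : x ∈ QQ Q z p) : KK K z p x := by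
  obtain ⟨g, rfl⟩ := hp
  rw [QQ_eq h] at hx
  obtain ⟨y, hy, rfl⟩ := hx
  refine ⟨g, rfl, ?_⟩
  have e : g⁻¹ * (MulAut.conj g).toMonoidHom y * g = y := by
    show g⁻¹ * (g * y * g⁻¹) * g = y
    group
  rw [e]; exact hQK hy

/-- the data of the argument -/
structure Dat (Q K : Subgroup G) (z : G) : Prop where
  large : Large Q z
  base : Base (cls z) (QQ Q z)
  h64 : ∀ p (hp : p ∈ cls z), 64 ≤ Nat.card (base.large p hp).V
  le : K ≤ Subgroup.centralizer ({z} : Set G)
  ind : K.relIndex (Subgroup.centralizer ({z} : Set G)) = 2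
  QK : Q ≤ K

namespace Dat

variable [Finite G] (D : Dat Q K z) {p t : G} (c : Line (cls z) (QQ Q z) p t)
include D

/-- the centre of `Q o` lies in `K_b` -/
theorem center_mem {o b : G} (l : Line (cls z) (QQ Q z) o b) : KK K z b o := by
  obtain ⟨x, hx, y, hy, hbx, hby, hxy⟩ := l.exists_noncomm_R D.base (D.h64 o l.hp)
  have h1 := KK_comm D.le D.ind l.ht hbx.symm hby.symm
  have L := D.base.large o l.hp
  have e : x * y * x⁻¹ * y⁻¹ = o := by
    rw [hxy, mul_assoc (y * x), (L.commz hx).inv_left.eq.symm, mul_assoc (y * x), mul_assoc x⁻¹,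
      (L.commz hy).inv_left.eq.symm]
    group
  rwa [e] at h1

include c

theorem key1 {o a b w : G} (ho : o ∈ Lset (QQ Q z) p t) (ha : a ∈ Lset (QQ Q z) p t)
    (hb : b ∈ Lset (QQ Q z) p t) (hao : o ≠ a) (hbo : o ≠ b) (hw : w ∈ QQ Q z o)
    (hwL : ∀ x ∈ Lset (QQ Q z) p t, w * x = x * w) : KK K z a w ↔ KK K z b w := by
  by_cases hab : a = b
  · rw [hab]
  obtain ⟨y, hy, -, hyab, -, -⟩ := c.exists_swap D.base ho ha hb hao hbo hab
  have l := (c.of_mem D.base ho hb hbo).1
  have L := D.base.large o l.hp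
  rw [← KK_conj (K := K) (z := z) y (p := a), hyab]
  rcases L.comm y hy w hw with h1 | h1
  · have e : y * w * y⁻¹ = w := by rw [h1]; group
    rw [e]
  · have e : y * w * y⁻¹ = w * o := by
      rw [h1, mul_assoc (w * y), (L.commz hy).inv_left.eq.symm]; group
    have hob : o * b = b * o := l.com
    rw [e, KK_mul D.le D.ind l.ht (hwL b hb) hob]
    have := D.center_mem l
    tauto

/-- `C_{Q p}(t) ≤ K_t` -/
theorem KK_W {w : G} (hw : w ∈ QQ Q z p) (hwt : w * t = t * w) : KK K z t w := by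
  obtain ⟨a, b, e, ha, hb, he, hnd, -, -⟩ := c.five D.base
  simp only [List.nodup_cons, List.mem_cons, List.not_mem_nil, or_false, not_or, List.nodup_nil, and_true,
    not_false_eq_true, ← ne_eq] at hnd
  obtain ⟨⟨hpt, hpa, hpb, hpe⟩, ⟨hta, htb, hte⟩, ⟨hab, hae⟩, hbe⟩ := hnd
  have hpL : p ∈ Lset (QQ Q z) p t := Or.inl rfl
  have htL : t ∈ Lset (QQ Q z) p t := Or.inr (Or.inl rfl)
  have hwL : ∀ x ∈ Lset (QQ Q z) p t, w * x = x * w := fun x hx => c.cent_L D.base hw hwt hx
  obtain ⟨l, hL⟩ := c.of_mem D.base htL ha hta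
  obtain ⟨wt, hwt1, wa, hwa1, hwt2, hwa2, hwta⟩ := l.third D.base (e := p) (r := w) (by rw [hL]; exact hpL)
    hpt hw (by rw [hL]; exact hwL)
  rw [hL] at hwt2 hwa2
  have aP := c.L_sub D.base ha
  have bP := c.L_sub D.base hb
  -- the three values of `w`
  have m1 : KK K z t w ↔ (KK K z t wt ↔ KK K z t wa) := by
    rw [hwta]; exact KK_mul D.le D.ind c.ht (hwt2 t htL) (hwa2 t htL)
  have m2 : KK K z a w ↔ (KK K z a wt ↔ KK K z a wa) := by
    rw [hwta]; exact KK_mul D.le D.ind aP (hwt2 a ha) (hwa2 a ha)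
  have m3 : KK K z b w ↔ (KK K z b wt ↔ KK K z b wa) := by
    rw [hwta]; exact KK_mul D.le D.ind bP (hwt2 b hb) (hwa2 b hb)
  have n1 : KK K z t wt := KK_Q D.large D.QK c.ht hwt1
  have n2 : KK K z a wa := KK_Q D.large D.QK aP hwa1
  have k1 := D.key1 c hpL htL ha hpt hpa hw hwL
  have k2 := D.key1 c hpL htL hb hpt hpb hw hwL
  have k3 := D.key1 c ha htL hb hta.symm hab hwa1 hwa2
  have k4 := D.key1 c htL ha hb hta htb hwt1 hwt2
  tauto

/-- a point `r` of the line other than `p`, `t` centralised by `u` -/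
theorem KK_eq {u r : G} (hr : r ∈ Lset (QQ Q z) p t) (hrp : r ≠ p) (hrt : r ≠ t)
    (hup : u * p = p * u) (hut : u * t = t * u) (hur : u * r = r * u) : KK K z p u ↔ KK K z t u := by
  have hpL : p ∈ Lset (QQ Q z) p t := Or.inl rfl
  have htL : t ∈ Lset (QQ Q z) p t := Or.inr (Or.inl rfl)
  obtain ⟨y, hy, -, hy1, hy2, -⟩ := c.exists_swap D.base hr hpL htL hrp hrt c.ne
  have l := (c.of_mem D.base hr htL hrt).1
  have L := D.base.large r l.hp
  rw [← KK_conj (K := K) (z := z) y (p := p), hy1]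
  have e : y * u * y⁻¹ = (y * (u * y⁻¹ * u⁻¹)) * u := by group
  have hc : y * (u * y⁻¹ * u⁻¹) ∈ QQ Q z r := mul_mem hy (L.conj_mem u hur _ (inv_mem hy))
  have hct : y * (u * y⁻¹ * u⁻¹) * t = t * (y * (u * y⁻¹ * u⁻¹)) := by
    rw [← mul_inv_eq_iff_eq_mul]
    have e1 : u⁻¹ * t * u = t := by rw [mul_assoc, ← hut]; group
    have e2 : y⁻¹ * t * y = p := by rw [← hy1]; group
    calc y * (u * y⁻¹ * u⁻¹) * t * (y * (u * y⁻¹ * u⁻¹))⁻¹
        = y * u * (y⁻¹ * (u⁻¹ * t * u) * y) * u⁻¹ * y⁻¹ := by group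
      _ = y * u * p * u⁻¹ * y⁻¹ := by rw [e1, e2]
      _ = y * (p * u) * u⁻¹ * y⁻¹ := by rw [← hup]; group
      _ = y * p * y⁻¹ := by group
      _ = t := hy1
  rw [e, KK_mul D.le D.ind l.ht hct hut]
  have := D.KK_W l hc hct
  tauto

/-- for 2-elements `u ∈ C(p) ∩ C(t)`: `u ∈ K_p ↔ u ∈ K_t` -/
theorem KK_two {u : G} {k : ℕ} (hu : u ^ (2 ^ k) = 1) (hup : u * p = p * u) (hut : u * t = t * u) :
    KK K z p u ↔ KK K z t u := by
  obtain ⟨a, b, e, ha, hb, he, hnd, hall, -⟩ := c.five D.base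
  simp only [List.nodup_cons, List.mem_cons, List.not_mem_nil, or_false, not_or, List.nodup_nil, and_true,
    not_false_eq_true, ← ne_eq] at hnd
  obtain ⟨⟨hpt, hpa, hpb, hpe⟩, ⟨hta, htb, hte⟩, ⟨hab, hae⟩, hbe⟩ := hnd
  have hupp : u * p * u⁻¹ = p := by rw [hup]; group
  have hutt : u * t * u⁻¹ = t := by rw [hut]; group
  -- `u` permutes `{a, b, e}`
  have hperm : ∀ x ∈ Lset (QQ Q z) p t, p ≠ x → t ≠ x → (u * x * u⁻¹ = a ∨ u * x * u⁻¹ = b ∨ u * x * u⁻¹ = e) := by
    intro x hx hxp hxt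
    have h1 := Lset_conj' D.base c.hp c.ht (g := u) hx
    rw [hupp, hutt] at h1
    rcases hall _ h1 with h2 | h2 | h2 | h2 | h2
    · exfalso; apply hxp
      have : u * x * u⁻¹ = u * p * u⁻¹ := by rw [h2, hupp]
      exact (mul_left_cancel (mul_right_cancel this)).symm
    · exfalso; apply hxt
      have : u * x * u⁻¹ = u * t * u⁻¹ := by rw [h2, hutt]
      exact (mul_left_cancel (mul_right_cancel this)).symm
    · exact Or.inl h2
    · exact Or.inr (Or.inl h2)
    · exact Or.inr (Or.inr h2)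
  have hinj : ∀ x y : G, u * x * u⁻¹ = u * y * u⁻¹ → x = y := fun x y h =>
    mul_left_cancel (mul_right_cancel h)
  -- a three-cycle is impossible
  have hcyc : ∀ x y w : G, u * x * u⁻¹ = y → u * y * u⁻¹ = w → u * w * u⁻¹ = x → u * x * u⁻¹ = x := by
    intro x y w h1 h2 h3
    have h4 : Commute (u ^ 3) x := by
      have : u ^ 3 * x * (u ^ 3)⁻¹ = x := by
        calc u ^ 3 * x * (u ^ 3)⁻¹ = u * (u * (u * x * u⁻¹) * u⁻¹) * u⁻¹ := by
              simp only [pow_succ, pow_zero, one_mul]; group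
          _ = x := by rw [h1, h2, h3]
      exact (mul_inv_eq_iff_eq_mul.1 this)
    have h5 : Commute (u ^ (2 ^ k)) x := by rw [hu]; exact Commute.one_left x
    have hcop : Nat.Coprime (2 ^ k) 3 := Nat.Coprime.pow_left k (by norm_num)
    have h6 : u ∈ Subgroup.centralizer ({x} : Set G) := by
      have h7 : u ^ 3 ∈ Subgroup.centralizer ({x} : Set G) := Subgroup.mem_centralizer_singleton_iff.2 h4.eq
      have h8 : u ^ (2 ^ k) ∈ Subgroup.centralizer ({x} : Set G) :=
        Subgroup.mem_centralizer_singleton_iff.2 h5.eq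
      have h9 := Nat.gcd_eq_gcd_ab (2 ^ k) 3
      rw [hcop] at h9
      have h10 : u = (u ^ (2 ^ k)) ^ (Nat.gcdA (2 ^ k) 3) * (u ^ 3) ^ (Nat.gcdB (2 ^ k) 3) := by
        rw [← zpow_natCast, ← zpow_natCast, ← zpow_mul, ← zpow_mul, ← zpow_add, ← h9]
        simp
      rw [h10]
      exact mul_mem (Subgroup.zpow_mem _ h8 _) (Subgroup.zpow_mem _ h7 _)
    rw [Subgroup.mem_centralizer_singleton_iff] at h6
    rw [h6]; group
  obtain ⟨r, hr, hrp, hrt, hru⟩ : ∃ r ∈ Lset (QQ Q z) p t, r ≠ p ∧ r ≠ t ∧ u * r * u⁻¹ = r := by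
    by_contra hcon
    push Not at hcon
    have na := hcon a ha hpa.symm hta.symm
    have nb := hcon b hb hpb.symm htb.symm
    have ne := hcon e he hpe.symm hte.symm
    rcases hperm a ha hpa hta with h1 | h1 | h1
    · exact na h1
    · rcases hperm b hb hpb htb with h2 | h2 | h2
      · rcases hperm e he hpe hte with h3 | h3 | h3
        · exact hbe (hinj b e (h2.trans h3.symm))
        · exact hae (hinj a e (h1.trans h3.symm))
        · exact ne h3
      · exact nb h2
      · rcases hperm e he hpe hte with h3 | h3 | h3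
        · exact na (hcyc a b e h1 h2 h3)
        · exact hae (hinj a e (h1.trans h3.symm))
        · exact ne h3
    · rcases hperm e he hpe hte with h2 | h2 | h2
      · rcases hperm b hb hpb htb with h3 | h3 | h3
        · exact hbe (hinj b e (h3.trans h2.symm))
        · exact nb h3
        · exact hab (hinj a b (h1.trans h3.symm))
      · rcases hperm b hb hpb htb with h3 | h3 | h3
        · exact na (hcyc a e b h1 h2 h3)
        · exact nb h3
        · exact hab (hinj a b (h1.trans h3.symm))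
      · exact ne h2
  exact D.KK_eq c hr hrp hrt hup hut (mul_inv_eq_iff_eq_mul.1 hru)

end Dat

/-- a 2-element of `C ∖ K` of minimal order -/
theorem exists_two_elt [Finite G] {C : Subgroup G} (h2 : K.relIndex C = 2) :
    ∃ (u : G) (k : ℕ), u ∈ C ∧ u ∉ K ∧ u ^ (2 ^ k) = 1 ∧
      ∀ (m : ℕ) (g : G), 2 ∣ m → g⁻¹ * u ^ m * g ∈ C → g⁻¹ * u ^ m * g ∈ K := by
  classical
  -- some element of `C ∖ K`
  obtain ⟨c, hc, hcK⟩ : ∃ c ∈ C, c ∉ K := by
    by_contra hcon
    push Not at hcon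
    have : K.relIndex C = 1 := Subgroup.relIndex_eq_one.2 hcon
    omega
  -- some 2-element of `C ∖ K`
  have hex : ∃ k : ℕ, ∃ u ∈ C, u ∉ K ∧ orderOf u = 2 ^ k := by
    obtain ⟨k, m, hm, hkm⟩ := Nat.exists_eq_two_pow_mul_odd (n := orderOf c) (orderOf_pos c).ne'
    refine ⟨k, c ^ m, C.pow_mem hc m, ?_, ?_⟩
    · obtain ⟨j, rfl⟩ := hm
      intro h3
      apply hcK
      have h4 : c ^ (2 * j) ∈ K := by
        have h5 : c ^ (2 * j) = c ^ j * c ^ j := by rw [← pow_add]; congr 1; ring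
        rw [h5]
        exact sq_mem_of_index_two h2 (C.pow_mem hc j)
      rw [pow_succ] at h3
      exact (K.mul_mem_cancel_left h4).1 h3
    · rw [orderOf_pow_of_dvd hm.pos.ne' ⟨2 ^ k, by rw [hkm]; ring⟩, hkm,
        Nat.mul_div_cancel _ hm.pos]
  obtain ⟨u, huC, huK, hord⟩ := Nat.find_spec hex
  refine ⟨u, Nat.find hex, huC, huK, by rw [← hord]; exact pow_orderOf_eq_one u, ?_⟩
  intro m g hm hgC
  by_contra hgK
  have hmin := fun j (hj : j < Nat.find hex) => Nat.find_min hex hj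
  -- the order of `u ^ m`
  have h3 : orderOf (g⁻¹ * u ^ m * g) = orderOf (u ^ m) := by
    have : g⁻¹ * u ^ m * g = MulAut.conj g⁻¹ (u ^ m) := by
      rw [MulAut.conj_apply, inv_inv]
    rw [this]
    exact MulEquiv.orderOf_eq (MulAut.conj g⁻¹) (u ^ m)
  have h4 : orderOf (u ^ m) ∣ 2 ^ Nat.find hex := by
    rw [← hord]; exact orderOf_pow_dvd m
  obtain ⟨j, hj, hj2⟩ := (Nat.dvd_prime_pow Nat.prime_two).1 h4
  rcases hj.lt_or_eq with h5 | h5
  · exact hmin j h5 ⟨_, hgC, hgK, h3.trans hj2⟩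
  · rw [h5, ← hord, orderOf_pow] at hj2
    have hpos : 0 < orderOf u := orderOf_pos u
    have hg : Nat.gcd (orderOf u) m = 1 := by
      rcases Nat.div_eq_self.1 hj2 with h6 | h6
      · omega
      · exact h6
    have hk : Nat.find hex ≠ 0 := by
      intro h6
      rw [h6, pow_zero, orderOf_eq_one_iff] at hord
      rw [hord] at huK
      exact huK K.one_mem
    have h7 : 2 ∣ Nat.gcd (orderOf u) m := by
      apply Nat.dvd_gcd _ hm
      rw [hord]
      exact dvd_pow_self 2 hk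
    rw [hg] at h7
    exact absurd h7 (by norm_num)

/-- **All commuting pairs lines: no subgroup of index two.** -/
theorem Dat.false_of_lines [Finite G] (hG : ∀ H : Subgroup G, H.index ≠ 2) (D : Dat Q K z)
    (hall : ∀ t, Com (cls z) z t → Line (cls z) (QQ Q z) z t) : False := by
  classical
  have : Fact (Nat.Prime 2) := ⟨Nat.prime_two⟩
  obtain ⟨u, k, huC, huK, hu, hev⟩ := exists_two_elt D.ind
  have huz : u * z = z * u := Subgroup.mem_centralizer_singleton_iff.1 huC
  set C := Subgroup.centralizer ({z} : Set G) with hC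
  -- the 2-group `⟨z, u⟩`
  set R : Subgroup G := Subgroup.closure {z, u} with hR
  have hRcomm : ∀ x ∈ R, x * z = z * x ∧ x * u = u * x := by
    intro x hx
    have h1 : R ≤ Subgroup.centralizer ({z, u} : Set G) := by
      rw [hR, Subgroup.closure_le]
      rintro y (rfl | rfl)
      · exact Subgroup.mem_centralizer_iff.2 (by
          rintro w (rfl | rfl)
          · rfl
          · exact huz)
      · exact Subgroup.mem_centralizer_iff.2 (by
          rintro w (rfl | rfl)
          · exact huz.symm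
          · rfl)
    have h2 := Subgroup.mem_centralizer_iff.1 (h1 hx)
    exact ⟨(h2 z (by simp)).symm, (h2 u (by simp)).symm⟩
  have hRp : IsPGroup 2 R := by
    have hz2 : z ^ 2 = 1 := by rw [pow_two]; exact D.large.z_sq
    have key : ∀ x ∈ R, x ^ (2 ^ (k + 1)) = 1 := by
      intro x hx
      induction hx using Subgroup.closure_induction with
      | mem y hy =>
        rcases hy with rfl | rfl
        · rw [pow_succ', pow_mul, hz2, one_pow]
        · rw [pow_succ, pow_mul, hu, one_pow]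
      | one => rw [one_pow]
      | mul a b ha hb iha ihb =>
        have hab : Commute a b := by
          have h3 : R ≤ Subgroup.centralizer ({a} : Set G) := by
            rw [hR, Subgroup.closure_le]
            rintro y (rfl | rfl)
            · exact Subgroup.mem_centralizer_singleton_iff.2 (hRcomm a ha).1.symm
            · exact Subgroup.mem_centralizer_singleton_iff.2 (hRcomm a ha).2.symm
          exact (Subgroup.mem_centralizer_singleton_iff.1 (h3 hb)).symm
        rw [hab.mul_pow, iha, ihb, one_mul]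
      | inv a ha iha => rw [inv_pow, iha, inv_one]
    intro x
    exact ⟨k + 1, Subtype.ext (key x x.2)⟩
  have hzR : z ∈ R := Subgroup.subset_closure (by simp)
  have huR : u ∈ R := Subgroup.subset_closure (by simp)
  have heven := TransferPow.even_card_fixed hG D.le D.ind u hu hev R hRp (fun p hp => (hRcomm p hp).2)
  -- all fixed points have sign `-1`
  have hodd : ∀ x : G ⧸ C, (∀ p ∈ R, p • x = x) → Transfer.Odd1 C K u x := by
    intro x hx
    obtain ⟨g, rfl⟩ := QuotientGroup.mk_surjective x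
    rw [Transfer.odd1_iff D.le D.ind]
    have h1 : ∀ p ∈ R, g⁻¹ * p * g ∈ C := fun p hp => (Transfer.smul_eq_iff C p g).1 (hx p hp)
    refine ⟨h1 u huR, ?_⟩
    have h2 : ∀ p ∈ R, p * (g * z * g⁻¹) = (g * z * g⁻¹) * p := by
      intro p hp
      have h5 := Subgroup.mem_centralizer_singleton_iff.1 (h1 p hp)
      calc p * (g * z * g⁻¹) = g * ((g⁻¹ * p * g) * z) * g⁻¹ := by group
        _ = g * (z * (g⁻¹ * p * g)) * g⁻¹ := by rw [h5]
        _ = _ := by group
    rw [← KK_iff D.le D.ind (z := z)]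
    have hzK : ¬ KK K z z u := by
      intro h3
      apply huK
      have e : (1 : G) * z * (1 : G)⁻¹ = z := by group
      have h4 := (KK_iff D.le D.ind (g := (1 : G)) (u := u)).1 (by rw [e]; exact h3)
      have e2 : (1 : G)⁻¹ * u * 1 = u := by group
      rwa [e2] at h4
    by_cases hne : z = g * z * g⁻¹
    · rw [← hne]; exact hzK
    · have hcom : Com (cls z) z (g * z * g⁻¹) := ⟨⟨1, by group⟩, ⟨g, rfl⟩, hne, h2 z hzR⟩
      rw [← D.KK_two (hall _ hcom) hu huz (h2 u huR)]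
      exact hzK
  have hcard : Nat.card {x : G ⧸ C // Transfer.Odd1 C K u x ∧ ∀ p ∈ R, p • x = x} =
      Nat.card (MulAction.fixedPoints R (G ⧸ C)) := by
    apply Nat.card_congr
    refine Equiv.subtypeEquivRight fun x => ?_
    rw [MulAction.mem_fixedPoints]
    constructor
    · rintro ⟨-, h1⟩ p
      exact h1 p p.2
    · intro h1
      have h2 : ∀ p ∈ R, p • x = x := fun p hp => h1 ⟨p, hp⟩
      exact ⟨hodd x h2, h2⟩
  rw [hcard] at heven
  have h3 := hRp.card_modEq_card_fixedPoints (G ⧸ C)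
  rw [← Subgroup.index_eq_card] at h3
  have h4 : Odd C.index := TwoCentral.odd_index D.large
  rw [Nat.even_iff] at heven
  rw [Nat.odd_iff] at h4
  have h5 : C.index % 2 = Nat.card (MulAction.fixedPoints R (G ⧸ C)) % 2 := h3
  omega

end Cfsg.Agent.H333
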