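import Cfsg.Agent.H333.LargeC
import Cfsg.Agent.LargeExtra.WC6
import Cfsg.Agent.LargeExtra.WG6
import Cfsg.Agent.LargeExtra.NineUnitary.HallC
import Cfsg.Agent.LargeExtra.Nine.SpCo
import Cfsg.Agent.LieClassical.SympPerfect
import Cfsg.Agent.Mrg.LargeExtra.WN3

/-!
# `C_G(z)` with a subgroup of index two, `|Q| ≥ 2 ^ 7`: `z` is not weakly closed in `Q` (S3300)
-/

set_option autoImplicit false

namespace Cfsg.Agent.H333

open Cfsg.Agent.Co2Type.Quad Cfsg.Agent.LargeExtra Cfsg.Agent.LargeExtra.WC Cfsg.Agent.LargeExtra.WCIrr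

universe u

/-- `|Q| = 2 ^ 7`: every commuting pair is a line -/
theorem line_seven {G : Type*} [Group G] [Finite G] {P : Set G} {Q : G → Subgroup G} (B : Base P Q)
    (hcard : ∀ p ∈ P, Nat.card (Q p) = 2 ^ 7) {p t : G} (c : Com P p t) : Line P Q p t := by
  have W : WCBase P Q :=
    { conj_mem := B.conj_mem
      exists_conj := B.exists_conj
      large := B.large
      card := hcard
      Q_conj := B.Q_conj
      eq_of_mem := B.eq_of_mem }
  have g : WC.Good P Q p t := WC.Com.good W c
  have good : WCIrr.Good P p t := ⟨c, g.mul_notMem W⟩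
  obtain ⟨x, hx, y, hy, hpx, hpy, hxy⟩ := WC.Com.exists_noncomm W c.symm g.tau'
  obtain ⟨x', hx', y', hy', hpx', hpy', hxy'⟩ := WC.Com.exists_noncomm W c g.tau
  have h1 := good.of_noncomm B hx hpx.symm hy hpy.symm hxy
  have h2 := good.symm.of_noncomm B hx' hpx'.symm hy' hpy'.symm hxy'
  exact line_of_typeU B good ⟨h1.1, h2.1, h1.2⟩

/-- a surjection with kernel in `K` onto a perfect group: `K` has no index two -/
theorem index_ne_two_of_perfect {C M : Type*} [Group C] [Group M] (f : C →* M) (hf : Function.Surjective f)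
    (hM : commutator M = ⊤) (K : Subgroup C) (hK : f.ker ≤ K) : K.index ≠ 2 := by
  intro h2
  have h3 : (K.map f).index = 2 := by
    rw [Subgroup.index_map, sup_eq_left.2 hK, MonoidHom.range_eq_top.2 hf, Subgroup.index_top, mul_one, h2]
  have hn : (K.map f).Normal := Subgroup.normal_of_index_eq_two h3
  have h4 : commutator M ≤ K.map f := by
    rw [commutator_eq_closure, Subgroup.closure_le]
    rintro _ ⟨a, b, rfl⟩
    show a * b * a⁻¹ * b⁻¹ ∈ K.map f
    rw [Subgroup.mul_mem_iff_of_index_two h3, Subgroup.mul_mem_iff_of_index_two h3,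
      Subgroup.mul_mem_iff_of_index_two h3, inv_mem_iff, inv_mem_iff]
    tauto
  rw [hM] at h4
  rw [top_le_iff.1 h4, Subgroup.index_top] at h3
  exact absurd h3 (by norm_num)

/-- **S3300** in the language of `Large`. -/
theorem exists_conj_mem {G : Type u} [Group G] [Finite G] (hG : ∀ H : Subgroup G, H.index ≠ 2)
    {Q : Subgroup G} {z : G} (h : Large Q z)
    (hO : ∀ N : Subgroup (Subgroup.centralizer ({z} : Set G)), N.Normal → IsPGroup 2 N →
      ∀ x ∈ N, (x : G) ∈ Q)
    {n : ℕ} (hn : 3 ≤ n) (hcard : Nat.card Q = 2 ^ (2 * n + 1)) {K : Subgroup G}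
    (hle : K ≤ Subgroup.centralizer ({z} : Set G))
    (h2 : K.relIndex (Subgroup.centralizer ({z} : Set G)) = 2) :
    ∃ g : G, g * z * g⁻¹ ∈ Q ∧ g * z * g⁻¹ ≠ z := by
  classical
  have : Fact (Nat.Prime 2) := ⟨Nat.prime_two⟩
  by_contra hcon
  push Not at hcon
  have hwc : ∀ g : G, g * z * g⁻¹ ∈ Q → g * z * g⁻¹ = z := hcon
  have h128 : 128 ≤ Nat.card Q := by
    rw [hcard]
    calc 128 = 2 ^ 7 := by norm_num
      _ ≤ 2 ^ (2 * n + 1) := Nat.pow_le_pow_right (by norm_num) (by omega)
  have hQK : Q ≤ K := le_of_index_two hG h (by omega) hle h2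
  have hR : NoRefl Q z := noRefl_of_index h (by omega) hG
  have B := base h hwc
  have hz : z ∈ cls z := ⟨1, by group⟩
  have hcQ : ∀ p ∈ cls z, Nat.card (QQ Q z p) = Nat.card Q := by
    intro p hp
    rw [B.card_eq hp hz, QQ_self h]
  have D : Dat Q K z :=
    { large := h
      base := B
      h64 := by
        intro p hp
        have h1 := (B.large p hp).card_eq
        rw [hcQ p hp] at h1
        omega
      le := hle
      ind := h2
      QK := hQK }
  -- a conjugate of `z` commuting with `z`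
  have hex : ∃ g : G, g * z * g⁻¹ ≠ z ∧ g * z * g⁻¹ * z = z * (g * z * g⁻¹) := by
    obtain ⟨u, k, huC, huK, hu, hev⟩ := exists_two_elt h2
    have huz := Subgroup.mem_centralizer_singleton_iff.1 huC
    have hzp : IsPGroup 2 (Subgroup.zpowers z) := by
      rw [IsPGroup.iff_card]
      exact ⟨1, by rw [Nat.card_zpowers, Base.orderOf_z h, pow_one]⟩
    have hzpow : ∀ p ∈ Subgroup.zpowers z, Commute p z := by
      intro p hp
      obtain ⟨m, rfl⟩ := Subgroup.mem_zpowers_iff.1 hp
      exact (Commute.refl z).zpow_left m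
    have hzpowu : ∀ p ∈ Subgroup.zpowers z, Commute p u := by
      intro p hp
      obtain ⟨m, rfl⟩ := Subgroup.mem_zpowers_iff.1 hp
      exact (show Commute z u from huz.symm).zpow_left m
    obtain ⟨g, hg1, hg2, -, -⟩ := TransferPow.exists_conj hG hle h2 u hu
      (fun m g hm hg => hev m g hm (Subgroup.mem_centralizer_singleton_iff.2 hg)) huz huK
      (Subgroup.zpowers z) hzp (fun p hp => (hzpowu p hp).eq) (fun p hp => (hzpow p hp).eq)
    exact ⟨g, hg1, (hg2 z (Subgroup.mem_zpowers z)).symm⟩
  rcases (by omega : n = 3 ∨ n = 4 ∨ 5 ≤ n) with h3 | h3 | h3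
  · subst h3
    exact D.false_of_lines hG fun t c => line_seven B (fun p hp => by rw [hcQ p hp, hcard]) c
  · subst h3
    have hc9 : Nat.card Q = 2 ^ 9 := hcard
    have hcV : Nat.card h.V = 256 := by
      have h1 := h.card_eq
      rw [hc9] at h1
      omega
    have I := uinput h (by rw [hc9]; norm_num) hR hwc hO hex
    obtain ⟨φ, t, -, hU, h1 | h1⟩ := Nine.UCoord.exists_coord hcV I
    · exact D.false_of_lines hG fun t c => NineUnitary.Hall.all_lines h hcV hwc φ h1 c
    · have hn : (Q.subgroupOf (Subgroup.centralizer ({z} : Set G))).Normal :=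
        ⟨fun x hx c => h.conj_mem c (Subgroup.mem_centralizer_singleton_iff.1 c.2) x hx⟩
      have hQC : Q ≤ Subgroup.centralizer ({z} : Set G) := fun x hx => mem_cent h hx
      obtain ⟨e⟩ := Nine.SpCo.exists_sp φ hU h1 (Q.subgroupOf (Subgroup.centralizer ({z} : Set G)))
        (by rw [Subgroup.map_subgroupOf_eq_of_le hQC])
      have hp : commutator (Matrix.symplecticGroup (Fin 3) (ZMod 2)) = ⊤ :=
        Cfsg.Agent.LieClassical.SympPerfect.commutator_eq_top (Or.inl le_rfl)
      refine index_ne_two_of_perfect (e.toMonoidHom.comp (QuotientGroup.mk' _))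
        (e.surjective.comp (QuotientGroup.mk'_surjective _)) hp
        (K.subgroupOf (Subgroup.centralizer ({z} : Set G))) ?_ h2
      intro x hx
      rw [MonoidHom.mem_ker] at hx
      have h5 : (QuotientGroup.mk' (Q.subgroupOf (Subgroup.centralizer ({z} : Set G)))) x = 1 := by
        apply e.injective
        rw [map_one]
        exact hx
      have h6 : x ∈ Q.subgroupOf (Subgroup.centralizer ({z} : Set G)) := by
        rwa [QuotientGroup.mk'_apply, QuotientGroup.eq_one_iff] at h5
      exact hQK h6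
  · have h4 : 2 ^ 11 ≤ Nat.card Q := by
      rw [hcard]
      exact Nat.pow_le_pow_right (by norm_num) (by omega)
    have A := allN_of_wc h h4 hwc hR
    exact D.false_of_lines hG fun t c => A.all z c.hp t c.ht c.ne c.com

end Cfsg.Agent.H333
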