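import Cfsg.Agent.H333.Elim64
import Cfsg.Agent.H333.Ex64
import Cfsg.Agent.MTwelveType.SylowModel

/-!
# A Sylow 2-subgroup of order 64 of a simple group with a self-centralizing element of order 8 conjugate to its
odd powers is of type `M₁₂` (helper333)
-/

set_option autoImplicit false

namespace Cfsg.Agent.H333.MTw

open Cfsg.Agent.H333.Mod64 Cfsg.Agent.H333.Chk64 Cfsg.Agent.H333.Elim64
open Cfsg.Agent.ClassificationK.GTwoModel Cfsg.Agent.MTwelveType.SylowModel

variable {G : Type*} [Group G]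

theorem pow_eq {P : Subgroup G} {φ : ℕ → G} (h : Cod P 0 0 0 φ) (m k : ℕ) : φ m ^ k = φ (powN m k) := by
  induction k with
  | zero => rw [pow_zero]; exact h.one.symm
  | succ k ih => rw [pow_succ, ih, h.mul]; rfl

/-- the code of `bp` -/
theorem bp_eq {P : Subgroup G} {φ : ℕ → G} (h : Cod P 0 0 0 φ) (m : ℕ) (e : Bool) :
    bp (φ m) e = φ (powN m (cond e 1 0)) := by
  rw [← pow_eq h]
  cases e <;> simp [bp]

theorem exists_equiv [Finite G] {P : Subgroup G} {φ : ℕ → G} (h : Cod P 0 0 0 φ) :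
    Nonempty (T (2 * 2) ≃* P) := by
  obtain ⟨r1, r2, r3, r4, r5, r6, r7, r8, r9, r10⟩ := rel_T
  have hmul := liftFun_mul (G := G) (m := 2 * 2) (A := φ 48) (B := φ 50) (C := φ 32) (D := φ 17)
    (by show φ 48 ^ 4 = 1; rw [pow_eq h, r1, h.one]) (by show φ 50 ^ 4 = 1; rw [pow_eq h, r2, h.one])
    (by rw [h.mul, h.mul, r3]) (by rw [h.mul, r4, h.one]) (by rw [h.mul, r5, h.one])
    (by rw [h.mul, h.mul, r6])
    (by rw [eq_inv_mul_iff_mul_eq, ← mul_assoc, h.mul, h.mul, r7])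
    (by rw [eq_inv_mul_iff_mul_eq, ← mul_assoc, h.mul, h.mul, r8])
    (by rw [h.mul, h.mul, r9]) (by rw [h.mul, h.mul, r10])
  let F : T (2 * 2) →* P := MonoidHom.mk' (fun x => ⟨liftFun (φ 48) (φ 50) (φ 32) (φ 17) x, by
    unfold liftFun
    rw [bp_eq h, bp_eq h]
    exact P.mul_mem (P.mul_mem (P.pow_mem (h.mem _) _) (P.pow_mem (h.mem _) _)) (P.mul_mem (h.mem _) (h.mem _))⟩)
    (fun x y => Subtype.ext (hmul x y))
  have hinj : Function.Injective F := by
    rw [injective_iff_map_eq_one]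
    rintro ⟨i, j, e, d⟩ hx
    have h1 : liftFun (φ 48) (φ 50) (φ 32) (φ 17) (⟨i, j, e, d⟩ : T (2 * 2)) = 1 := congrArg Subtype.val hx
    unfold liftFun at h1
    simp only at h1
    rw [bp_eq h, bp_eq h, pow_eq h, pow_eq h, h.mul, h.mul, h.mul] at h1
    have h2 : tau i.val j.val (cond e 1 0) (cond d 1 0) = 0 := (eq_one_iff h (mulN_lt _ _ _ _ _)).1 h1
    have hi : i.val < 4 := ZMod.val_lt i
    have hj : j.val < 4 := ZMod.val_lt j
    have he : (cond e 1 0 : ℕ) < 2 := by cases e <;> simp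
    have hd : (cond d 1 0 : ℕ) < 2 := by cases d <;> simp
    have h3 := tau_ne ⟨i.val, hi⟩ ⟨j.val, hj⟩ ⟨_, he⟩ ⟨_, hd⟩ h2
    obtain ⟨h4, h5, h6, h7⟩ := h3
    have h4' : i.val = 0 := congrArg Fin.val h4
    have h5' : j.val = 0 := congrArg Fin.val h5
    have h6' : (cond e 1 0 : ℕ) = 0 := congrArg Fin.val h6
    have h7' : (cond d 1 0 : ℕ) = 0 := congrArg Fin.val h7
    rw [T.one_def]
    ext
    · exact (ZMod.val_eq_zero i).1 h4'
    · exact (ZMod.val_eq_zero j).1 h5'
    · cases e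
      · rfl
      · simp at h6'
    · cases d
      · rfl
      · simp at h7'
  have hcard : Nat.card (T (2 * 2)) = Nat.card P := by
    rw [T.card_T, card_P h]
    norm_num
  have hbij : Function.Bijective F := (Nat.bijective_iff_injective_and_card F).2 ⟨hinj, hcard⟩
  exact ⟨MulEquiv.ofBijective F hbij⟩

/-- **The Sylow 2-subgroup is of type `M₁₂`.** -/
theorem main [Finite G] (hG : ∀ H : Subgroup G, H.index ≠ 2)
    (P : Sylow 2 G) (hP : Nat.card (P : Subgroup G) = 64)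
    (f : G) (hfP : f ∈ (P : Subgroup G)) (hf : orderOf f = 8)
    (hself : ∀ x ∈ (P : Subgroup G), x * f = f * x → x ∈ Subgroup.zpowers f)
    (hodd : ∀ k ∈ ({3, 5, 7} : Set ℕ), ∃ x ∈ (P : Subgroup G), x * f * x⁻¹ = f ^ k) :
    Nonempty (T (2 * 2) ≃* (P : Subgroup G)) := by
  let f₀ : (P : Subgroup G) := ⟨f, hfP⟩
  have hf₀ : orderOf f₀ = 8 := by rw [← hf]; exact Subgroup.orderOf_mk f hfP
  have hself₀ : ∀ x : (P : Subgroup G), x * f₀ = f₀ * x → x ∈ Subgroup.zpowers f₀ := by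
    rintro ⟨x, hx⟩ h1
    obtain ⟨k, hk⟩ := Subgroup.mem_zpowers_iff.1 (hself x hx (congrArg Subtype.val h1))
    exact Subgroup.mem_zpowers_iff.2 ⟨k, Subtype.ext hk⟩
  have hodd₀ : ∀ k ∈ ({3, 5, 7} : Set ℕ), ∃ x : (P : Subgroup G), x * f₀ * x⁻¹ = f₀ ^ k := by
    intro k hk
    obtain ⟨x, hx, h1⟩ := hodd k hk
    exact ⟨⟨x, hx⟩, Subtype.ext h1⟩
  obtain ⟨b, x, y, s, t, i, hs, ht, hi, hrel, hbn⟩ := Ex64.exists_rel hP hf₀ hself₀ hodd₀
  have hsurj := Ex64.exists_nf hP hf₀ hself₀ hodd₀ hrel hbn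
  have hfin : Function.Bijective (fun n : Fin 64 => nf f₀ b x y n) := by
    rw [Nat.bijective_iff_surjective_and_card]
    refine ⟨fun p => ?_, ?_⟩
    · obtain ⟨n, hn, h1⟩ := hsurj p
      exact ⟨⟨n, hn⟩, h1.symm⟩
    · rw [hP, Nat.card_eq_fintype_card, Fintype.card_fin]
  have hc : Cod (P : Subgroup G) s t i (fun n => ((nf f₀ b x y n : (P : Subgroup G)) : G)) := by
    refine ⟨fun n => (nf f₀ b x y n).2, ?_, fun p q => ?_, fun m hm n hn h1 => ?_, fun p hp => ?_⟩
    · show ((nf f₀ b x y 0 : (P : Subgroup G)) : G) = 1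
      unfold nf
      simp
    · show ((nf f₀ b x y p : (P : Subgroup G)) : G) * ((nf f₀ b x y q : (P : Subgroup G)) : G) = _
      rw [← nf_mul hrel]
      rfl
    · have h2 : (⟨m, hm⟩ : Fin 64) = ⟨n, hn⟩ := hfin.1 (Subtype.ext h1)
      exact congrArg Fin.val h2
    · obtain ⟨n, hn, h1⟩ := hsurj ⟨p, hp⟩
      exact ⟨n, hn, congrArg Subtype.val h1⟩
  have hodd1 : Odd (P : Subgroup G).index := by
    rw [← Nat.not_even_iff_odd, even_iff_two_dvd]
    exact P.not_dvd_index
  have hs' : s = 0 ∨ s = 1 := by omega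
  have ht' : t = 0 ∨ t = 1 := by omega
  have hi' : i = 0 ∨ i = 1 := by omega
  rcases hs' with rfl | rfl <;> rcases ht' with rfl | rfl <;> rcases hi' with rfl | rfl
  · exact exists_equiv hc
  · exact (false_A hc par_001 hG hodd1 chkA_001 (v := 32) (by norm_num) (by decide)).elim
  · exact (false_A hc par_010 hG hodd1 chkA_010 (v := 1) (by norm_num) (by decide)).elim
  · exact (false_A hc par_011 hG hodd1 chkA_011 (v := 32) (by norm_num) (by decide)).elim
  · exact (false_A hc par_100 hG hodd1 chkA_100 (v := 1) (by norm_num) (by decide)).elim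
  · exact (false_A hc par_101 hG hodd1 chkA_101 (v := 32) (by norm_num) (by decide)).elim
  · exact (false_B hc hG hodd1).elim
  · exact (false_A hc par_111 hG hodd1 chkA_111 (v := 32) (by norm_num) (by decide)).elim

/-- a noncommutative simple group has no subgroup of index two -/
theorem index_ne_two [Finite G] [IsSimpleGroup G] (hna : ¬ IsMulCommutative G) (H : Subgroup G) : H.index ≠ 2 := by
  intro hH
  have hn : H.Normal := Subgroup.normal_of_index_eq_two hH
  rcases hn.eq_bot_or_eq_top with h | h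
  · rw [h, Subgroup.index_bot] at hH
    apply hna
    have : IsCyclic G := isCyclic_of_prime_card (p := 2) (hp := ⟨Nat.prime_two⟩) hH
    exact IsCyclic.isMulCommutative
  · rw [h, Subgroup.index_top] at hH
    exact absurd hH (by norm_num)

end Cfsg.Agent.H333.MTw
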