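import Mathlib

/-!
# The groups of order 64 with a normal `M₁₆` and `P / ⟨f²⟩ = Aut M₁₆` (helper333)

`Rel f b x y s t i`: relations; `nf p = f ^ a * b ^ c * x ^ d * y ^ e` for the code `p = a + 8 c + 16 d + 32 e`;
`mulN s t i` is the multiplication of codes.
-/

set_option autoImplicit false

namespace Cfsg.Agent.H333.Mod64

/-- multiplication of codes `a + 8 c + 16 d + 32 e` -/
def mulN (s t i p q : ℕ) : ℕ :=
  (p % 8 + (q % 8 + (p / 32 % 2) * (2 * (q % 8) - 2 * (q % 2))) * (1 + 6 * (p / 16 % 2)) * (1 + 4 * (p / 8 % 2))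
    + 2 * i * (p / 32 % 2) * (q / 16 % 2) * (1 + 6 * (p / 16 % 2)) * (1 + 4 * (p / 8 % 2 + (p / 32 % 2) * (q % 2) + q / 8 % 2))
    + 4 * s * (p / 16 % 2) * (q / 16 % 2) + 4 * t * (p / 32 % 2) * (q / 32 % 2)) % 8
  + 8 * ((p / 8 % 2 + (p / 32 % 2) * (q % 2) + q / 8 % 2 + (p / 32 % 2) * (q / 16 % 2)) % 2)
  + 16 * ((p / 16 % 2 + q / 16 % 2) % 2)
  + 32 * ((p / 32 % 2 + q / 32 % 2) % 2)

variable {G : Type*} [Group G]

/-- the relations -/
structure Rel (f b x y : G) (s t i : ℕ) : Prop where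
  f8 : f ^ 8 = 1
  bb : b * b = 1
  bf : b * f = f ^ 5 * b
  xf : x * f = f ^ 7 * x
  xb : x * b = b * x
  yf : y * f = f * b * y
  yb : y * b = b * y
  xx : x * x = f ^ (4 * s)
  yy : y * y = f ^ (4 * t)
  yx : y * x = f ^ (2 * i) * b * x * y

/-- the element with the given code -/
def nf (f b x y : G) (p : ℕ) : G := f ^ (p % 8) * b ^ (p / 8 % 2) * x ^ (p / 16 % 2) * y ^ (p / 32 % 2)

section
variable {f b x y : G} {s t i : ℕ} (h : Rel f b x y s t i)
include h

theorem fmod (n : ℕ) : f ^ n = f ^ (n % 8) := pow_eq_pow_mod n h.f8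

theorem bmod (n : ℕ) : b ^ n = b ^ (n % 2) := pow_eq_pow_mod n (by rw [pow_two]; exact h.bb)

theorem b_pow (n : ℕ) : b * f ^ n = f ^ (5 * n) * b := by
  induction n with
  | zero => simp
  | succ n ih => rw [pow_succ, ← mul_assoc, ih, mul_assoc, h.bf, ← mul_assoc, ← pow_add]; congr 2

theorem x_pow (n : ℕ) : x * f ^ n = f ^ (7 * n) * x := by
  induction n with
  | zero => simp
  | succ n ih => rw [pow_succ, ← mul_assoc, ih, mul_assoc, h.xf, ← mul_assoc, ← pow_add]; congr 2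

theorem y_pow_two (n : ℕ) : y * f ^ (2 * n) = f ^ (6 * n) * y := by
  induction n with
  | zero => simp
  | succ n ih =>
    have e : y * (f * f) = f ^ 6 * y := by
      calc y * (f * f) = (y * f) * f := by rw [mul_assoc]
        _ = f * b * y * f := by rw [h.yf]
        _ = f * b * (y * f) := by simp only [mul_assoc]
        _ = f * b * (f * b * y) := by rw [h.yf]
        _ = f * (b * f) * b * y := by simp only [mul_assoc]
        _ = f * (f ^ 5 * b) * b * y := by rw [h.bf]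
        _ = f ^ 6 * (b * b) * y := by rw [pow_succ' f 5]; simp only [mul_assoc]
        _ = _ := by rw [h.bb, mul_one]
    calc y * f ^ (2 * (n + 1)) = (y * f ^ (2 * n)) * (f * f) := by rw [mul_add, pow_add]; group
      _ = f ^ (6 * n) * (y * (f * f)) := by rw [ih]; group
      _ = f ^ (6 * (n + 1)) * y := by rw [e, mul_add, pow_add]; group

/-- `y ^ e * (f ^ n * b ^ m)` -/
theorem ly (e n m : ℕ) (he : e = 0 ∨ e = 1) :
    y ^ e * (f ^ n * b ^ m) = f ^ (n + e * (2 * n - 2 * (n % 2))) * b ^ (e * (n % 2) + m) * y ^ e := by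
  have hyb : ∀ m : ℕ, y * b ^ m = b ^ m * y := fun m => by
    have : Commute y b := h.yb
    exact (this.pow_right m)
  rcases he with rfl | rfl
  · simp
  · simp only [pow_one, one_mul]
    rcases Nat.even_or_odd' n with ⟨k, rfl | rfl⟩
    · have e1 : 2 * k % 2 = 0 := by omega
      rw [e1]
      have e2 : 2 * k + (2 * (2 * k) - 2 * 0) = 6 * k := by omega
      rw [e2, zero_add, ← mul_assoc, y_pow_two h, mul_assoc, hyb, ← mul_assoc]
    · have e1 : (2 * k + 1) % 2 = 1 := by omega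
      rw [e1]
      have e2 : 2 * k + 1 + (2 * (2 * k + 1) - 2 * 1) = 6 * k + 1 := by omega
      rw [e2, pow_succ, pow_succ]
      calc y * (f ^ (2 * k) * f * b ^ m) = (y * f ^ (2 * k)) * f * b ^ m := by group
        _ = f ^ (6 * k) * (y * f) * b ^ m := by rw [y_pow_two h]; group
        _ = f ^ (6 * k) * f * b * (y * b ^ m) := by rw [h.yf]; group
        _ = _ := by rw [hyb, pow_add, pow_one]; group

theorem lx (d n m : ℕ) (hd : d = 0 ∨ d = 1) :
    x ^ d * (f ^ n * b ^ m) = f ^ (n * (1 + 6 * d)) * b ^ m * x ^ d := by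
  have hxb : ∀ m : ℕ, x * b ^ m = b ^ m * x := fun m => by
    have : Commute x b := h.xb
    exact (this.pow_right m)
  rcases hd with rfl | rfl
  · simp
  · rw [pow_one, ← mul_assoc, x_pow h, mul_assoc, hxb, ← mul_assoc]
    congr 3
    ring

theorem lb (a c n m : ℕ) (hc : c % 2 = 0 ∨ c % 2 = 1) :
    f ^ a * b ^ c * (f ^ n * b ^ m) = f ^ (a + n * (1 + 4 * (c % 2))) * b ^ (c + m) := by
  have hb1 : b ^ c * f ^ n = f ^ (n * (1 + 4 * (c % 2))) * b ^ c := by
    rw [bmod h c]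
    rcases hc with hc | hc
    · rw [hc]; simp
    · rw [hc, pow_one, b_pow h]
      congr 2
      ring
  calc f ^ a * b ^ c * (f ^ n * b ^ m) = f ^ a * (b ^ c * f ^ n) * b ^ m := by group
    _ = _ := by rw [hb1, pow_add, pow_add]; group

theorem lyx (e d : ℕ) (he : e = 0 ∨ e = 1) (hd : d = 0 ∨ d = 1) :
    y ^ e * x ^ d = f ^ (2 * i * e * d) * b ^ (e * d) * x ^ d * y ^ e := by
  rcases he with rfl | rfl <;> rcases hd with rfl | rfl <;> simp [h.yx]

theorem lxx (d d' : ℕ) (hd : d = 0 ∨ d = 1) (hd' : d' = 0 ∨ d' = 1) :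
    x ^ d * x ^ d' = f ^ (4 * s * d * d') * x ^ ((d + d') % 2) := by
  rcases hd with rfl | rfl <;> rcases hd' with rfl | rfl <;> simp [h.xx]

theorem lyy (e e' : ℕ) (he : e = 0 ∨ e = 1) (he' : e' = 0 ∨ e' = 1) :
    y ^ e * y ^ e' = f ^ (4 * t * e * e') * y ^ ((e + e') % 2) := by
  rcases he with rfl | rfl <;> rcases he' with rfl | rfl <;> simp [h.yy]

/-- `f ^ 4` is central -/
theorem x_four (d n : ℕ) : x ^ d * f ^ (4 * n) = f ^ (4 * n) * x ^ d := by
  have h1 : Commute x (f ^ (4 * n)) := by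
    show x * f ^ (4 * n) = f ^ (4 * n) * x
    rw [x_pow h, fmod h, fmod h (4 * n)]
    congr 2
    omega
  exact h1.pow_left d

theorem b_four (d n : ℕ) : b ^ d * f ^ (4 * n) = f ^ (4 * n) * b ^ d := by
  have h1 : Commute b (f ^ (4 * n)) := by
    show b * f ^ (4 * n) = f ^ (4 * n) * b
    rw [b_pow h, fmod h, fmod h (4 * n)]
    congr 2
    omega
  exact h1.pow_left d

/-- the product of two normal forms, generic form -/
theorem core {a c d e a' c' d' e' A1 A2 c3 : ℕ} (hcb : c = 0 ∨ c = 1) (hdb : d = 0 ∨ d = 1) (heb : e = 0 ∨ e = 1)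
    (hdb' : d' = 0 ∨ d' = 1) (heb' : e' = 0 ∨ e' = 1)
    (hA1 : A1 = a' + e * (2 * a' - 2 * (a' % 2))) (hA2 : A2 = A1 * (1 + 6 * d))
    (hc3 : c3 = c + (e * (a' % 2) + c')) :
    f ^ a * b ^ c * x ^ d * y ^ e * (f ^ a' * b ^ c' * x ^ d' * y ^ e') =
      f ^ (a + A2 * (1 + 4 * c) + 2 * i * e * d' * (1 + 6 * d) * (1 + 4 * c3) + 4 * s * d * d' + 4 * t * e * e') *
        b ^ (c3 + e * d') * x ^ ((d + d') % 2) * y ^ ((e + e') % 2) := by
  have hcm : c % 2 = c := by omega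
  have s1 : f ^ a * b ^ c * x ^ d * y ^ e * (f ^ a' * b ^ c' * x ^ d' * y ^ e') =
      f ^ (a + A2 * (1 + 4 * c)) * b ^ c3 * x ^ d * (y ^ e * x ^ d') * y ^ e' := by
    have t1 := ly h e a' c' heb
    rw [← hA1] at t1
    have t2 := lx h d A1 (e * (a' % 2) + c') hdb
    rw [← hA2] at t2
    have t3 := lb h a c A2 (e * (a' % 2) + c') (by omega)
    rw [hcm, ← hc3] at t3
    calc f ^ a * b ^ c * x ^ d * y ^ e * (f ^ a' * b ^ c' * x ^ d' * y ^ e')
        = f ^ a * b ^ c * x ^ d * (y ^ e * (f ^ a' * b ^ c')) * x ^ d' * y ^ e' := by simp only [mul_assoc]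
      _ = f ^ a * b ^ c * (x ^ d * (f ^ A1 * b ^ (e * (a' % 2) + c'))) * y ^ e * x ^ d' * y ^ e' := by
          rw [t1]; simp only [mul_assoc]
      _ = (f ^ a * b ^ c * (f ^ A2 * b ^ (e * (a' % 2) + c'))) * x ^ d * y ^ e * x ^ d' * y ^ e' := by
          rw [t2]; simp only [mul_assoc]
      _ = _ := by
          rw [t3]; simp only [mul_assoc]
  rw [s1]
  have s2 : f ^ (a + A2 * (1 + 4 * c)) * b ^ c3 * x ^ d * (y ^ e * x ^ d') * y ^ e' =
      f ^ (a + A2 * (1 + 4 * c) + 2 * i * e * d' * (1 + 6 * d) * (1 + 4 * c3)) * b ^ (c3 + e * d') *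
        (x ^ d * x ^ d') * (y ^ e * y ^ e') := by
    have hmod : f ^ (a + A2 * (1 + 4 * c) + 2 * i * e * d' * (1 + 6 * d) * (1 + 4 * c3)) =
        f ^ (a + A2 * (1 + 4 * c) + 2 * i * e * d' * (1 + 6 * d) * (1 + 4 * (c3 % 2))) := by
      rw [fmod h, fmod h (a + A2 * (1 + 4 * c) + 2 * i * e * d' * (1 + 6 * d) * (1 + 4 * (c3 % 2)))]
      congr 1
      have e1 : 2 * i * e * d' * (1 + 6 * d) * (1 + 4 * c3) = 2 * i * e * d' * (1 + 6 * d) + 8 * (i * e * d' * (1 + 6 * d) * c3) := by ring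
      have e2 : 2 * i * e * d' * (1 + 6 * d) * (1 + 4 * (c3 % 2)) = 2 * i * e * d' * (1 + 6 * d) + 8 * (i * e * d' * (1 + 6 * d) * (c3 % 2)) := by ring
      rw [e1, e2]
      omega
    rw [hmod]
    have t1 := lyx h e d' heb hdb'
    have t2 := lx h d (2 * i * e * d') (e * d') hdb
    have t3 := lb h (a + A2 * (1 + 4 * c)) c3 (2 * i * e * d' * (1 + 6 * d)) (e * d') (by omega)
    calc f ^ (a + A2 * (1 + 4 * c)) * b ^ c3 * x ^ d * (y ^ e * x ^ d') * y ^ e'
        = f ^ (a + A2 * (1 + 4 * c)) * b ^ c3 * (x ^ d * (f ^ (2 * i * e * d') * b ^ (e * d'))) * x ^ d' * (y ^ e * y ^ e') := by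
          rw [t1]; simp only [mul_assoc]
      _ = (f ^ (a + A2 * (1 + 4 * c)) * b ^ c3 * (f ^ (2 * i * e * d' * (1 + 6 * d)) * b ^ (e * d'))) * x ^ d * x ^ d' * (y ^ e * y ^ e') := by
          rw [t2]; simp only [mul_assoc]
      _ = _ := by
          rw [t3]; simp only [mul_assoc]
  rw [s2, lxx h d d' hdb hdb', lyy h e e' heb heb']
  have hx4 := x_four h ((d + d') % 2) (t * e * e')
  have hb4 := b_four h (c3 + e * d') (s * d * d')
  have hb4' := b_four h (c3 + e * d') (t * e * e')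
  have r1 : 4 * (t * e * e') = 4 * t * e * e' := by ring
  have r2 : 4 * (s * d * d') = 4 * s * d * d' := by ring
  rw [r1] at hx4 hb4'
  rw [r2] at hb4
  generalize a + A2 * (1 + 4 * c) + 2 * i * e * d' * (1 + 6 * d) * (1 + 4 * c3) = F
  calc f ^ F * b ^ (c3 + e * d') * (f ^ (4 * s * d * d') * x ^ ((d + d') % 2)) *
        (f ^ (4 * t * e * e') * y ^ ((e + e') % 2))
      = f ^ F * (b ^ (c3 + e * d') * f ^ (4 * s * d * d')) * (x ^ ((d + d') % 2) * f ^ (4 * t * e * e')) *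
        y ^ ((e + e') % 2) := by simp only [mul_assoc]
    _ = f ^ F * f ^ (4 * s * d * d') * (b ^ (c3 + e * d') * f ^ (4 * t * e * e')) * x ^ ((d + d') % 2) *
        y ^ ((e + e') % 2) := by rw [hx4, hb4]; simp only [mul_assoc]
    _ = _ := by
        rw [hb4', pow_add f (F + 4 * s * d * d'), pow_add f F]; simp only [mul_assoc]

theorem nf_mul (p q : ℕ) : nf f b x y p * nf f b x y q = nf f b x y (mulN s t i p q) := by
  have dec1 : mulN s t i p q % 8 = (p % 8 + (q % 8 + (p / 32 % 2) * (2 * (q % 8) - 2 * (q % 2))) * (1 + 6 * (p / 16 % 2)) * (1 + 4 * (p / 8 % 2))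
    + 2 * i * (p / 32 % 2) * (q / 16 % 2) * (1 + 6 * (p / 16 % 2)) * (1 + 4 * (p / 8 % 2 + (p / 32 % 2) * (q % 2) + q / 8 % 2))
    + 4 * s * (p / 16 % 2) * (q / 16 % 2) + 4 * t * (p / 32 % 2) * (q / 32 % 2)) % 8 := by
    unfold mulN; omega
  have dec2 : mulN s t i p q / 8 % 2 = (p / 8 % 2 + (p / 32 % 2) * (q % 2) + q / 8 % 2 + (p / 32 % 2) * (q / 16 % 2)) % 2 := by
    unfold mulN; omega
  have dec3 : mulN s t i p q / 16 % 2 = (p / 16 % 2 + q / 16 % 2) % 2 := by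
    unfold mulN; omega
  have dec4 : mulN s t i p q / 32 % 2 = (p / 32 % 2 + q / 32 % 2) % 2 := by
    unfold mulN; omega
  have hq2 : q % 8 % 2 = q % 2 := by omega
  have hc := core h (a := p % 8) (c := p / 8 % 2) (d := p / 16 % 2) (e := p / 32 % 2) (a' := q % 8)
    (c' := q / 8 % 2) (d' := q / 16 % 2) (e' := q / 32 % 2) (by omega) (by omega) (by omega) (by omega) (by omega)
    rfl rfl rfl
  unfold nf
  rw [dec1, dec2, dec3, dec4, hc, ← pow_eq_pow_mod _ h.f8, ← pow_eq_pow_mod _ (by rw [pow_two]; exact h.bb : b ^ 2 = 1),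
    hq2, ← add_assoc]

end

end Cfsg.Agent.H333.Mod64
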